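import Cfsg.Agent.H18.Syl
import Cfsg.Agent.H14.MGroup
import Cfsg.Agent.H59.PermMod

/-!
# The average dimension of fixed point spaces

For a non-trivial irreducible module of a finite solvable group the average dimension of the fixed
point spaces of the elements is at most half the dimension of the module
(Isaacs, Keller, Meierfrankenfeld, Moretó).
-/

set_option autoImplicit false
set_option linter.unusedSectionVars false

namespace Cfsg.Agent.H18

open Cfsg Module

variable {F V Γ : Type*} [Field F] [AddCommGroup V] [Module F V] [FiniteDimensional F V] [Group Γ]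
  [Fintype Γ] (ρ : Representation F Γ V)

/-- The fixed space of an element. -/
def fx (g : Γ) : Submodule F V := LinearMap.ker (ρ g - 1)

theorem mem_fx {g : Γ} {v : V} : v ∈ fx ρ g ↔ ρ g v = v := by
  rw [fx, LinearMap.mem_ker, LinearMap.sub_apply, sub_eq_zero]; rfl

/-- The stabilizer of a vector. -/
def stv (v : V) : Subgroup Γ where
  carrier := {g | ρ g v = v}
  mul_mem' ha hb := by
    rw [Set.mem_ofPred_eq, map_mul, Module.End.mul_apply, show ρ _ v = v from hb]; exact ha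
  one_mem' := by simp
  inv_mem' {g} ha := by
    rw [Set.mem_ofPred_eq, ← show ρ g v = v from ha, ← Module.End.mul_apply, ← map_mul,
      inv_mul_cancel, map_one, show ρ g v = v from ha]; rfl

/-- The fixed space of a subgroup. -/
def fxs (K : Subgroup Γ) : Submodule F V where
  carrier := {v | K ≤ stv ρ v}
  add_mem' ha hb g hg := show ρ g _ = _ by
    rw [map_add, show ρ g _ = _ from ha hg, show ρ g _ = _ from hb hg]
  zero_mem' g _ := map_zero (ρ g)
  smul_mem' c _ ha g hg := show ρ g _ = _ by rw [map_smul, show ρ g _ = _ from ha hg]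

open scoped Classical in
/-- The sum of the elements of a subgroup. -/
noncomputable def sgs (K : Subgroup Γ) : Module.End F V := ∑ g ∈ Finset.univ.filter (· ∈ K), ρ g

theorem mul_sgs (g : Γ) (K : Subgroup Γ) : ρ g * sgs ρ K = sgs ρ (cs g K) * ρ g := by
  classical
  rw [sgs, sgs, Finset.mul_sum, Finset.sum_mul]
  refine Finset.sum_equiv (MulAut.conj g).toEquiv (fun k => by simp) fun k _ => ?_
  rw [← map_mul, ← map_mul]; simp

theorem apply_sgs (g : Γ) (K : Subgroup Γ) (v : V) :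
    ρ g (sgs ρ K v) = sgs ρ (cs g K) (ρ g v) := LinearMap.congr_fun (mul_sgs ρ g K) v

theorem sgs_mem_fxs (K : Subgroup Γ) (v : V) : sgs ρ K v ∈ fxs ρ K := fun k hk => by
  classical
  change (ρ k * sgs ρ K) v = sgs ρ K v
  rw [sgs, Finset.mul_sum]
  congr 1
  exact Finset.sum_equiv (Equiv.mulLeft k) (fun x => by simp [K.mul_mem_cancel_left hk])
    fun x _ => by rw [← map_mul]; rfl

theorem sgs_of_mem_fxs {K : Subgroup Γ} {v : V} (hv : v ∈ fxs ρ K) :
    sgs ρ K v = (Nat.card K : F) • v := by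
  classical
  rw [sgs, LinearMap.sum_apply, Finset.sum_congr rfl fun k hk => hv (Finset.mem_filter.1 hk).2,
    Finset.sum_const, Nat.card_eq_fintype_card, Fintype.card_subtype, Nat.cast_smul_eq_nsmul]

theorem sgs_mem {K : Subgroup Γ} {U : Submodule F V} (hU : ∀ k ∈ K, ∀ v ∈ U, ρ k v ∈ U) {v : V}
    (hv : v ∈ U) : sgs ρ K v ∈ U := by
  classical
  rw [sgs, LinearMap.sum_apply]
  exact U.sum_mem fun k hk => hU k (Finset.mem_filter.1 hk).2 v hv

theorem finrank_eq_map_add_inf_ker (f : V →ₗ[F] V) (S : Submodule F V) :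
    finrank F S = finrank F (S.map f) + finrank F (S ⊓ LinearMap.ker f : Submodule F V) := by
  rw [← LinearMap.finrank_range_add_finrank_ker (f.domRestrict S), LinearMap.range_domRestrict,
    LinearMap.ker_domRestrict, ← Submodule.finrank_map_subtype_eq S,
    Submodule.map_comap_subtype]

theorem finrank_add_le_of_disjoint {S T U : Submodule F V} (h : Disjoint S T) (hS : S ≤ U)
    (hT : T ≤ U) : finrank F S + finrank F T ≤ finrank F U := by
  rw [← Submodule.finrank_sup_add_finrank_inf_eq, h.eq_bot, finrank_bot, add_zero]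
  exact Submodule.finrank_mono (sup_le hS hT)

theorem sum_finrank_fx_coset {A : Subgroup Γ} [hA : A.Normal] [Fintype A] (hab : A ≤ Cz A)
    (hc : (Nat.card A : F) ≠ 0) (x : Γ) (U : Submodule F V)
    (hU : ∀ h ∈ (Subgroup.zpowers (x : Γ ⧸ A)).comap (QuotientGroup.mk' A), ∀ v ∈ U, ρ h v ∈ U)
    (h0 : Disjoint U (fxs ρ A)) :
    ∑ a : A, 2 * finrank F (U ⊓ fx ρ (x * a) : Submodule F V) ≤ Nat.card A * finrank F U := by
  induction hn : finrank F U using Nat.strong_induction_on generalizing U with | _ n ih => ?_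
  subst hn
  by_cases hU0 : U = ⊥
  · subst hU0; simp
  set H := (Subgroup.zpowers (x : Γ ⧸ A)).comap (QuotientGroup.mk' A) with hH
  have hAH : A ≤ H := fun a ha => show (a : Γ ⧸ A) ∈ Subgroup.zpowers (x : Γ ⧸ A) by
    rw [(QuotientGroup.eq_one_iff a).2 ha]; exact one_mem _
  have hxa : ∀ a : A, ((x * a : Γ) : Γ ⧸ A) = x := fun a => QuotientGroup.mk_mul_of_mem x a.2
  obtain ⟨K, hK⟩ := (Set.toFinite {K : Subgroup Γ | K ≤ A ∧ ¬ Disjoint U (fxs ρ K)}).exists_maximal
    ⟨⊥, bot_le, fun h => hU0 (h.eq_bot_of_le fun v _ => (bot_le : ⊥ ≤ stv ρ v))⟩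
  have hKA := hK.prop.1
  have hmax : ∀ v ∈ U, ∀ L ≤ A, ¬ L ≤ K → K ≤ stv ρ v → L ≤ stv ρ v → v = 0 :=
    fun v hv L hL hLK h1 h2 => by
      by_contra h3
      exact hLK (le_sup_right.trans (hK.le_of_ge ⟨sup_le hKA hL, fun h =>
        h3 (Submodule.disjoint_def.1 h v hv (sup_le h1 h2 : K ⊔ L ≤ _))⟩ le_sup_left))
  have hcs : ∀ a ∈ A, ∀ L ≤ A, cs a L = L := fun a ha L hL =>
    mem_Nz_iff_cs.1 (Cz_le_Nz L (Cz_anti hL (hab ha)))
  have hcsA : ∀ g, cs g K ≤ A := fun g y hy => by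
    simpa [mul_assoc] using hA.conj_mem _ (hKA (mem_cs.1 hy)) g
  have hinj : ∀ L ≤ A, ∀ v ∈ fxs ρ L, sgs ρ L v = 0 → v = 0 := fun L hL v hv h => by
    rw [sgs_of_mem_fxs ρ hv, smul_eq_zero] at h
    refine h.resolve_left fun h => hc ?_
    obtain ⟨m, hm⟩ := Subgroup.card_dvd_of_le hL
    rw [hm, Nat.cast_mul, h, zero_mul]
  let U' : Submodule F V := U ⊓ ⨅ h : H, LinearMap.ker (sgs ρ (cs h K))
  have hU' : ∀ v, v ∈ U' ↔ v ∈ U ∧ ∀ h ∈ H, sgs ρ (cs h K) v = 0 := fun v => by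
    simp [U', Submodule.mem_iInf]
  let W : Submodule F V := U ⊓ fxs ρ K
  have hWU : Disjoint W U' := Submodule.disjoint_def.2 fun v hv hv' =>
    hinj K hKA v hv.2 (by simpa [cs_one] using ((hU' v).1 hv').2 1 H.one_mem)
  have hW0 : 0 < finrank F W := Nat.pos_of_ne_zero fun h =>
    hK.prop.2 (disjoint_iff.2 (Submodule.finrank_eq_zero.1 h))
  have h1 := finrank_add_le_of_disjoint hWU inf_le_left inf_le_left
  have h2 := ih _ (by omega) U' (fun h hh v hv => (hU' _).2 ⟨hU h hh v hv.1, fun k hk => by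
    have := ((hU' v).1 hv).2 _ (H.mul_mem (H.inv_mem hh) hk)
    rw [← mul_inv_cancel_left h k, cs_mul, ← apply_sgs, this, map_zero]⟩)
    (h0.mono_left inf_le_left) rfl
  let D : A → Submodule F V := fun a => (U ⊓ fx ρ (x * a)).map (sgs ρ K)
  have hDW : ∀ a, D a ≤ W := by
    rintro a _ ⟨v, hv, rfl⟩
    exact ⟨sgs_mem ρ (fun k hk => hU k (hAH (hKA hk))) hv.1, sgs_mem_fxs ρ K v⟩
  have h3 : ∀ a : A, finrank F (U ⊓ fx ρ (x * a) : Submodule F V) ≤
      finrank F (D a) + finrank F (U' ⊓ fx ρ (x * a) : Submodule F V) := fun a => by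
    rw [finrank_eq_map_add_inf_ker (sgs ρ K)]
    refine Nat.add_le_add_left (Submodule.finrank_mono ?_) _
    intro v hv
    refine ⟨(hU' v).2 ⟨hv.1.1, fun h ⟨m, hm⟩ => ?_⟩, hv.1.2⟩
    have h4 : ((x * a) ^ m)⁻¹ * h ∈ A := by
      rw [← QuotientGroup.eq, QuotientGroup.mk_zpow, hxa]; exact hm
    have h5 : ρ ((x * a) ^ m) v = v := (stv ρ v).zpow_mem ((mem_fx ρ).1 hv.1.2) m
    rw [← mul_inv_cancel_left ((x * a) ^ m) h, cs_mul, hcs _ h4 K hKA, ← h5, ← apply_sgs,
      show sgs ρ K v = 0 from hv.2, map_zero]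
  suffices h4 : ∑ a, 2 * finrank F (D a) + Nat.card A * finrank F U' ≤ Nat.card A * finrank F U by
    refine le_trans (le_trans (Finset.sum_le_sum fun a _ => Nat.mul_le_mul_left 2 (h3 a)) ?_) h4
    simp only [mul_add, Finset.sum_add_distrib]
    omega
  have hxH : x ∈ H := Subgroup.mem_zpowers _
  by_cases hx : cs x K ≤ K
  · have hx' : cs x K = K := eq_of_le_of_card_le hx (card_cs x K).ge
    obtain ⟨a0, ha0, ha0'⟩ := SetLike.not_le_iff_exists.1 fun h : A ≤ K =>
      hK.prop.2 (le_antisymm hKA h ▸ h0)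
    have h5 : ∀ a, D a ≤ fx ρ (x * a) := by
      rintro a _ ⟨v, hv, rfl⟩
      rw [mem_fx, apply_sgs, cs_mul, hcs a a.2 K hKA, hx', (mem_fx ρ).1 hv.2]
    have h6 : ∀ a, finrank F (D a) + finrank F (D (a * ⟨a0, ha0⟩)) ≤ finrank F W := fun a =>
      finrank_add_le_of_disjoint (Submodule.disjoint_def.2 fun v hv hv' => by
        refine hmax v (hDW a hv).1 (Subgroup.zpowers a0) (Subgroup.zpowers_le.2 ha0)
          (by rwa [Subgroup.zpowers_le]) (hDW a hv).2 (Subgroup.zpowers_le.2 ?_)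
        have := (stv ρ v).mul_mem ((stv ρ v).inv_mem ((mem_fx ρ).1 (h5 a hv)))
          ((mem_fx ρ).1 (h5 _ hv'))
        simpa [mul_assoc] using this) (hDW _) (hDW _)
    have h7 := Finset.sum_le_sum fun a (_ : a ∈ Finset.univ) => h6 a
    rw [Finset.sum_add_distrib, show ∑ a, finrank F (D (a * ⟨a0, ha0⟩)) = _ from
      Equiv.sum_comp (Equiv.mulRight (⟨a0, ha0⟩ : A)) (fun a => finrank F (D a)), Finset.sum_const, Finset.card_univ, smul_eq_mul,
      ← Nat.card_eq_fintype_card] at h7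
    rw [← Finset.mul_sum]
    nlinarith
  · let W' : Submodule F V := U ⊓ fxs ρ (cs x K)
    have h5 : finrank F W ≤ finrank F W' := by
      rw [← (LinearEquiv.ofBijective (ρ x) (ρ.apply_bijective x)).finrank_map_eq W]
      refine Submodule.finrank_mono ?_
      rintro _ ⟨v, hv, rfl⟩
      refine ⟨hU x hxH v hv.1, fun k hk => ?_⟩
      change ρ k (ρ x v) = ρ x v
      conv_rhs => rw [← show ρ _ v = v from hv.2 (mem_cs.1 hk)]
      simp only [← Module.End.mul_apply, ← map_mul, mul_assoc, mul_inv_cancel_left]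
    have h6 : ∀ L ≤ A, ∀ L' ≤ A, ∀ v ∈ fxs ρ L, sgs ρ L' v ∈ fxs ρ L := fun L hL L' hL' v hv k hk =>
      show ρ k _ = _ by rw [apply_sgs, hcs k (hL hk) L' hL', show ρ k v = v from hv hk]
    have h7 : Disjoint (W ⊔ W') U' := Submodule.disjoint_def.2 fun v hv hv' => by
      obtain ⟨w, hw, w', hw', rfl⟩ := Submodule.mem_sup.1 hv
      have h8 := ((hU' _).1 hv').2 1 H.one_mem
      have h9 := ((hU' _).1 hv').2 x hxH
      rw [cs_one, map_add, hmax _ (sgs_mem ρ (fun k hk => hU k (hAH (hKA hk))) hw'.1) _ (hcsA x) hx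
        (sgs_mem_fxs ρ K w') (h6 _ (hcsA x) K hKA w' hw'.2), add_zero] at h8
      rw [map_add, hmax _ (sgs_mem ρ (fun k hk => hU k (hAH (hcsA x hk))) hw.1) _ (hcsA x) hx
        (h6 K hKA _ (hcsA x) w hw.2) (sgs_mem_fxs ρ _ w), zero_add] at h9
      rw [hinj K hKA w hw.2 h8, hinj _ (hcsA x) w' hw'.2 h9, add_zero]
    have h8 := finrank_add_le_of_disjoint h7 (sup_le inf_le_left inf_le_left) inf_le_left
    have h9 := finrank_add_le_of_disjoint (S := W) (T := W') (Submodule.disjoint_def.2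
      fun v hv hv' => hmax v hv.1 _ (hcsA x) hx hv.2 hv'.2) le_sup_left le_sup_right
    have h10 := Finset.sum_le_sum fun a (_ : a ∈ Finset.univ) =>
      Nat.mul_le_mul_left 2 (Submodule.finrank_mono (hDW a))
    rw [Finset.sum_const, Finset.card_univ, smul_eq_mul, ← Nat.card_eq_fintype_card] at h10
    refine (Nat.add_le_add_right h10 _).trans ?_
    rw [← mul_add]
    exact Nat.mul_le_mul_left _ (by omega)

theorem sum_finrank_fx_of_abelian {A : Subgroup Γ} [hA : A.Normal] (hab : A ≤ Cz A)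
    (hc : (Nat.card A : F) ≠ 0) (h0 : fxs ρ A = ⊥) :
    ∑ g : Γ, 2 * finrank F (fx ρ g) ≤ Nat.card Γ * finrank F V := by
  have := Fintype.ofFinite A
  have h1 := Finset.sum_le_sum fun x (_ : x ∈ Finset.univ) =>
    sum_finrank_fx_coset ρ hab hc x ⊤ (fun _ _ _ _ => trivial) (by rw [h0]; exact disjoint_bot_right)
  have h2 : ∀ a : A, ∑ x : Γ, 2 * finrank F (⊤ ⊓ fx ρ (x * a) : Submodule F V) =
      ∑ g : Γ, 2 * finrank F (fx ρ g) := fun a =>
    Fintype.sum_equiv (Equiv.mulRight (a : Γ)) _ _ fun g => by rw [top_inf_eq]; rfl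
  rw [Finset.sum_comm, Finset.sum_congr rfl fun a _ => h2 a] at h1
  simp only [Finset.sum_const, Finset.card_univ, smul_eq_mul, ← Nat.card_eq_fintype_card,
    finrank_top] at h1
  exact Nat.le_of_mul_le_mul_left (h1.trans_eq (mul_left_comm _ _ _)) Nat.card_pos

theorem sum_comp_mk {M : Type*} [AddCommMonoid M] (N : Subgroup Γ) [Fintype (Γ ⧸ N)]
    (f : Γ ⧸ N → M) : ∑ g : Γ, f g = Nat.card N • ∑ γ, f γ := by
  have := Fintype.ofFinite N
  rw [← (Subgroup.groupEquivQuotientProdSubgroup (s := N)).symm.sum_comp, Fintype.sum_prod_type,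
    Finset.smul_sum]
  refine Finset.sum_congr rfl fun γ _ => ?_
  have h : ∀ n : N, (((Subgroup.groupEquivQuotientProdSubgroup (s := N)).symm (γ, n) : Γ) : Γ ⧸ N) =
      γ := fun n =>
    congrArg Prod.fst ((Subgroup.groupEquivQuotientProdSubgroup (s := N)).apply_symm_apply (γ, n))
  simp only [h, Finset.sum_const, Finset.card_univ, Nat.card_eq_fintype_card]

theorem fxs_eq_bot_of_not_le_ker
    (hirr : ∀ U : Submodule F V, (∀ g, ∀ v ∈ U, ρ g v ∈ U) → U = ⊥ ∨ U = ⊤) {N : Subgroup Γ}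
    [hN : N.Normal] (h : ¬ N ≤ ρ.ker) : fxs ρ N = ⊥ := by
  refine (hirr (fxs ρ N) fun g v hv n hn => ?_).resolve_right fun h1 => h fun n hn => ?_
  · have h3 : ρ (g⁻¹ * n * g) v = v := hv (by simpa using hN.conj_mem n hn g⁻¹)
    change ρ n (ρ g v) = ρ g v
    conv_rhs => rw [← h3]
    simp only [← Module.End.mul_apply, ← map_mul, mul_assoc, mul_inv_cancel_left]
  · exact LinearMap.ext fun v => (h1.ge Submodule.mem_top : _ ≤ stv ρ v) hn

theorem le_ker_of_pow_mem (p : ℕ) [Fact p.Prime] [CharP F p]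
    (hirr : ∀ U : Submodule F V, (∀ g, ∀ v ∈ U, ρ g v ∈ U) → U = ⊥ ∨ U = ⊤) {N : Subgroup Γ}
    [N.Normal] (h : ∀ x ∈ N, ∃ n, x ^ p ^ n ∈ ρ.ker) : N ≤ ρ.ker := by
  by_contra h0
  let σ : Representation F (Γ ⧸ ρ.ker) V := QuotientGroup.lift ρ.ker ρ le_rfl
  obtain ⟨w, -, hw0, hw⟩ := H59.exists_ne_zero_fixed_of_isPGroup (p := p)
    (P := N.map (QuotientGroup.mk' ρ.ker)) (by
      rintro ⟨_, x, hx, rfl⟩
      obtain ⟨n, hn⟩ := h x hx
      exact ⟨n, Subtype.ext ((QuotientGroup.eq_one_iff _).2 hn)⟩)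
    (σ.comp (Subgroup.subtype _)) ⊤ (fun _ _ _ => trivial) (fun h => h0 fun g _ =>
      LinearMap.ext fun v => by rw [show v = 0 from h.le Submodule.mem_top]; simp)
  exact hw0 ((fxs_eq_bot_of_not_le_ker ρ hirr h0).le fun g hg => hw ⟨_, g, hg, rfl⟩)

theorem sum_finrank_fx_of_irreducible (p : ℕ) [Fact p.Prime] [CharP F p] [Group.IsSolvable Γ]
    (hirr : ∀ U : Submodule F V, (∀ g, ∀ v ∈ U, ρ g v ∈ U) → U = ⊥ ∨ U = ⊤) (hne : ρ.ker ≠ ⊤) :
    ∑ g : Γ, 2 * finrank F (fx ρ g) ≤ Nat.card Γ * finrank F V := by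
  classical
  obtain ⟨N, hN, hlt, -, hch⟩ := H14.exists_chief_above (M := ⊤) hne.lt_top
  obtain ⟨h1, r, hr, h4, k, hk⟩ := H14.chief_elementary_of_solvable ρ.ker N ρ.ker inferInstance
    le_rfl hlt hch
  let σ : Representation F (Γ ⧸ ρ.ker) V := QuotientGroup.lift ρ.ker ρ le_rfl
  have hn : (N.map (QuotientGroup.mk' ρ.ker)).Normal := hN.map _ (QuotientGroup.mk'_surjective _)
  have hcard : Nat.card (N.map (QuotientGroup.mk' ρ.ker)) = r ^ k := by
    rw [← hk, ← Subgroup.relIndex_ker, QuotientGroup.ker_mk']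
  have h3 := sum_finrank_fx_of_abelian σ (A := N.map (QuotientGroup.mk' ρ.ker)) (by
    rintro _ ⟨a, ha, rfl⟩
    refine mem_Cz.2 ?_
    rintro _ ⟨b, hb, rfl⟩
    rw [← commutatorElement_eq_one_iff_mul_comm, ← map_commutatorElement]
    exact (QuotientGroup.eq_one_iff _).2 (h1 (Subgroup.commutator_mem_commutator hb ha))) (by
    intro h
    rw [hcard, CharP.cast_eq_zero_iff F p] at h
    obtain rfl := (Nat.prime_dvd_prime_iff_eq Fact.out hr).1 ((Fact.out : p.Prime).dvd_of_dvd_pow h)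
    exact hlt.not_ge (le_ker_of_pow_mem ρ p hirr fun x hx => ⟨1, by rw [pow_one]; exact h4 x hx⟩))
    (eq_bot_iff.2 fun v hv => (fxs_eq_bot_of_not_le_ker ρ hirr hlt.not_ge).le
      fun n hn => hv ⟨n, hn, rfl⟩)
  refine (sum_comp_mk ρ.ker fun γ => 2 * finrank F (fx σ γ)).trans_le ?_
  rw [Subgroup.card_eq_card_quotient_mul_card_subgroup ρ.ker, mul_comm _ (Nat.card ρ.ker),
    mul_assoc]
  exact Nat.mul_le_mul_left _ h3

end Cfsg.Agent.H18
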