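import Mathlib

/-! The maximal offender lemma for a weakly closed elementary abelian 2-subgroup. -/

namespace Cfsg.Agent.H18.MaxOff

open Subgroup

variable {H : Type*} [Group H]

/-- The conjugate `g A g⁻¹`. -/
def cj (g : H) (A : Subgroup H) : Subgroup H := A.map (MulAut.conj g).toMonoidHom

theorem mem_cj {g x : H} {A : Subgroup H} : x ∈ cj g A ↔ g⁻¹ * x * g ∈ A := by
  constructor
  · rintro ⟨a, ha, rfl⟩
    simpa [mul_assoc] using ha
  · intro h
    exact ⟨_, h, by simp [mul_assoc]⟩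

theorem cj_cj (g h : H) (A : Subgroup H) : cj g (cj h A) = cj (g * h) A := by
  ext x; simp [mem_cj, mul_assoc]

theorem cj_one (A : Subgroup H) : cj 1 A = A := by
  ext x; simp [mem_cj]

theorem cj_inf (g : H) (A B : Subgroup H) : cj g (A ⊓ B) = cj g A ⊓ cj g B := by
  ext x; simp [mem_cj]

theorem cj_mono (g : H) {A B : Subgroup H} (h : A ≤ B) : cj g A ≤ cj g B :=
  fun _ hx => mem_cj.2 (h (mem_cj.1 hx))

theorem card_cj (g : H) (A : Subgroup H) : Nat.card (cj g A) = Nat.card A :=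
  (Nat.card_congr (A.equivMapOfInjective _ (MulAut.conj g).injective).toEquiv).symm

theorem mem_norm_iff {g : H} {A : Subgroup H} : g ∈ normalizer (A : Set H) ↔ cj g A = A := by
  rw [mem_normalizer_iff'']
  constructor
  · intro h; ext x; rw [mem_cj]; exact (h x).symm
  · intro h x; rw [← mem_cj, h]

theorem cj_norm (g : H) (A : Subgroup H) :
    cj g (normalizer (A : Set H)) = normalizer ((cj g A : Subgroup H) : Set H) := by
  ext x
  rw [mem_cj, mem_norm_iff, mem_norm_iff, cj_cj]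
  constructor
  · intro h
    have := congrArg (cj g) h
    rw [cj_cj] at this
    simpa [mul_assoc] using this
  · intro h
    have := congrArg (cj g⁻¹) h
    rw [cj_cj, cj_cj] at this
    simpa [mul_assoc, cj_one] using this

theorem mem_norm_of_le [Finite H] {g : H} {A : Subgroup H} (h : ∀ a ∈ A, g * a * g⁻¹ ∈ A) :
    g ∈ normalizer (A : Set H) := by
  rw [mem_norm_iff]
  refine eq_of_le_of_card_ge ?_ (by rw [card_cj])
  intro x hx
  have := h _ (mem_cj.1 hx)
  simpa [mul_assoc] using this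

/-- Weak closure: no other conjugate of `A` normalises `A`. -/
def WC (A : Subgroup H) : Prop := ∀ g : H, cj g A ≤ normalizer (A : Set H) → cj g A = A

theorem WC.cj {A : Subgroup H} (h : WC A) (k : H) : WC (cj k A) := by
  intro g hg
  have h1 : MaxOff.cj (k⁻¹ * g * k) A ≤ normalizer (A : Set H) := by
    have := cj_mono k⁻¹ hg
    rw [cj_norm, cj_cj, cj_cj, cj_cj] at this
    simpa [cj_one, mul_assoc] using this
  have := congrArg (MaxOff.cj k) (h _ h1)
  rw [cj_cj] at this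
  rw [cj_cj]
  simpa [mul_assoc] using this

/-- In a finite 2-group a proper subgroup has a larger normaliser. -/
theorem grow [Finite H] {K R : Subgroup H} (hR : IsPGroup 2 R) (hKR : K ≤ R) (hne : ¬ R ≤ K) :
    ∃ r ∈ R, r ∉ K ∧ r ∈ normalizer (K : Set H) := by
  have : Fact (Nat.Prime 2) := ⟨Nat.prime_two⟩
  have := hR.isNilpotent
  have hlt : K.subgroupOf R < ⊤ := by
    rw [lt_top_iff_ne_top]
    intro h
    exact hne (subgroupOf_eq_top.1 h)
  obtain ⟨r, hr, hr'⟩ := SetLike.exists_of_lt (Group.normalizerCondition_of_isNilpotent _ hlt)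
  refine ⟨r, r.2, fun h => hr' (mem_subgroupOf.2 h), mem_norm_of_le fun a ha => ?_⟩
  have := (mem_normalizer_iff.1 hr ⟨a, hKR ha⟩).1 (mem_subgroupOf.2 ha)
  exact mem_subgroupOf.1 this

theorem WC.le_norm [Finite H] {A R : Subgroup H} (h : WC A) (hR : IsPGroup 2 R) (hAR : A ≤ R) :
    R ≤ normalizer (A : Set H) := by
  by_contra hne
  obtain ⟨r, hr, hrK, hrn⟩ := grow (K := R ⊓ normalizer (A : Set H)) hR inf_le_left
    (fun hh => hne (le_trans hh inf_le_right))
  have h1 : MaxOff.cj r A ≤ normalizer (A : Set H) := by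
    have h2 : A ≤ R ⊓ normalizer (A : Set H) := le_inf hAR le_normalizer
    have := cj_mono r h2
    rw [mem_norm_iff.1 hrn] at this
    exact le_trans this inf_le_right
  exact hrK ⟨hr, mem_norm_iff.2 (h r h1)⟩

theorem pg_of_sq {A : Subgroup H} (h2 : ∀ a ∈ A, a * a = 1) : IsPGroup 2 A :=
  fun a => ⟨1, Subtype.ext (by simpa [pow_two] using h2 a a.2)⟩

theorem comm_of_sq {A : Subgroup H} (h2 : ∀ a ∈ A, a * a = 1) {a b : H} (ha : a ∈ A) (hb : b ∈ A) :
    a * b = b * a := by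
  have h := h2 _ (A.mul_mem ha hb)
  have ha' : a⁻¹ = a := inv_eq_of_mul_eq_one_right (h2 a ha)
  have hb' : b⁻¹ = b := inv_eq_of_mul_eq_one_right (h2 b hb)
  have : (a * b)⁻¹ = a * b := inv_eq_of_mul_eq_one_right h
  rw [← this, mul_inv_rev, ha', hb']

theorem sq_cj {A : Subgroup H} (h2 : ∀ a ∈ A, a * a = 1) (g : H) : ∀ a ∈ cj g A, a * a = 1 := by
  intro a ha
  have := h2 _ (mem_cj.1 ha)
  have h3 : g⁻¹ * (a * a) * g = 1 := by rw [← this]; group
  have h4 : a * a = g * (g⁻¹ * (a * a) * g) * g⁻¹ := by group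
  rw [h4, h3]; group

/-- an element of `Y ⊔ A` with `Y ≤ N(A)` is a product. -/
theorem mem_sup_prod {A Y : Subgroup H} (hY : Y ≤ normalizer (A : Set H)) {p : H}
    (hp : p ∈ Y ⊔ A) : ∃ y ∈ Y, ∃ a ∈ A, p = y * a := by
  let K : Subgroup H :=
    { carrier := {p | ∃ y ∈ Y, ∃ a ∈ A, p = y * a}
      one_mem' := ⟨1, Y.one_mem, 1, A.one_mem, by simp⟩
      mul_mem' := by
        rintro _ _ ⟨y, hy, a, ha, rfl⟩ ⟨y', hy', a', ha', rfl⟩
        refine ⟨y * y', Y.mul_mem hy hy', (y'⁻¹ * a * y') * a', A.mul_mem ?_ ha', by group⟩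
        exact (mem_normalizer_iff''.1 (hY hy') a).1 ha
      inv_mem' := by
        rintro _ ⟨y, hy, a, ha, rfl⟩
        refine ⟨y⁻¹, Y.inv_mem hy, y * a⁻¹ * y⁻¹, ?_, by group⟩
        exact (mem_normalizer_iff.1 (hY hy) _).1 (A.inv_mem ha) }
  have : Y ⊔ A ≤ K := sup_le (fun y hy => ⟨y, hy, 1, A.one_mem, by simp⟩)
    (fun a ha => ⟨1, Y.one_mem, a, ha, by simp⟩)
  exact this hp

theorem pg_sup [Finite H] {A Y : Subgroup H} (hA : IsPGroup 2 A) (hYp : IsPGroup 2 Y)
    (hY : Y ≤ normalizer (A : Set H)) : IsPGroup 2 (Y ⊔ A : Subgroup H) :=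
  IsPGroup.to_sup_of_normal_right' hYp hA hY

/-- The maximal offender lemma. -/
theorem maxoff [Finite H] (A : Subgroup H) (h2 : ∀ a ∈ A, a * a = 1) (hw : WC A)
    (hns : ∃ g : H, ¬ cj g A ⊓ normalizer (A : Set H) ≤ A) :
    ∃ (g : H) (X Y : Subgroup H), Y = cj g A ⊓ normalizer (A : Set H) ∧
      X = A ⊓ normalizer ((cj g A : Subgroup H) : Set H) ∧ ¬ Y ≤ A ∧ ¬ A ≤ X ∧
      (∀ a ∈ A, a ∈ X ↔ ∀ y ∈ Y, a * y * a⁻¹ * y⁻¹ ∈ Y) ∧ Nat.card X = Nat.card Y ∧
      (∀ t ∈ A, t ∉ X → (∀ y ∈ Y, t * y * t⁻¹ * y⁻¹ ∈ X) →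
        ∀ y ∈ Y, t * y * t⁻¹ * y⁻¹ ∈ Y → y ∈ A) ∧
      (∀ k : H, ¬ cj k A ⊓ normalizer (A : Set H) ≤ A →
        Nat.card (cj k A ⊓ normalizer (A : Set H) : Subgroup H) ≤ Nat.card Y) := by
  classical
  have : Fact (Nat.Prime 2) := ⟨Nat.prime_two⟩
  let off : H → Subgroup H := fun g => cj g A ⊓ normalizer (A : Set H)
  let S : Set H := {g | ¬ off g ≤ A}
  have hSf : S.Finite := Set.toFinite _
  obtain ⟨g1, hg1, hm1⟩ := Set.exists_max_image S (fun g => Nat.card (off g)) hSf hns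
  let S2 : Set H := {g | g ∈ S ∧ Nat.card (off g) = Nat.card (off g1)}
  obtain ⟨g0, ⟨hg0, hc0⟩, hm2⟩ := Set.exists_max_image S2
    (fun g => Nat.card (off g ⊓ A : Subgroup H)) (Set.toFinite _) ⟨g1, hg1, rfl⟩
  set Y := off g0 with hYdef
  -- transport of the two maximality properties to arbitrary pairs
  have tr : ∀ a b : H, cj a (off (a⁻¹ * b)) =
      cj b A ⊓ normalizer ((cj a A : Subgroup H) : Set H) := by
    intro a b
    simp only [off]
    rw [cj_inf, cj_cj, cj_norm]; simp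
  have bad : ∀ a b : H, ¬ cj b A ⊓ normalizer ((cj a A : Subgroup H) : Set H) ≤ cj a A →
      a⁻¹ * b ∈ S := by
    intro a b h hh
    exact h (by rw [← tr]; exact cj_mono a hh)
  have M1 : ∀ a b : H, ¬ cj b A ⊓ normalizer ((cj a A : Subgroup H) : Set H) ≤ cj a A →
      Nat.card (cj b A ⊓ normalizer ((cj a A : Subgroup H) : Set H) : Subgroup H) ≤
        Nat.card Y := by
    intro a b h
    rw [← tr, card_cj, hc0]
    exact hm1 _ (bad a b h)
  have M2 : ∀ a b : H, ¬ cj b A ⊓ normalizer ((cj a A : Subgroup H) : Set H) ≤ cj a A →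
      Nat.card (cj b A ⊓ normalizer ((cj a A : Subgroup H) : Set H) : Subgroup H) = Nat.card Y →
      Nat.card (cj b A ⊓ normalizer ((cj a A : Subgroup H) : Set H) ⊓ cj a A : Subgroup H) ≤
        Nat.card (Y ⊓ A : Subgroup H) := by
    intro a b h hc
    rw [← tr, ← cj_inf, card_cj]
    refine hm2 _ ⟨bad a b h, ?_⟩
    rw [← hc0, ← hc, ← tr, card_cj]
  have hYA : Y ≤ normalizer (A : Set H) := inf_le_right
  have hpA : IsPGroup 2 A := pg_of_sq h2
  -- Sylow step
  let N : Subgroup H := normalizer (Y : Set H)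
  have hBN : cj g0 A ≤ N := by
    intro b hb
    refine mem_norm_of_le fun y hy => ?_
    rw [comm_of_sq (sq_cj h2 g0) hb hy.1]; simpa using hy
  have hU : IsPGroup 2 ((A ⊓ N).subgroupOf N) :=
    (hpA.to_le (inf_le_left : A ⊓ N ≤ A)).comap_subtype
  have hB : IsPGroup 2 ((cj g0 A).subgroupOf N) := (pg_of_sq (sq_cj h2 g0)).comap_subtype
  obtain ⟨R, hR⟩ := hU.exists_le_sylow
  obtain ⟨R', hR'⟩ := hB.exists_le_sylow
  obtain ⟨n, hn⟩ := MulAction.exists_smul_eq N R' R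
  let R0 : Subgroup H := (R : Subgroup N).map N.subtype
  have hR0 : IsPGroup 2 R0 := R.isPGroup'.map _
  let g : H := (n : H) * g0
  have hBR : cj g A ≤ R0 := by
    intro x hx
    rw [← cj_cj, mem_cj] at hx
    have hxN : x ∈ N := by
      have := N.mul_mem (N.mul_mem n.2 (hBN hx)) (N.inv_mem n.2)
      simpa [mul_assoc] using this
    refine ⟨⟨x, hxN⟩, ?_, rfl⟩
    have h1 : (n⁻¹ * ⟨x, hxN⟩ * n : N) ∈ (R' : Subgroup N) := hR' (mem_subgroupOf.2 hx)
    rw [← hn]
    show _ ∈ ((n • R' : Sylow 2 N) : Subgroup N)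
    rw [Sylow.coe_subgroup_smul, Subgroup.mem_pointwise_smul_iff_inv_smul_mem]
    simpa [mul_assoc] using h1
  have hUR : A ⊓ N ≤ normalizer ((cj g A : Subgroup H) : Set H) := by
    refine le_trans ?_ ((hw.cj g).le_norm hR0 hBR)
    intro x hx
    exact ⟨⟨x, hx.2⟩, hR (mem_subgroupOf.2 hx), rfl⟩
  have hYB : Y ≤ cj g A := by
    have h1 : cj (n : H) Y = Y := mem_norm_iff.1 n.2
    rw [← h1, ← cj_cj]
    exact cj_mono _ inf_le_left
  have hYeq : Y = cj g A ⊓ normalizer (A : Set H) := by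
    have hle : Y ≤ cj g A ⊓ normalizer (A : Set H) := le_inf hYB hYA
    refine eq_of_le_of_card_ge hle ?_
    have := M1 1 g (by rw [cj_one]; exact fun h => hg0 (le_trans hle h))
    rwa [cj_one] at this
  set B := cj g A with hBdef
  set X := A ⊓ normalizer (B : Set H) with hXdef
  have h2B : ∀ b ∈ B, b * b = 1 := sq_cj h2 g
  have hXN : ∀ a ∈ A, a ∈ X ↔ a ∈ N := by
    intro a ha
    constructor
    · intro hx
      refine mem_norm_of_le fun y hy => ?_
      rw [hYeq] at hy ⊢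
      exact ⟨(mem_normalizer_iff.1 hx.2 y).1 hy.1, (normalizer (A : Set H)).mul_mem
        ((normalizer (A : Set H)).mul_mem (le_normalizer ha) hy.2)
        ((normalizer (A : Set H)).inv_mem (le_normalizer ha))⟩
    · intro hn'
      exact ⟨ha, hUR ⟨ha, hn'⟩⟩
  have hXc : ∀ a ∈ A, a ∈ X ↔ ∀ y ∈ Y, a * y * a⁻¹ * y⁻¹ ∈ Y := by
    intro a ha
    rw [hXN a ha]
    constructor
    · intro h y hy
      exact Y.mul_mem ((mem_normalizer_iff.1 h y).1 hy) (Y.inv_mem hy)
    · intro h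
      refine mem_norm_of_le fun y hy => ?_
      simpa using Y.mul_mem (h y hy) hy
  have hAB : ¬ A ≤ normalizer (B : Set H) := by
    intro h
    have h1 : cj g⁻¹ B = A := by rw [hBdef, cj_cj]; simp [cj_one]
    have h3 := (hw.cj g) g⁻¹ (by rw [← hBdef, h1]; exact h)
    rw [← hBdef, h1] at h3
    exact hg0 (le_trans hYB h3.ge)
  have hAX : ¬ A ≤ X := fun h => hAB (le_trans h inf_le_right)
  have hpY : IsPGroup 2 Y := (pg_of_sq h2B).to_le hYB
  have hP : IsPGroup 2 (Y ⊔ A : Subgroup H) := pg_sup hpA hpY hYA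
  have hYNB : Y ≤ normalizer (B : Set H) := le_trans hYB le_normalizer
  -- X is not inside B
  have hXB : ¬ X ≤ B := by
    obtain ⟨p, hp, hpY', hpn⟩ := grow (K := Y) hP le_sup_left
      (fun h => hAB (le_trans (le_trans le_sup_right h) hYNB))
    obtain ⟨y, hy, a, ha, rfl⟩ := mem_sup_prod hYA hp
    have haN : a ∈ N := by
      have := N.mul_mem (N.inv_mem (le_normalizer hy)) hpn
      simpa using this
    intro h
    have : a ∈ Y := by
      rw [hYeq]; exact ⟨h ((hXN a ha).2 haN), le_normalizer ha⟩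
    exact hpY' (Y.mul_mem hy this)
  have hXY : Nat.card X ≤ Nat.card Y := by
    have := M1 g 1 (by rw [cj_one]; exact hXB)
    rwa [cj_one] at this
  have hinj : ∀ t ∈ A, t ∉ X → (∀ y ∈ Y, t * y * t⁻¹ * y⁻¹ ∈ X) →
      ∀ y ∈ Y, t * y * t⁻¹ * y⁻¹ ∈ Y → y ∈ A := by
    intro t ht htX hc y hy hyY
    have hle : cj t Y ≤ cj (t * g) A ⊓ normalizer (B : Set H) := by
      refine le_inf (by rw [← cj_cj]; exact cj_mono t hYB) ?_
      intro x hx
      have h1 := mem_cj.1 hx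
      have h3 := (normalizer (B : Set H)).mul_mem (hc _ h1).2 (hYNB h1)
      simpa [mul_assoc] using h3
    have hb : ¬ cj (t * g) A ⊓ normalizer (B : Set H) ≤ B := by
      intro h
      apply htX
      rw [hXN t ht]
      refine mem_norm_of_le fun y hy => ?_
      rw [hYeq]
      refine ⟨h (hle (mem_cj.2 (by simpa [mul_assoc] using hy))), ?_⟩
      exact (normalizer (A : Set H)).mul_mem
        ((normalizer (A : Set H)).mul_mem (le_normalizer ht) (hYA hy))
        ((normalizer (A : Set H)).inv_mem (le_normalizer ht))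
    have hc1 : Nat.card (cj (t * g) A ⊓ normalizer (B : Set H) : Subgroup H) = Nat.card Y :=
      le_antisymm (M1 g _ hb) (by rw [← card_cj t Y]; exact card_le_of_le hle)
    have hD : Y ⊓ A ≤ cj (t * g) A ⊓ normalizer (B : Set H) ⊓ B := by
      intro d hd
      refine ⟨hle (mem_cj.2 ?_), hYB hd.1⟩
      rw [mul_assoc, comm_of_sq h2 hd.2 ht]; simpa using hd.1
    have hDeq := eq_of_le_of_card_ge hD (M2 g _ hb hc1)
    have hty : t * y * t⁻¹ ∈ Y := by simpa using Y.mul_mem hyY hy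
    have : t * y * t⁻¹ ∈ Y ⊓ A := by
      rw [hDeq]
      exact ⟨hle (mem_cj.2 (by simpa [mul_assoc] using hy)), hYB hty⟩
    have h5 := A.mul_mem (A.mul_mem (A.inv_mem ht) this.2) ht
    simpa [mul_assoc] using h5
  refine ⟨g, X, Y, hYeq, rfl, hg0, hAX, hXc, le_antisymm hXY ?_, hinj, ?_⟩
  · -- a suitable t exists
    have hEP : Y ⊔ X ≤ Y ⊔ A := sup_le_sup_left inf_le_left _
    have hEB : Y ⊔ X ≤ normalizer (B : Set H) := sup_le hYNB inf_le_right
    obtain ⟨p, hp, hpE, hpn⟩ := grow (K := Y ⊔ X) hP hEP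
      (fun h => hAB (le_trans (le_trans le_sup_right h) hEB))
    obtain ⟨y0, hy0, t, ht, rfl⟩ := mem_sup_prod hYA hp
    have htn : t ∈ normalizer ((Y ⊔ X : Subgroup H) : Set H) := by
      have := (normalizer ((Y ⊔ X : Subgroup H) : Set H)).mul_mem
        ((normalizer ((Y ⊔ X : Subgroup H) : Set H)).inv_mem
          (le_normalizer (mem_sup_left hy0))) hpn
      simpa using this
    have htX : t ∉ X := fun h => hpE ((Y ⊔ X).mul_mem (mem_sup_left hy0) (mem_sup_right h))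
    have hA' : ∀ a ∈ A, ∀ y ∈ Y, a * y * a⁻¹ * y⁻¹ ∈ A := by
      intro a ha y hy
      have := A.mul_mem ha ((mem_normalizer_iff.1 (hYA hy) _).1 (A.inv_mem ha))
      simpa [mul_assoc] using this
    have hc : ∀ y ∈ Y, t * y * t⁻¹ * y⁻¹ ∈ X := by
      intro y hy
      refine ⟨hA' t ht y hy, hEB ?_⟩
      exact (Y ⊔ X).mul_mem ((mem_normalizer_iff.1 htn y).1 (mem_sup_left hy))
        ((Y ⊔ X).inv_mem (mem_sup_left hy))
    have hDX : Y ⊓ A ≤ X := fun d hd => ⟨hd.2, hYNB hd.1⟩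
    let f : Y ⧸ (Y ⊓ A).subgroupOf Y → X ⧸ (Y ⊓ A).subgroupOf X :=
      fun q => QuotientGroup.mk ⟨t * (q.out : H) * t⁻¹ * (q.out : H)⁻¹, hc _ q.out.2⟩
    have hf : Function.Injective f := by
      intro q q' hq
      have h1 := mem_subgroupOf.1 (QuotientGroup.eq.1 hq)
      set r : H := (q.out : H)
      set s : H := (q'.out : H)
      have hr : r ∈ Y := q.out.2
      have hs : s ∈ Y := q'.out.2
      have h1' : (t * r * t⁻¹ * r⁻¹)⁻¹ * (t * s * t⁻¹ * s⁻¹) ∈ Y := h1.1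
      have h3 : t * (r⁻¹ * s) * t⁻¹ * (r⁻¹ * s)⁻¹ ∈ Y := by
        have e : t * (r⁻¹ * s) * t⁻¹ * (r⁻¹ * s)⁻¹ =
            r⁻¹ * ((t * r * t⁻¹ * r⁻¹)⁻¹ * (t * s * t⁻¹ * s⁻¹)) * r := by group
        rw [e]
        exact Y.mul_mem (Y.mul_mem (Y.inv_mem hr) h1') hr
      have h4 := hinj t ht htX hc _ (Y.mul_mem (Y.inv_mem hr) hs) h3
      rw [← q.out_eq, ← q'.out_eq]
      exact QuotientGroup.eq.2 (mem_subgroupOf.2 ⟨Y.mul_mem (Y.inv_mem hr) hs, h4⟩)
    have hcq := Nat.card_le_card_of_injective f hf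
    rw [card_eq_card_quotient_mul_card_subgroup ((Y ⊓ A).subgroupOf Y),
      card_eq_card_quotient_mul_card_subgroup ((Y ⊓ A).subgroupOf X),
      Nat.card_congr (subgroupOfEquivOfLe (inf_le_left : Y ⊓ A ≤ Y)).toEquiv,
      Nat.card_congr (subgroupOfEquivOfLe hDX).toEquiv]
    exact Nat.mul_le_mul_right _ hcq
  · intro k hk
    have := M1 1 k (by rw [cj_one]; exact hk)
    rwa [cj_one] at this

end Cfsg.Agent.H18.MaxOff
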