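import Cfsg.Agent.H18.RankOneAlg
import Cfsg.Agent.H18.NilBlock
import Cfsg.Agent.H22.Reynolds
import Cfsg.Agent.H4.CoprimeAction
import Cfsg.Agent.H3.Frattini

/-!
# Nilpotency of blocks with a normal defect group
-/

set_option autoImplicit false
set_option linter.unusedSectionVars false

namespace Cfsg.Agent.H18

open Cfsg Cfsg.Agent.H19 MonoidAlgebra
open Cfsg.Agent.H17 (incl LamClosed)
open Cfsg.Agent.H22 (qG infl)

universe u

section

variable {p : ℕ} [Fact p.Prime] {F : Type*} [Field F] [CharP F p] {G : Type*} [Group G] [Finite G]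
  {H P : Subgroup G} {b e : F[G]}

/-- For a normal defect group the inertial group controls fusion. -/
theorem IsMaxPair.exists_NP_of_normal (h : IsMaxPair p H b P e) (hN : H ≤ Nz P) {Q : Subgroup G}
    {f : F[G]} (hs : Sub p H Q f P e) {x : G} (hx : x ∈ NP H Q f) :
    ∃ c ∈ H ⊓ Cz Q, c⁻¹ * x ∈ NP H P e := by
  have hP := h.pairOf.pair
  have hL : H ⊓ Cz Q ≤ Nz (H ⊓ Cz P) :=
    (le_inf inf_le_left (inf_le_left.trans hN)).trans (inf_Nz_le_Nz_inf_Cz H P)
  have ha := orbSum_mem' hL hP.prim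
  have haa := orbSum_idem hL hP.prim
  have h1 : ∀ x ∉ H, (orbSum (H ⊓ Cz Q) e).coeff x = 0 := fun x hx => ha.1 x fun h => hx h.1
  have h2 : ∀ x ∉ Cz P, (orbSum (H ⊓ Cz Q) e).coeff x = 0 := fun x hx => ha.1 x fun h => hx h.2
  have h3 := (hs.occ_iff h1 haa (fun x hx => cj_of_mem_Cz h2 hx) ha.2).1
    (by rw [br_eq_self_iff.2 h2]; exact orbSum_mul_self hL hP.prim)
  have hs' := hs.cj hx.1.1
  rw [mem_Nz_iff_cs.1 hx.1.2, NP_fix hx, mem_Nz_iff_cs.1 (hN hx.1.1)] at hs'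
  have h4 := (hs'.occ_iff h1 haa (fun x hx => cj_of_mem_Cz h2 hx) ha.2).2 h3
  rw [br_eq_self_iff.2 h2] at h4
  have hP' := hP.cj_of_mem_Nz hx.1.1 (hN hx.1.1)
  obtain ⟨c, hc, h5⟩ := ((orbSum_mul hL hP.prim hP'.prim).resolve_right
    fun h => hP'.ne_zero (h4.symm.trans h.1)).2
  have h6 := H.mul_mem (H.inv_mem hc.1) hx.1.1
  exact ⟨c, hc, ⟨h6, hN h6⟩, mem_stab.2 (by rw [cj_mul, ← h5, cj_inv_cj])⟩

theorem IsMaxPair.isNil_of_normal [IsAlgClosed F] (hb : IsPrim (fixAlg F H H) b)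
    (h : IsMaxPair p H b P e) (hN : H ≤ Nz P)
    (hreg : ∀ t ∈ NP H P e, ¬ p ∣ orderOf t → t ∈ Cz P) : IsNil p H b := by
  refine h.isNil_of_inner hb fun Q f hs x hx => ?_
  obtain ⟨c, hc, ht⟩ := h.exists_NP_of_normal hN hs hx
  obtain ⟨n, hn⟩ := pMod_of_regular hreg _ ht
  have hP := h.pairOf.pair
  obtain ⟨k, hk, c', hc', h1⟩ := (mem_sup_iff_of_le_Nz
    ((le_inf hP.le Subgroup.le_normalizer).trans (inf_Nz_le_Nz_inf_Cz H P))).1
    (h.mem_sup_of_pow_mem hb ht (n := n) (Subgroup.mem_sup_right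
      ⟨H.pow_mem ht.1.1 _, hn⟩))
  have hc'Q := Cz_anti hs.le hc'.2
  have hkN : k ∈ Nz Q := by
    rw [show k = c⁻¹ * x * c'⁻¹ by rw [← h1, mul_inv_cancel_right]]
    exact (Nz Q).mul_mem ((Nz Q).mul_mem ((Nz Q).inv_mem (Cz_le_Nz Q hc.2)) hx.1.2)
      ((Nz Q).inv_mem (Cz_le_Nz Q hc'Q))
  refine ⟨k, hk, ?_⟩
  rw [show k⁻¹ * x = k⁻¹ * c * k * c' by rw [mul_assoc, mul_assoc, h1, mul_inv_cancel_left]]
  exact (Cz Q).mul_mem ((conj_mem_Cz hkN).2 hc.2) hc'Q

theorem mem_Cz_of_map_mem_Cz {K : Type*} [Group K] (f : G →* K) (hP : IsPGroup p P)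
    (hk : f.ker ≤ ⁅P, P⁆) {t : G} (hN : t ∈ Nz P) (ht : ¬ p ∣ orderOf t)
    (h : f t ∈ Cz (P.map f)) : t ∈ Cz P := by
  have h1 := H4.le_centralizer_of_commutator_le_frattini (A := Subgroup.zpowers t) (K := P)
    (Subgroup.zpowers_le.2 hN) (by
      obtain ⟨n, hn⟩ := IsPGroup.iff_card.1 (hP.to_subgroup (frattini P))
      rw [hn, Nat.card_zpowers]
      exact ((Nat.Prime.coprime_iff_not_dvd Fact.out).2 ht).symm.pow_right n)
    (le_trans (Subgroup.commutator_le.2 fun d hd a ha => by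
      have h2 : f a ∈ Cz (P.map f) := (Subgroup.zpowers_le.2 (show t ∈ (Cz (P.map f)).comap f
        from h)) ha
      rw [MonoidHom.mem_ker, map_commutatorElement, commutatorElement_eq_one_iff_mul_comm]
      exact mem_Cz.1 h2 _ ⟨d, hd, rfl⟩) (hk.trans (H3.commutator_le_map_frattini hP)))
  exact le_Cz_comm.1 h1 (Subgroup.mem_zpowers t)

end

theorem incl_qG_subgroupMap {R : Type*} [CommRing R] {G H : Type u} [Group G] [Group H]
    (f : G →* H) (K : Subgroup G) (a : R[K]) :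
    incl (K.map f) (qG (f.subgroupMap K) a) = qG f (incl K a) := by
  induction a using MonoidAlgebra.induction_linear with
  | zero => simp
  | add x y hx hy => simp only [map_add, hx, hy]
  | single g r => rw [H22.qG_single, H17.incl_single, H17.incl_single, H22.qG_single]; rfl

variable {G H : Type u} [Group G] [Finite G] [Group H] [Finite H] {M : Ideal AlgInt} {p : ℕ}
  [Fact p.Prime] {B : Set (IrrCharacter G)} {D : Subgroup G} {e : (kk M)[G]} {f : G →* H}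

theorem IsPair.isPrim_qG (hM : IsPModular p M) (h : IsPair p ⊤ D e) (hk : f.ker ≤ D) :
    IsPrim (fixAlg (kk M) ((D ⊔ Cz D).map f) ((D ⊔ Cz D).map f)) (qG f e) := by
  have := charP_kk hM
  obtain ⟨b, hb, rfl⟩ := exists_bid_eq hM.2.1 (h.isPrim_self (L := D ⊔ Cz D)
    (inf_le_right.trans le_sup_right) le_sup_left
    (le_inf le_top (sup_le Subgroup.le_normalizer (Cz_le_Nz D)))
    (sup_le (h.fix : D ≤ stab e) fun x hx => h.fixC x ⟨trivial, hx⟩ : D ⊔ Cz D ≤ stab e))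
  have hs := f.subgroupMap_surjective (D ⊔ Cz D)
  have hker : ∀ x ∈ (f.subgroupMap (D ⊔ Cz D)).ker, (x : G) ∈ D := fun x hx =>
    hk (congrArg Subtype.val hx)
  have h1 := H22.isPBlock_preimage_of_preg hs hM (fun x => by
    obtain ⟨n, hn⟩ := h.isP ⟨_, hker x x.2⟩
    have hn' : (((x : (D ⊔ Cz D : Subgroup G)) : G)) ^ p ^ n = 1 := congrArg Subtype.val hn
    exact ⟨n, Subtype.ext (Subtype.ext hn')⟩)
    (fun y hy => mem_Cz.2 fun x hx => Subtype.ext (mem_Cz.1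
      ((pMod_sup h.isP (Subgroup.le_normalizer.trans (Nz_le_Nz_Cz D))).mem_of_not_dvd y.2
        (by rwa [Subgroup.orderOf_coe])) _ (hker x hx))) hb
  have h2 := isPrim_bid hM.2.1 h1
  rwa [bid, ← H22.qG_gid hs (H17.lamClosed_of_isPBlock hM.2.1 hb), incl_qG_subgroupMap] at h2

/-- A block of `G / D'` whose inertial group contains the image of the inertial group of `B`. -/
theorem exists_dominated_maxPair (hM : IsPModular p M) (hB : IsPBlock M B) [D.Normal]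
    (hm : IsMaxPair p ⊤ (gid M B) D e) (hf : Function.Surjective f) (hk : f.ker = ⁅D, D⁆) :
    ∃ (b : Set (IrrCharacter H)) (c : (kk M)[H]), IsPBlock M b ∧ b ⊆ infl hf ⁻¹' B ∧
      IsMaxPair p ⊤ (gid M b) (D.map f) c ∧ ∀ t ∈ NP ⊤ D e, f t ∈ NP ⊤ (D.map f) c := by
  have := charP_kk hM
  have hP := hm.pairOf.pair
  have hA := H17.lamClosed_of_isPBlock hM.2.1 hB
  have hkD : f.ker ≤ D := hk ▸ Subgroup.commutator_le_left D D
  have hn : (D.map f).Normal := Subgroup.Normal.map inferInstance f hf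
  have hN : ∀ x : H, x ∈ Nz (D.map f) := fun x => by
    rw [Nz, Subgroup.normalizer_eq_top]; trivial
  have hN' : ∀ x : G, x ∈ Nz D := fun x => by rw [Nz, Subgroup.normalizer_eq_top]; trivial
  have he := hP.isPrim_qG hM hkD
  have hKH : (D ⊔ Cz D).map f ≤ ⊤ ⊓ Cz (D.map f) := by
    rw [top_inf_eq, Subgroup.map_sup]
    refine sup_le ?_ ?_
    · rintro _ ⟨a, ha, rfl⟩
      refine mem_Cz.2 ?_
      rintro _ ⟨b, hb, rfl⟩
      rw [← commutatorElement_eq_one_iff_mul_comm, ← map_commutatorElement, ← MonoidHom.mem_ker, hk]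
      exact Subgroup.commutator_mem_commutator hb ha
    · rintro _ ⟨a, ha, rfl⟩
      exact H22.map_mem_Cz f ha
  have hmod : PMod p ((D ⊔ Cz D).map f) (⊤ ⊓ Cz (D.map f)) := pMod_of_regular fun x hx hp => by
    obtain ⟨y, rfl, hy⟩ := H22.exists_preg_lift hf hp
    exact ⟨y, Subgroup.mem_sup_right (mem_Cz_of_map_mem_Cz f hP.isP hk.le (hN' y) hy hx.2), rfl⟩
  obtain ⟨c, hc, h1⟩ := exists_isPrim_mul_ne_zero (isCommSub_ZC (F := kk M) ⊤ (D.map f)) he.ne_zero
  have hc' : IsPair p ⊤ (D.map f) c := ⟨le_top, hP.isP.map f, hc⟩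
  have h2 : c * qG f e = qG f e := he.mul_eq_of_ne_zero
    (fixAlg_mono le_rfl hKH (mem_fixAlg_of_pMod hM hmod hc.mem hc.idem)) hc.idem h1
  obtain ⟨_, ⟨h3, h4⟩, -⟩ := hc'.existsUnique_block
  obtain ⟨b, hb, rfl⟩ := exists_gid_eq hM.2.1 h3
  have hb' := H17.lamClosed_of_isPBlock hM.2.1 hb
  have hA' := H22.lamClosed_preimage_infl hf hA
  have hsub : b ⊆ infl hf ⁻¹' B := by
    obtain ⟨ψ, hψ⟩ : (infl hf ⁻¹' B ∩ b).Nonempty := by
      by_contra h0
      have h5 : gid M (infl hf ⁻¹' B) * gid M b = 0 := by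
        have := congrArg Subtype.val (H17.eB_mul hA' hb')
        rwa [Set.not_nonempty_iff_eq_empty.1 h0, H17.eB_empty] at this
      apply he.ne_zero
      calc qG f e = br (D.map f) (gid M (infl hf ⁻¹' B)) * (br (D.map f) (gid M b) * c * qG f e) := by
            rw [h4, h2, H22.br_map_gid hf hM hA hP.isP, ← map_mul, hm.pairOf.occ]
        _ = 0 := by
            rw [← mul_assoc, ← mul_assoc, ← br_mul hc'.isP (fun g _ => cj_gid _ g)
              (fun g _ => cj_gid _ g), h5, map_zero, zero_mul, zero_mul]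
    exact H22.subset_preimage_of_mem hf hM.2.1 hb hA hψ.2 hψ.1
  have hpo : IsPairOf p ⊤ (gid M b) (D.map f) c := ⟨hc', h4⟩
  refine ⟨b, c, hb, hsub, hpo.isMaxPair ((isDefectGroup_iff_gid hM hb).1
    (H22.dg_map_of_br hf hM hB hb hsub ((isDefectGroup_iff_gid hM hB).2
      (hm.isDefect (isPrim_gid hM.2.1 hB))) hpo.br_ne_zero)), fun t ht => ⟨⟨trivial, hN _⟩, ?_⟩⟩
  have h5 : cj (f t) (qG f e) = qG f e := by rw [H22.cj_qG, NP_fix ht]
  refine ((hc'.eq_of_mul_ne_zero (hc'.cj_of_mem_Nz trivial (hN (f t)))) fun h0 => he.ne_zero ?_).symm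
  rw [← h2, ← h5, ← h2, map_mul, ← mul_assoc, h0, zero_mul]

end Cfsg.Agent.H18
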