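import Cfsg.Agent.H18.O8Geo

/-! An apartment of the point-line geometry over the field with two elements. -/

set_option autoImplicit false

namespace Cfsg.Agent.H18O8

open Cfsg.Agent.H83 Cfsg.Agent.H15.O8 Subgroup

variable {G : Type*} [Group G] {Z W : Subgroup G}

theorem step_cj {l p l' p' : Subgroup G} (s : Step Z W l p l' p') (g : G) :
    Step Z W (cj g l) (cj g p) (cj g l') (cj g p') := by
  obtain ⟨a, b, c, d, e, f, i, j, k⟩ := s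
  exact ⟨cj_cj a g, cj_cj b g, cj_cj c g, cj_cj d g, cj_mono g e, cj_mono g f, cj_mono g i,
    fun x => j (cj_inj.1 x), fun x => k (cj_inj.1 x)⟩

theorem step_rev {l0 p0 l p l' p' : Subgroup G} (s : Step Z W l0 p0 l p) (t : Step Z W l p l' p') :
    Step Z W l' p l p0 := by
  obtain ⟨-, b, -, -, -, f, -, -, k⟩ := s
  obtain ⟨a', b', c', -, e', f', -, j', -⟩ := t
  exact ⟨c', b', a', b, f', e', f, j'.symm, k.symm⟩

theorem cj_sq {n : G} (hn : n * n = 1) (x : Subgroup G) : cj n (cj n x) = x := by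
  rw [← cj_mul, hn, cj_one]

theorem cj_swap {n : G} (hn : n * n = 1) {x y : Subgroup G} (e : cj n x = y) : cj n y = x := by
  rw [← e, cj_sq hn]

theorem orb_inj (H x : Subgroup G) (P : Subgroup G → Prop) (hP : ∀ g ∈ H, P (cj g x)) :
    ∃ f : H ⧸ (normalizer (x : Set G)).subgroupOf H → {y // P y}, Function.Injective f ∧
      ∀ g : H, (f g).1 = cj (g : G) x := by
  refine ⟨fun a => Quotient.liftOn' a (fun g : H => (⟨cj g x, hP g g.2⟩ : {y // P y}))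
    fun a b e => Subtype.ext ?_, ?_, fun g => rfl⟩
  · have : (a : G)⁻¹ * b ∈ normalizer (x : Set G) :=
      mem_subgroupOf.1 (QuotientGroup.leftRel_apply.1 e)
    change cj (a : G) x = cj (b : G) x
    rw [← mul_inv_cancel_left (a : G) b, cj_mul, cj_eq_self this]
  · intro a b
    induction a using QuotientGroup.induction_on with | _ a =>
    induction b using QuotientGroup.induction_on with | _ b =>
    intro e
    have e1 : cj (a : G) x = cj (b : G) x := congrArg Subtype.val e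
    refine QuotientGroup.eq.2 (mem_subgroupOf.2 (cj_eq_self_iff.1 ?_))
    change cj ((a : G)⁻¹ * b) x = x
    rw [cj_mul, ← e1, cj_inv_cj]

variable [Finite G]

theorem card_le_orb (H x : Subgroup G) (P : Subgroup G → Prop) (hP : ∀ g ∈ H, P (cj g x)) :
    Nat.card H ≤ Nat.card {y // P y} * Nat.card ↥(H ⊓ normalizer (x : Set G)) := by
  obtain ⟨f, hf, -⟩ := orb_inj H x P hP
  have h1 : (normalizer (x : Set G)).relIndex H ≤ _ := Nat.card_le_card_of_injective f hf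
  have h2 : Nat.card ↥(H ⊓ normalizer (x : Set G)) * (normalizer (x : Set G)).relIndex H =
      Nat.card H := by
    rw [← inf_relIndex_left, ← relIndex_bot_left, ← relIndex_bot_left]
    exact relIndex_mul_relIndex ⊥ _ _ bot_le inf_le_left
  rw [← h2, mul_comm]
  exact Nat.mul_le_mul_right _ h1

theorem orb_surj (H x : Subgroup G) (P : Subgroup G → Prop) (hP : ∀ g ∈ H, P (cj g x))
    (h0 : H ⊓ normalizer (x : Set G) = ⊥) (hc : Nat.card {y // P y} ≤ Nat.card H) {y : Subgroup G}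
    (hy : P y) : ∃ g ∈ H, cj g x = y := by
  obtain ⟨f, hf, e⟩ := orb_inj H x P hP
  have h1 : (normalizer (x : Set G)).relIndex H = Nat.card H := by
    rw [← inf_relIndex_left, h0, relIndex_bot_left]
  obtain ⟨a, ha⟩ := (hf.bijective_of_nat_card_le (hc.trans h1.ge)).2 ⟨y, hy⟩
  induction a using QuotientGroup.induction_on with | _ a =>
  exact ⟨a, a.2, (e a).symm.trans (congrArg Subtype.val ha)⟩

theorem card_erase {P : Subgroup G → Prop} {n : ℕ} (h : Nat.card {y // P y} = n + 1)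
    {x : Subgroup G} (hx : P x) : Nat.card {y // P y ∧ y ≠ x} = n := by
  have h1 := Set.ncard_sdiff_singleton_add_one (s := {y | P y}) (a := x) hx
  have h2 : ({y | P y} : Set (Subgroup G)).ncard = n + 1 := h
  have h3 : ({y | P y} \ {x} : Set (Subgroup G)).ncard = Nat.card {y // P y ∧ y ≠ x} := rfl
  omega

theorem exists_ne_of_card {P : Subgroup G → Prop} (h : 3 ≤ Nat.card {y // P y}) (a b : Subgroup G) :
    ∃ y, P y ∧ y ≠ a ∧ y ≠ b := by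
  by_contra k
  have h1 : {y | P y} ⊆ {a, b} := fun y hy => by
    by_contra e
    simp only [Set.mem_insert_iff, Set.mem_singleton_iff, not_or] at e
    exact k ⟨y, hy, e⟩
  have h2 := (Set.ncard_le_ncard h1).trans (Set.ncard_insert_le a {b})
  have h3 : ({y | P y} : Set (Subgroup G)).ncard = Nat.card {y // P y} := rfl
  rw [Set.ncard_singleton] at h2
  omega

/-- The hypotheses of the construction. -/
structure Q2 (Z W : Subgroup G) : Prop where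
  h : Geo Z W 2
  hg : GeoG Z W 2
  hZ : Nat.card Z = 2
  h1 : IsPGroup 2 ↥(centralizer (Z : Set G) ⊓ normalizer (W : Set G))
  h2 : ∃ g ∈ centralizer (Z : Set G) ⊓ normalizer (W : Set G), g ∉ centralizer (W : Set G)
  h3 : ∀ g ∈ centralizer (Z : Set G) ⊓ normalizer (W : Set G),
    ∀ g' ∈ centralizer (Z : Set G) ⊓ normalizer (W : Set G), g * g = 1 → g' * g' = 1 →
      (∀ l, Cj W l → Z ≤ l → g ∈ normalizer (l : Set G)) ∨
      (∀ l, Cj W l → Z ≤ l → g' ∈ normalizer (l : Set G)) ∨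
      ∀ l, Cj W l → Z ≤ l → g * g' ∈ normalizer (l : Set G)

/-- A closed path of length sixteen without backtracking. -/
structure Oct (Z W p0 l1 p2 l3 p4 l5 p6 l7 p8 l9 p10 l11 p12 l13 p14 l15 : Subgroup G) : Prop where
  f1 : Step Z W l1 p2 l3 p4
  f3 : Step Z W l3 p4 l5 p6
  f5 : Step Z W l5 p6 l7 p8
  f7 : Step Z W l7 p8 l9 p10
  f9 : Step Z W l9 p10 l11 p12
  f11 : Step Z W l11 p12 l13 p14
  f13 : Step Z W l13 p14 l15 p0
  f15 : Step Z W l15 p0 l1 p2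

namespace Q2

variable (Q : Q2 Z W) {x y z l m a b : Subgroup G}
include Q

omit [Finite G] in
theorem nc (hx : Cj Z x) : normalizer (x : Set G) ≤ centralizer (x : Set G) := by
  have hc : Nat.card x = 2 := by
    obtain ⟨g, rfl⟩ := hx
    rw [card_cj, Q.hZ]
  intro g hg w hw
  by_cases e : w = 1
  · rw [e, one_mul, mul_one]
  obtain ⟨v, -, hv⟩ := (Nat.card_eq_two_iff' (1 : x)).1 hc
  have h1 := hv ⟨w, hw⟩ fun k => e (congrArg Subtype.val k)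
  have h2 := hv ⟨g * w * g⁻¹, conj_mem le_rfl hg hw⟩ fun k =>
    (ne_iff g w).2 e (congrArg Subtype.val k)
  exact (mul_inv_eq_iff_eq_mul.1 (congrArg Subtype.val (h2.trans h1.symm))).symm

omit [Finite G] in
theorem cl (hx : Cj Z x) (hy : Cj Z y) (hl : Cj W l) (xl : x ≤ l) (yl : y ≤ l) (e : x ≠ y) {g : G}
    (g1 : cj g x = x) (g2 : cj g y = y) : g ∈ centralizer (l : Set G) := by
  rw [← span Q.h hx hy hl xl yl e.symm, centralizer_sup]
  exact ⟨Q.nc hx (cj_eq_self_iff.1 g1), Q.nc hy (cj_eq_self_iff.1 g2)⟩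

theorem third (hl : Cj W l) (a b : Subgroup G) : ∃ y, (Cj Z y ∧ y ≤ l) ∧ y ≠ a ∧ y ≠ b :=
  exists_ne_of_card (P := fun y => Cj Z y ∧ y ≤ l) (npt Q.h hl).ge a b

theorem three_pts (hx : Cj Z x) (hy : Cj Z y) (hz : Cj Z z) (ha : Cj Z a) (hl : Cj W l)
    (xl : x ≤ l) (yl : y ≤ l) (zl : z ≤ l) (al : a ≤ l) (xy : x ≠ y) (xz : x ≠ z) (yz : y ≠ z)
    (ax : a ≠ x) (ay : a ≠ y) : a = z := by
  have h1 := card_erase (P := fun w => (Cj Z w ∧ w ≤ l) ∧ w ≠ x) (n := 1)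
    (card_erase (P := fun w => Cj Z w ∧ w ≤ l) (n := 2) (npt Q.h hl) ⟨hx, xl⟩) ⟨⟨hy, yl⟩, xy.symm⟩
  exact congrArg Subtype.val ((Nat.card_eq_one_iff_unique.1 h1).1.elim
    ⟨a, ⟨⟨ha, al⟩, ax⟩, ay⟩ ⟨z, ⟨⟨hz, zl⟩, xz.symm⟩, yz.symm⟩)

/-- An element which fixes one point of a line and does not centralize it swaps the others. -/
theorem swap (hx : Cj Z x) (hy : Cj Z y) (hz : Cj Z z) (hl : Cj W l) (xl : x ≤ l) (yl : y ≤ l)
    (zl : z ≤ l) (xy : x ≠ y) (xz : x ≠ z) (yz : y ≠ z) {g : G} (g0 : g ∈ normalizer (l : Set G))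
    (g1 : cj g x = x) (g2 : g ∉ centralizer (l : Set G)) : cj g y = z :=
  Q.three_pts hx hy hz (cj_cj hy g) hl xl yl zl (cj_le_of_norm yl g0) xy xz yz
    (fun e => xy (cj_inj.1 (g1.trans e.symm))) fun e => g2 (Q.cl hx hy hl xl yl xy g1 e)

theorem sq_cent (hx : Cj Z x) (hl : Cj W l) (xl : x ≤ l) {g : G} (g0 : g ∈ normalizer (l : Set G))
    (g1 : cj g x = x) : g * g ∈ centralizer (l : Set G) := by
  by_cases g2 : g ∈ centralizer (l : Set G)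
  · exact mul_mem g2 g2
  obtain ⟨y, ⟨hy, yl⟩, yx, -⟩ := Q.third hl x x
  obtain ⟨z, ⟨hz, zl⟩, zx, zy⟩ := Q.third hl x y
  refine Q.cl hx hy hl xl yl yx.symm (by rw [cj_mul, g1, g1]) ?_
  rw [cj_mul, Q.swap hx hy hz hl xl yl zl yx.symm zx.symm zy.symm g0 g1 g2,
    Q.swap hx hz hy hl xl zl yl zx.symm yx.symm zy g0 g1 g2]

omit [Finite G] in
theorem atF (hx : Cj Z x) (hl : Cj W l) (xl : x ≤ l) :
    IsPGroup 2 ↥(centralizer (x : Set G) ⊓ normalizer (l : Set G)) ∧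
    (∃ g ∈ centralizer (x : Set G) ⊓ normalizer (l : Set G), g ∉ centralizer (l : Set G)) ∧
    ∀ g ∈ centralizer (x : Set G) ⊓ normalizer (l : Set G),
    ∀ g' ∈ centralizer (x : Set G) ⊓ normalizer (l : Set G), g * g = 1 → g' * g' = 1 →
      (∀ m, Cj W m → x ≤ m → g ∈ normalizer (m : Set G)) ∨
      (∀ m, Cj W m → x ≤ m → g' ∈ normalizer (m : Set G)) ∨
      ∀ m, Cj W m → x ≤ m → g * g' ∈ normalizer (m : Set G) := by
  obtain ⟨k, rfl, rfl⟩ := flag Q.h hx hl xl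
  rw [← cj_centralizer, ← cj_normalizer, ← cj_inf, ← cj_centralizer]
  refine ⟨isPGroup_cj Q.h1 k, ?_, ?_⟩
  · obtain ⟨g, h1, h2⟩ := Q.h2
    exact ⟨_, conj_mem_cj h1, fun e => h2 ((mem_iff k g _).1 e)⟩
  · intro g hg g' hg'
    obtain ⟨g, rfl⟩ := surj k g
    obtain ⟨g', rfl⟩ := surj k g'
    rw [mem_iff] at hg hg'
    rw [show k * g * k⁻¹ * (k * g' * k⁻¹) = k * (g * g') * k⁻¹ from conj_mul, forall_cj k,
      forall_cj (P := fun m => Cj W m → cj k Z ≤ m →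
      k * g' * k⁻¹ ∈ normalizer (m : Set G)) k, forall_cj (P := fun m => Cj W m → cj k Z ≤ m →
      k * (g * g') * k⁻¹ ∈ normalizer (m : Set G)) k]
    o8t
    exact Q.h3 g hg g' hg'

theorem next (hl : Cj W l) (hx : Cj Z x) (xl : x ≤ l) : ∃ m y, Step Z W l x m y := by
  obtain ⟨m, ⟨hm, xm⟩, ml, -⟩ := exists_ne_of_card (P := fun m => Cj W m ∧ x ≤ m)
    (by rw [nln Q.h hx]; norm_num) l l
  obtain ⟨y, ⟨hy, ym⟩, yx, -⟩ := Q.third hm x x
  exact ⟨m, y, hl, hx, hm, hy, xl, xm, ym, ml.symm, yx.symm⟩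

theorem next' {l p l' p' : Subgroup G} (s : Step Z W l p l' p') : ∃ m y, Step Z W l' p' m y :=
  Q.next s.2.2.1 s.2.2.2.1 s.2.2.2.2.2.2.1

section First

variable {l0 p1 l1 p2 l2 p3 l3 p4 l4 p5 : Subgroup G}
  (s1 : Step Z W l0 p1 l1 p2) (s2 : Step Z W l1 p2 l2 p3) (s3 : Step Z W l2 p3 l3 p4)
  (s4 : Step Z W l3 p4 l4 p5)
include s1 s2 s3 s4

omit [Finite G] in
theorem eq_one {g : G} (h1 : g ∈ centralizer (l0 : Set G)) (h2 : g ∈ normalizer (l4 : Set G)) :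
    g = 1 := mem_bot.1 ((Q.hg.oppL _ _ _ _ _ _ _ _ _ _ s1 s2 s3 s4).1 ▸ ⟨h1, h2⟩)

theorem refl_at (hx : Cj Z x) (xl : x ≤ l0) : ∃ σ, σ ∈ normalizer (l0 : Set G) ∧
    σ ∈ normalizer (l4 : Set G) ∧ cj σ x = x ∧ σ ∉ centralizer (l0 : Set G) ∧ σ * σ = 1 := by
  obtain ⟨g, g1, g2⟩ := (Q.atF hx s1.1 xl).2.1
  obtain ⟨e, e1, e2⟩ := (Q.hg.oppL _ _ _ _ _ _ _ _ _ _ s1 s2 s3 s4).2 g g1.2
  have k1 := mul_mem g1.2 (centralizer_le_normalizer _ e1)
  have k2 : cj (g * e) x = x :=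
    cj_eq_self (centralizer_le_normalizer _ (mul_mem g1.1 (cent_anti xl e1)))
  exact ⟨g * e, k1, e2, k2, fun k => g2 ((mul_mem_cancel_right e1).1 k),
    Q.eq_one s1 s2 s3 s4 (Q.sq_cent hx s1.1 xl k1 k2) (mul_mem e2 e2)⟩

end First

/-- The closed path and the first reflection. -/
theorem first : ∃ p6 l7 p8 l9 p10 l11 p12 l13 n, n * n = 1 ∧ cj n W = W ∧ cj n l13 = l13 ∧
    cj n p6 = Z ∧ Oct Z W (cj n p10) (cj n l9) (cj n p8) (cj n l7) Z W p6 l7 p8 l9 p10 l11 p12 l13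
      (cj n p12) (cj n l11) := by
  have hZ := cj_refl Z
  have hW := cj_refl W
  have ZW := Q.h.ZW
  obtain ⟨p6, ⟨P6, i6⟩, n6, -⟩ := Q.third hW Z Z
  obtain ⟨y, ⟨hy, yW⟩, yZ, y6⟩ := Q.third hW Z p6
  have key : ∀ l7 p8 l9 p10 l11 p12 l13 p14 n, Step Z W W p6 l7 p8 → Step Z W l7 p8 l9 p10 →
      Step Z W l9 p10 l11 p12 → Step Z W l11 p12 l13 p14 → n ∈ normalizer (W : Set G) →
      n ∈ normalizer (l13 : Set G) → n * n = 1 → cj n p6 = Z → cj n p12 ≠ p12 →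
      ∃ p6 l7 p8 l9 p10 l11 p12 l13 n, n * n = 1 ∧ cj n W = W ∧ cj n l13 = l13 ∧
      cj n p6 = Z ∧ Oct Z W (cj n p10) (cj n l9) (cj n p8) (cj n l7) Z W p6 l7 p8 l9 p10 l11 p12
        l13 (cj n p12) (cj n l11) := by
    intro l7 p8 l9 p10 l11 p12 l13 p14 n s1 s2 s3 s4 n1 n2 nn n3 n4
    have e1 := cj_eq_self n1
    have e2 := cj_eq_self n2
    refine ⟨p6, l7, p8, l9, p10, l11, p12, l13, n, nn, e1, e2, n3, ?_, ?_, s1, s2, s3, ?_, ?_, ?_⟩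
    · exact n3 ▸ step_cj (step_rev s1 s2) n
    · have : Step Z W l7 p6 W Z :=
        ⟨s1.2.2.1, P6, hW, hZ, s1.2.2.2.2.2.1, i6, ZW, s1.2.2.2.2.2.2.2.1.symm, n6⟩
      have := step_cj this n
      rwa [e1, n3, cj_swap nn n3] at this
    · obtain ⟨a, b, c, -, e, f, -, j, -⟩ := s4
      exact ⟨a, b, c, cj_cj b n, e, f, cj_le_of_norm f n2, j, n4.symm⟩
    · exact e2 ▸ step_cj (step_rev s3 s4) n
    · exact step_cj (step_rev s2 s3) n
  obtain ⟨l7, p8, s1⟩ := Q.next hW P6 i6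
  obtain ⟨l9, p10, s2⟩ := Q.next' s1
  obtain ⟨l11, p12, s3⟩ := Q.next' s2
  obtain ⟨l13, p14, s4⟩ := Q.next' s3
  obtain ⟨a, a1, a2, a3, a4, a5⟩ := Q.refl_at s1 s2 s3 s4 hy yW
  obtain ⟨b, b1, b2, b3, b4, b5⟩ := Q.refl_at s1 s2 s3 s4 hZ ZW
  obtain ⟨c, c1, c2, c3, c4, c5⟩ := Q.refl_at s1 s2 s3 s4 P6 i6
  have a6 : cj a p6 = Z := Q.swap hy P6 hZ hW yW i6 ZW y6 yZ n6 a1 a3 a4
  have b6 : cj b p6 = y := Q.swap hZ P6 hy hW ZW i6 yW n6.symm yZ.symm y6.symm b1 b3 b4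
  have c6 : cj c y = Z := Q.swap P6 hy hZ hW i6 yW ZW y6.symm n6 yZ c1 c3 c4
  by_cases e : cj a p12 = p12
  swap
  · exact key _ _ _ _ _ _ _ _ a s1 s2 s3 s4 a1 a2 a5 a6 e
  by_cases e' : cj b p12 = p12
  · exfalso
    have t4 : Step Z W l7 p6 W Z :=
      ⟨s1.2.2.1, P6, hW, hZ, s1.2.2.2.2.2.1, i6, ZW, s1.2.2.2.2.2.2.2.1.symm, n6⟩
    have k := Q.eq_one (step_rev s3 s4) (step_rev s2 s3) (step_rev s1 s2) t4
      (Q.sq_cent s4.2.1 s4.2.2.1 s4.2.2.2.2.2.1 (mul_mem a2 b2) (by rw [cj_mul, e', e]))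
      (mul_mem (mul_mem a1 b1) (mul_mem a1 b1))
    have : cj (a * b * (a * b)) p6 = p6 := by rw [k, cj_one]
    rw [cj_mul, cj_mul, cj_mul, b6, a3, cj_swap b5 b6, a6] at this
    exact n6 this.symm
  · have t1 := step_cj s1 c
    have t4 := step_cj s4 c
    rw [cj_eq_self c1, c3] at t1
    rw [cj_eq_self c2] at t4
    refine key _ _ _ _ _ _ _ _ (c * b * c) t1 (step_cj s2 c) (step_cj s3 c) t4
      (mul_mem (mul_mem c1 b1) c1) (mul_mem (mul_mem c2 b2) c2) ?_ ?_ ?_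
    · calc _ = c * (b * (c * c) * b) * c := by group
        _ = 1 := by rw [c5, mul_one, b5, mul_one, c5]
    · rw [cj_mul, cj_mul, c3, b6, c6]
    · rw [cj_mul, cj_mul, cj_sq c5]
      exact fun k => e' (cj_inj.1 k)

end Q2

variable {p0 l1 p2 l3 p4 l5 p6 l7 p8 l9 p10 l11 p12 l13 p14 l15 : Subgroup G}

omit [Finite G] in
theorem Oct.rot (O : Oct Z W p0 l1 p2 l3 p4 l5 p6 l7 p8 l9 p10 l11 p12 l13 p14 l15) :
    Oct Z W p8 l9 p10 l11 p12 l13 p14 l15 p0 l1 p2 l3 p4 l5 p6 l7 :=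
  ⟨O.f9, O.f11, O.f13, O.f15, O.f1, O.f3, O.f5, O.f7⟩

omit [Finite G] in
theorem Oct.rev (O : Oct Z W p0 l1 p2 l3 p4 l5 p6 l7 p8 l9 p10 l11 p12 l13 p14 l15) :
    Oct Z W p8 l7 p6 l5 p4 l3 p2 l1 p0 l15 p14 l13 p12 l11 p10 l9 :=
  ⟨step_rev O.f3 O.f5, step_rev O.f1 O.f3, step_rev O.f15 O.f1, step_rev O.f13 O.f15,
    step_rev O.f11 O.f13, step_rev O.f9 O.f11, step_rev O.f7 O.f9, step_rev O.f5 O.f7⟩

/-- The pointwise stabilizer of a half apartment. -/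
def PP (a b c d e : Subgroup G) : Subgroup G :=
  centralizer (a : Set G) ⊓ centralizer (b : Set G) ⊓ centralizer (c : Set G) ⊓
    centralizer (d : Set G) ⊓ centralizer (e : Set G)

namespace Q2

variable (Q : Q2 Z W) (O : Oct Z W p0 l1 p2 l3 p4 l5 p6 l7 p8 l9 p10 l11 p12 l13 p14 l15)
include Q

omit [Finite G] in
theorem cstep {l p l' p' : Subgroup G} (s : Step Z W l p l' p') {g : G}
    (h1 : g ∈ centralizer (p : Set G)) (h2 : g ∈ centralizer (p' : Set G)) :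
    g ∈ centralizer (l' : Set G) :=
  Q.cl s.2.1 s.2.2.2.1 s.2.2.1 s.2.2.2.2.2.1 s.2.2.2.2.2.2.1 s.2.2.2.2.2.2.2.2
    (cj_eq_self (centralizer_le_normalizer _ h1)) (cj_eq_self (centralizer_le_normalizer _ h2))

theorem chain {l p l' p' : Subgroup G} (s : Step Z W l p l' p') {H : Subgroup G}
    (h1 : H ≤ normalizer (l : Set G)) (h2 : H ≤ centralizer (p : Set G)) :
    Nat.card H ≤ 8 * Nat.card ↥(H ⊓ centralizer (p' : Set G)) := by
  obtain ⟨a, b, c, d, e, f, i, j, k⟩ := s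
  have h3 := h2.trans (centralizer_le_normalizer _)
  have k1 := card_le_orb H l' (fun m => (Cj W m ∧ p ≤ m) ∧ m ≠ l) fun g hg =>
    ⟨⟨cj_cj c g, cj_eq_self (h3 hg) ▸ cj_mono g f⟩,
      fun x => j (cj_inj.1 ((cj_eq_self (h1 hg)).trans x.symm))⟩
  have k2 := card_le_orb (H ⊓ normalizer (l' : Set G)) p' (fun m => (Cj Z m ∧ m ≤ l') ∧ m ≠ p)
    fun g hg => ⟨⟨cj_cj d g, cj_le_of_norm i hg.2⟩,
      fun x => k (cj_inj.1 ((cj_eq_self (h3 hg.1)).trans x.symm))⟩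
  rw [card_erase (n := 4) (nln Q.h b) ⟨a, e⟩] at k1
  rw [card_erase (n := 2) (npt Q.h c) ⟨b, f⟩] at k2
  have k3 : Nat.card ↥(H ⊓ normalizer (l' : Set G) ⊓ normalizer (p' : Set G)) ≤
      Nat.card ↥(H ⊓ centralizer (p' : Set G)) :=
    card_le_of_le (inf_le_inf inf_le_left (Q.nc d))
  omega

include O

omit [Finite G] in
theorem triv {g : G} (h1 : g ∈ centralizer (p4 : Set G)) (t : Two g)
    (h2 : ∀ l, Cj W l → p4 ≤ l → g ∈ normalizer (l : Set G)) (h3 : g ∈ normalizer (p12 : Set G)) :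
    g = 1 := Q.hg.oppP _ _ _ _ _ _ _ _ _ _ O.f3 O.f5 O.f7 O.f9 g h1 t h2 h3

omit [Finite G] in
theorem line_uq {g : G} (h1 : g ∈ centralizer (p4 : Set G)) (h3 : g ∈ centralizer (p12 : Set G))
    (t : Two g) (g1 : g ≠ 1) {l m : Subgroup G} (hl : Cj W l) (hm : Cj W m) (il : p4 ≤ l)
    (im : p4 ≤ m) (gl : g ∈ normalizer (l : Set G)) (gm : g ∈ normalizer (m : Set G)) : l = m := by
  by_contra e
  exact g1 (Q.triv O h1 t (two Q.h O.f3.2.1 g h1 t l m hl hm il im e gl gm)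
    (centralizer_le_normalizer _ h3))

omit [Finite G] in
theorem pp5 : PP p4 p6 p8 p10 p12 ≤ centralizer (l5 : Set G) :=
  fun _ hg => Q.cstep O.f3 hg.1.1.1.1 hg.1.1.1.2

omit [Finite G] in
theorem pp_two {g : G} (hg : g ∈ PP p4 p6 p8 p10 p12) : Two g :=
  isPGroup_iff.1 (e2 Q.h O.f5.1) g (Q.pp5 O hg)

theorem pp_card : 4 ≤ Nat.card (PP p4 p6 p8 p10 p12) := by
  have c4 : centralizer (l5 : Set G) ≤ centralizer (p4 : Set G) := cent_anti O.f3.2.2.2.2.2.1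
  have c6 : centralizer (l5 : Set G) ≤ centralizer (p6 : Set G) := cent_anti O.f5.2.2.2.2.1
  have k1 := Q.chain O.f5 (centralizer_le_normalizer _) c6
  have k2 := Q.chain O.f7 (H := centralizer (l5 : Set G) ⊓ centralizer (p8 : Set G))
    (fun g hg => centralizer_le_normalizer _ (Q.cstep O.f5 (c6 hg.1) hg.2)) inf_le_right
  have k3 := Q.chain O.f9
    (H := centralizer (l5 : Set G) ⊓ centralizer (p8 : Set G) ⊓ centralizer (p10 : Set G))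
    (fun g hg => centralizer_le_normalizer _ (Q.cstep O.f7 hg.1.2 hg.2)) inf_le_right
  have k4 : Nat.card ↥(centralizer (l5 : Set G) ⊓ centralizer (p8 : Set G) ⊓
      centralizer (p10 : Set G) ⊓ centralizer (p12 : Set G)) ≤ Nat.card (PP p4 p6 p8 p10 p12) :=
    card_le_of_le fun g hg => ⟨⟨⟨⟨c4 hg.1.1.1, c6 hg.1.1.1⟩, hg.1.1.2⟩, hg.1.2⟩, hg.2⟩
  rw [cardE Q.h O.f5.1] at k1
  omega

theorem pp_trans {l m : Subgroup G} (hl : Cj W l) (hm : Cj W m) (il : p4 ≤ l) (im : p4 ≤ m)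
    (nl : l ≠ l5) (nm : m ≠ l5) : ∃ g ∈ PP p4 p6 p8 p10 p12, cj g l = m := by
  have n5 := (Q.pp5 O).trans (centralizer_le_normalizer _)
  refine orb_surj (PP p4 p6 p8 p10 p12) l (fun m => (Cj W m ∧ p4 ≤ m) ∧ m ≠ l5) (fun g hg =>
    ⟨⟨cj_cj hl g, cj_eq_self (centralizer_le_normalizer _ hg.1.1.1.1) ▸ cj_mono g il⟩,
      fun x => nl (cj_inj.1 (x.trans (cj_eq_self (n5 hg)).symm))⟩) ?_ ?_ ⟨⟨hm, im⟩, nm⟩
  · rw [eq_bot_iff]
    intro g hg
    by_contra g1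
    exact nl (Q.line_uq O hg.1.1.1.1.1 hg.1.2 (Q.pp_two O hg.1) g1 hl O.f5.1 il O.f3.2.2.2.2.2.1
      hg.2 (n5 hg.1))
  · rw [card_erase (n := 4) (nln Q.h O.f3.2.1) ⟨O.f5.1, O.f3.2.2.2.2.2.1⟩]
    exact Q.pp_card O

omit [Finite G] in
theorem pp_inv {g k : G} (hg : g ∈ PP p4 p6 p8 p10 p12) (hk : k ∈ PP p4 p6 p8 p10 p12)
    (g1 : g ≠ 1) (k1 : k ≠ 1) (g2 : g * g = 1) (k2 : k * k = 1) : g = k := by
  have n5 := (Q.pp5 O).trans (centralizer_le_normalizer _)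
  have tr := fun x (hx : x ∈ PP p4 p6 p8 p10 p12) e =>
    Q.triv O hx.1.1.1.1 (Q.pp_two O hx) e (centralizer_le_normalizer _ hx.2)
  rcases (Q.atF O.f3.2.1 O.f5.1 O.f3.2.2.2.2.2.1).2.2 g ⟨hg.1.1.1.1, n5 hg⟩ k ⟨hk.1.1.1.1, n5 hk⟩
    g2 k2 with e | e | e
  · exact absurd (tr g hg e) g1
  · exact absurd (tr k hk e) k1
  · exact mul_right_cancel ((tr _ (mul_mem hg hk) e).trans k2.symm)

omit [Finite G] in
theorem p8_le : p8 ≤ PP p4 p6 p8 p10 p12 := by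
  obtain ⟨-, -, L5, P6, -, i45, i65, -, -⟩ := O.f3
  obtain ⟨-, -, L7, P8, -, i67, i87, -, -⟩ := O.f5
  obtain ⟨-, -, L9, P10, -, i89, i109, -, -⟩ := O.f7
  obtain ⟨-, -, L11, -, -, i1011, i1211, -, -⟩ := O.f9
  exact le_inf (le_inf (le_inf (le_inf
    (comm_of_col Q.h P6 ⟨l7, L7, i67, i87⟩ ⟨l5, L5, i65, i45⟩)
    (comm_of_col Q.h P6 ⟨l7, L7, i67, i87⟩ (col_refl Q.h P6)))
    (comm_of_col Q.h P8 (col_refl Q.h P8) (col_refl Q.h P8)))
    (comm_of_col Q.h P10 ⟨l9, L9, i109, i89⟩ (col_refl Q.h P10)))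
    (comm_of_col Q.h P10 ⟨l9, L9, i109, i89⟩ ⟨l11, L11, i1011, i1211⟩)

theorem second : ∃ n, n * n = 1 ∧ n ∈ centralizer (p4 : Set G) ∧ n ∈ centralizer (p12 : Set G) ∧
    cj n l5 = l3 := by
  have L3 := O.f3.1
  have L5 := O.f5.1
  have i3 := O.f3.2.2.2.2.1
  have i5 := O.f3.2.2.2.2.2.1
  have n35 := O.f3.2.2.2.2.2.2.2.1
  have n5 := (Q.pp5 O).trans (centralizer_le_normalizer _)
  have n3 := (Q.pp5 O.rev).trans (centralizer_le_normalizer _)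
  obtain ⟨m, ⟨hm, im⟩, m3, m5⟩ := exists_ne_of_card (P := fun m => Cj W m ∧ p4 ≤ m)
    (by rw [nln Q.h O.f3.2.1]; norm_num) l3 l5
  obtain ⟨k1, a1, b1⟩ := Q.pp_trans O L3 hm i3 im n35 m5
  obtain ⟨k0, a0, b0⟩ := Q.pp_trans O.rev hm L5 im i5 m3 n35.symm
  obtain ⟨k2, a2, b2⟩ := Q.pp_trans O (cj_cj L5 k0) L3
    (cj_eq_self (centralizer_le_normalizer _ a0.1.1.1.1) ▸ cj_mono k0 i5) i3
    (fun e => m5 (cj_inj.1 (b0.trans e.symm))) n35
  have g4 : k2 * k0 * k1 ∈ centralizer (p4 : Set G) :=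
    mul_mem (mul_mem a2.1.1.1.1 a0.1.1.1.1) a1.1.1.1.1
  have g12 : k2 * k0 * k1 ∈ centralizer (p12 : Set G) := mul_mem (mul_mem a2.2 a0.2) a1.2
  have g3 : cj (k2 * k0 * k1) l3 = l5 := by rw [cj_mul, cj_mul, b1, b0, cj_eq_self (n5 a2)]
  have g5 : cj (k2 * k0 * k1) l5 = l3 := by rw [cj_mul, cj_mul, cj_eq_self (n5 a1), b2]
  generalize k2 * k0 * k1 = g at g4 g12 g3 g5
  have q3 : g * g ∈ normalizer (l3 : Set G) := cj_eq_self_iff.1 (by rw [cj_mul, g3, g5])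
  have q5 : g * g ∈ normalizer (l5 : Set G) := cj_eq_self_iff.1 (by rw [cj_mul, g5, g3])
  obtain ⟨i, k, hi, hk⟩ := exists_coprime_pow_pelt (p := 2) g
  refine ⟨g ^ i, ?_, pow_mem g4 i, pow_mem g12 i, ?_⟩
  · by_contra e
    have e1 : g ^ i * g ^ i = (g * g) ^ i := by rw [← pow_two, ← pow_two, pow_right_comm]
    refine n35 (Q.line_uq O (mul_mem (pow_mem g4 i) (pow_mem g4 i))
      (mul_mem (pow_mem g12 i) (pow_mem g12 i)) ⟨k, ?_⟩ e L3 L5 i3 i5 (e1 ▸ pow_mem q3 i)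
      (e1 ▸ pow_mem q5 i))
    rw [← pow_two, pow_right_comm, hk, one_pow]
  · obtain ⟨j, rfl⟩ := Nat.coprime_two_right.1 hi
    rw [pow_succ, pow_mul, pow_two, cj_mul, g5, cj_eq_self (pow_mem q3 j)]

omit O [Finite G] in
theorem col_uq {p l x u : Subgroup G} (hp : Cj Z p) (hl : Cj W l) (hx : Cj Z x) (hu : Cj Z u)
    (xl : x ≤ l) (ul : u ≤ l) (n : ¬ p ≤ l) (c1 : Col W x p) (c2 : Col W u p) : u = x := by
  by_contra e
  obtain ⟨m, hm, xm, pm⟩ := c1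
  obtain ⟨a, ha, a1⟩ := (bot_or_exists_ne_one p).resolve_left (ne_bot Q.h hp)
  exact n (off Q.h hx hl xl hu ul e hp c2 n hm xm ha a1 (le_normalizer (pm ha)) ▸ pm)

theorem conj_pp {n : G} (nn : n * n = 1) (n4 : n ∈ centralizer (p4 : Set G))
    (n12 : n ∈ centralizer (p12 : Set G)) (n5 : cj n l5 = l3) {y : G}
    (hy : y ∈ PP p4 p6 p8 p10 p12) : n * y * n⁻¹ ∈ PP p4 p2 p0 p14 p12 := by
  have L3 := O.f3.1
  have L5 := O.f5.1
  have i3 := O.f3.2.2.2.2.1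
  have i5 := O.f3.2.2.2.2.2.1
  have n35 := O.f3.2.2.2.2.2.2.2.1
  have y3 : n * y * n⁻¹ ∈ normalizer (l3 : Set G) := by
    rw [← n5, ← cj_normalizer]
    exact conj_mem_cj (centralizer_le_normalizer _ (Q.pp5 O hy))
  have y4 : n * y * n⁻¹ ∈ centralizer (p4 : Set G) :=
    mul_mem (mul_mem n4 hy.1.1.1.1) (inv_mem n4)
  have y12 : n * y * n⁻¹ ∈ centralizer (p12 : Set G) := mul_mem (mul_mem n12 hy.2) (inv_mem n12)
  generalize n * y * n⁻¹ = v at y3 y4 y12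
  obtain ⟨k, a, b⟩ := Q.pp_trans O.rev L5 (cj_cj L5 v) i5
    (cj_eq_self (centralizer_le_normalizer _ y4) ▸ cj_mono v i5) n35.symm
    fun e => n35 (cj_inj.1 ((cj_eq_self y3).trans e.symm))
  have m3 := mul_mem (inv_mem (centralizer_le_normalizer _ (Q.pp5 O.rev a))) y3
  have a4 : k ∈ centralizer (p4 : Set G) := a.1.1.1.1
  have a12 : k ∈ centralizer (p12 : Set G) := a.2
  have m4 := mul_mem (inv_mem a4) y4
  by_cases e : k⁻¹ * v = 1
  · exact inv_mul_eq_one.1 e ▸ a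
  · exact absurd (Q.line_uq O m4 (mul_mem (inv_mem a12) y12)
      (isPGroup_iff.1 (Q.atF O.f3.2.1 L3 i3).1 _ ⟨m4, m3⟩) e L3 L5 i3 i5 m3
      (cj_eq_self_iff.1 (by rw [cj_mul, ← b, cj_inv_cj]))) n35

theorem half {n : G} (nn : n * n = 1) (n4 : n ∈ centralizer (p4 : Set G))
    (n12 : n ∈ centralizer (p12 : Set G)) (n5 : cj n l5 = l3) :
    cj n p6 = p2 ∧ cj n l7 = l1 ∧ cj n p8 = p0 ∧ cj n l9 = l15 ∧ cj n p10 = p14 ∧
      cj n l11 = l13 := by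
  obtain ⟨L1, P2, L3, -, i21, i23, -, n13, -⟩ := O.f1
  obtain ⟨L5, P6, L7, P8, i65, i67, i87, -, n68⟩ := O.f5
  obtain ⟨-, -, L9, P10, -, i89, i109, -, n810⟩ := O.f7
  obtain ⟨-, -, L11, P12, -, i1011, i1211, -, -⟩ := O.f9
  obtain ⟨-, -, L13, P14, -, i1213, i1413, -, -⟩ := O.f11
  obtain ⟨-, -, L15, P0, -, i1415, i015, n1315, n140⟩ := O.f13
  obtain ⟨-, -, -, -, -, i01, -, -, n02⟩ := O.f15
  obtain ⟨y, hy, y1⟩ := (bot_or_exists_ne_one p8).resolve_left (ne_bot Q.h P8)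
  obtain ⟨z, hz, z1⟩ := (bot_or_exists_ne_one p0).resolve_left (ne_bot Q.h P0)
  have yP := Q.p8_le O hy
  have vP := Q.conj_pp O nn n4 n12 n5 yP
  have v1 := (ne_iff n y).2 y1
  have e8 : cj n p8 = p0 := by
    have := Q.pp_inv O.rev vP (Q.p8_le O.rev hz) v1 z1 ((sq_iff n y).2 (sq_p Q.h P8 y hy))
      (sq_p Q.h P0 z hz)
    refine ti Q.h P0 (cj_cj P8 n) fun e => z1 (mem_bot.1 (e ▸ ⟨hz, this ▸ conj_mem_cj hy⟩))
  have e11 : cj n l11 = l13 := by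
    refine Q.line_uq O.rot vP.2 vP.1.1.1.1 (Q.pp_two O.rev vP) v1 (cj_cj L11 n) L13
      (cj_eq_self (centralizer_le_normalizer _ n12) ▸ cj_mono n i1211) i1213 ?_
      (centralizer_le_normalizer _ (Q.cstep O.f11 vP.2 vP.1.2))
    rw [← cj_normalizer]
    exact conj_mem_cj (centralizer_le_normalizer _ (Q.cstep O.f9 yP.1.2 yP.2))
  have e6 : cj n p6 = p2 := Q.col_uq P0 L3 P2 (cj_cj P6 n) i23 (n5 ▸ cj_mono n i65)
    (not_le Q.h P0 P2 L1 L3 n02 i01 i21 i23 n13) ⟨l1, L1, i21, i01⟩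
    (e8 ▸ col_cj ⟨l7, L7, i67, i87⟩ n)
  have e10 : cj n p10 = p14 := Q.col_uq P0 L13 P14 (cj_cj P10 n) i1413 (e11 ▸ cj_mono n i1011)
    (not_le Q.h P0 P14 L15 L13 n140.symm i015 i1415 i1413 n1315.symm) ⟨l15, L15, i1415, i015⟩
    (e8 ▸ col_cj ⟨l9, L9, i109, i89⟩ n)
  exact ⟨e6, line_eq Q.h P0 P2 (cj_cj L7 n) L1 n02 (e8 ▸ cj_mono n i87) (e6 ▸ cj_mono n i67) i01 i21,
    e8, line_eq Q.h P14 P0 (cj_cj L9 n) L15 n140 (e10 ▸ cj_mono n i109) (e8 ▸ cj_mono n i89)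
      i1415 i015, e10, e11⟩

end Q2

theorem Q2.apt (Q : Q2 Z W) : ∃ n1 n8 P, Apt Z W n1 n8 P := by
  obtain ⟨p6, l7, p8, l9, p10, l11, p12, l13, a, aa, a5, a13, a6, O⟩ := Q.first
  obtain ⟨n, nn, n4, n12, n5⟩ := Q.second O
  obtain ⟨e6, e7, e8, e9, e10, e11⟩ := Q.half O nn n4 n12 n5
  have f4 : cj n Z = Z := cj_eq_self (centralizer_le_normalizer _ n4)
  have f12 : cj n p12 = p12 := cj_eq_self (centralizer_le_normalizer _ n12)
  have a4 := cj_swap aa a6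
  have r4 : cj (a * n) Z = p6 := by rw [cj_mul, f4, a4]
  have r5 : cj (a * n) W = l7 := by rw [cj_mul, n5, cj_sq aa]
  have r6 : cj (a * n) p6 = p8 := by rw [cj_mul, e6, cj_sq aa]
  have r7 : cj (a * n) l7 = l9 := by rw [cj_mul, e7, cj_sq aa]
  have r8 : cj (a * n) p8 = p10 := by rw [cj_mul, e8, cj_sq aa]
  have r9 : cj (a * n) l9 = l11 := by rw [cj_mul, e9, cj_sq aa]
  have r10 : cj (a * n) p10 = p12 := by rw [cj_mul, e10, cj_sq aa]
  have r11 : cj (a * n) l11 = l13 := by rw [cj_mul, e11, a13]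
  have r12 : cj (a * n) p12 = cj a p12 := by rw [cj_mul, f12]
  have r13 : cj (a * n) l13 = cj a l11 := by rw [cj_mul, cj_swap nn e11]
  have r14 : cj (a * n) (cj a p12) = cj a p10 := by rw [cj_mul, cj_swap nn e10]
  have r15 : cj (a * n) (cj a l11) = cj a l9 := by rw [cj_mul, cj_swap nn e9]
  have r0 : cj (a * n) (cj a p10) = cj a p8 := by rw [cj_mul, cj_swap nn e8]
  have r1 : cj (a * n) (cj a l9) = cj a l7 := by rw [cj_mul, cj_swap nn e7]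
  have r2 : cj (a * n) (cj a p8) = Z := by rw [cj_mul, cj_swap nn e6, a6]
  have r3 : cj (a * n) (cj a l7) = W := by rw [cj_mul, cj_swap nn n5, a5]
  have pw : ∀ (j : ℕ) (x : Subgroup G), cj ((a * n) ^ (j + 1)) x = cj ((a * n) ^ j) (cj (a * n) x) :=
    fun j x => by rw [pow_succ, cj_mul]
  have p0 : ∀ x : Subgroup G, cj ((a * n) ^ 0) x = x := fun x => by rw [pow_zero, cj_one]
  have z4 : cj ((a * n) ^ 4) Z = p12 := by rw [pw, r4, pw, r6, pw, r8, pw, r10, p0]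
  have w4 : cj ((a * n) ^ 4) W = l13 := by rw [pw, r5, pw, r7, pw, r9, pw, r11, p0]
  have hZ := cj_refl Z
  have hW := cj_refl W
  obtain ⟨-, -, -, P6, -, ZW, i6, n35, n46⟩ := O.f3
  have one := fun g => Q.eq_one (g := g) O.f5 O.f7 O.f9 O.f11
  refine ⟨a, n, PP Z p6 p8 p10 p12, aa, nn, one _ (Q.cl hZ P6 hW ZW i6 n46 ?_ ?_)
    (cj_eq_self_iff.1 ?_), cj_eq_self_iff.1 a5, fun e => n46 ((cj_eq_self e).symm.trans a4), n4,
    fun e => n35 (n5.symm.trans (cj_eq_self e)), z4 ▸ n12, Q.pp_card O, fun j hj => ?_,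
    fun j hj => ?_, fun g g4 g5 g13 g1 => ?_, fun g g4 t g5 g12 => Q.triv O g4 t g5 (z4 ▸ g12)⟩
  · rw [pw, r4, pw, r6, pw, r8, pw, r10, pw, r12, pw, r14, pw, r0, pw, r2, p0]
  · rw [pw, r6, pw, r8, pw, r10, pw, r12, pw, r14, pw, r0, pw, r2, pw, r4, p0]
  · rw [pw, r13, pw, r15, pw, r1, pw, r3, pw, r5, pw, r7, pw, r9, pw, r11, p0]
  · interval_cases j
    · rw [p0]; exact fun g hg => hg.1.1.1.1
    · rw [pw, r4, p0]; exact fun g hg => hg.1.1.1.2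
    · rw [pw, r4, pw, r6, p0]; exact fun g hg => hg.1.1.2
    · rw [pw, r4, pw, r6, pw, r8, p0]; exact fun g hg => hg.1.2
    · rw [z4]; exact fun g hg => hg.2
  · refine le_trans ?_ (centralizer_le_normalizer _)
    interval_cases j
    · rw [p0]; exact Q.pp5 O
    · rw [pw, r5, p0]; exact fun g hg => Q.cstep O.f5 hg.1.1.1.2 hg.1.1.2
    · rw [pw, r5, pw, r7, p0]; exact fun g hg => Q.cstep O.f7 hg.1.1.2 hg.1.2
    · rw [pw, r5, pw, r7, pw, r9, p0]; exact fun g hg => Q.cstep O.f9 hg.1.2 hg.2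
  · rw [w4] at g13
    have aW := cj_eq_self_iff.1 a5
    obtain ⟨y, ⟨hy, yW⟩, yZ, y6⟩ := Q.third hW Z p6
    have gZ := cj_eq_self (centralizer_le_normalizer _ g4)
    have gn : g ∉ centralizer (W : Set G) := fun e => g1 (one g e g13)
    have g6 := Q.swap hZ P6 hy hW ZW i6 yW n46 yZ.symm y6.symm g5 gZ gn
    have gy := Q.swap hZ hy P6 hW ZW yW i6 yZ.symm n46 y6 g5 gZ gn
    have ay : cj a y = y := Q.three_pts hZ P6 hy (cj_cj hy a) hW ZW i6 yW (cj_le_of_norm yW aW) n46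
      yZ.symm y6.symm (fun e => y6 (cj_inj.1 (e.trans a6.symm)))
      fun e => yZ (cj_inj.1 (e.trans a4.symm))
    refine one _ (Q.cl hZ P6 hW ZW i6 n46 ?_ ?_) (pow_mem (mul_mem (cj_eq_self_iff.1 a13) g13) 3)
    · simp only [pow_succ, pow_zero, one_mul, cj_mul, gZ, a4, g6, ay, gy, a6]
    · simp only [pow_succ, pow_zero, one_mul, cj_mul, gZ, a4, g6, ay, gy, a6]

theorem apt (h : Geo Z W 2) (hg : GeoG Z W 2) (hZ : Nat.card Z = 2)
    (h1 : IsPGroup 2 ↥(centralizer (Z : Set G) ⊓ normalizer (W : Set G)))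
    (h2 : ∃ g ∈ centralizer (Z : Set G) ⊓ normalizer (W : Set G), g ∉ centralizer (W : Set G))
    (h3 : ∀ g ∈ centralizer (Z : Set G) ⊓ normalizer (W : Set G),
      ∀ g' ∈ centralizer (Z : Set G) ⊓ normalizer (W : Set G), g * g = 1 → g' * g' = 1 →
        (∀ l, Cj W l → Z ≤ l → g ∈ normalizer (l : Set G)) ∨
        (∀ l, Cj W l → Z ≤ l → g' ∈ normalizer (l : Set G)) ∨
        ∀ l, Cj W l → Z ≤ l → g * g' ∈ normalizer (l : Set G)) :
    ∃ n1 n8 P, Apt Z W n1 n8 P := Q2.apt ⟨h, hg, hZ, h1, h2, h3⟩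

end Cfsg.Agent.H18O8
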