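import Cfsg.Agent.H15.O8F

/-! The local facts of the point-line geometry at arbitrary points, lines and flags. -/

set_option autoImplicit false

namespace Cfsg.Agent.H18O8

open Cfsg.Agent.H83 Cfsg.Agent.H15.O8 Subgroup

variable {G : Type*} [Group G] {Z W x y l m u p : Subgroup G} {q : ℕ}

theorem cj_refl (Z : Subgroup G) : Cj Z Z := ⟨1, (cj_one Z).symm⟩

theorem cj_cj (h : Cj Z x) (g : G) : Cj Z (cj g x) := by
  obtain ⟨k, rfl⟩ := h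
  exact ⟨g * k, (cj_mul g k Z).symm⟩

theorem cj_iff (g : G) : Cj Z (cj g x) ↔ Cj Z x :=
  ⟨fun h => by simpa only [cj_inv_cj] using cj_cj h g⁻¹, fun h => cj_cj h g⟩

theorem cj_eq (h : Cj Z x) : Cj x = Cj Z := by
  obtain ⟨k, rfl⟩ := h
  funext y
  exact propext ⟨fun ⟨g, e⟩ => ⟨g * k, by rw [cj_mul, e]⟩,
    fun ⟨g, e⟩ => ⟨g * k⁻¹, by rw [cj_mul, cj_inv_cj, e]⟩⟩

theorem col_eq (h : Cj W l) : Col l = Col W := by
  funext a b
  rw [Col, Col, cj_eq h]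

theorem vp_eq (h : Cj W l) : Vp l = Vp W := by
  funext a
  rw [Vp, Vp, cj_eq h]

theorem col_cj (h : Col W x u) (g : G) : Col W (cj g x) (cj g u) := by
  obtain ⟨l, h1, h2, h3⟩ := h
  exact ⟨cj g l, cj_cj h1 g, cj_mono g h2, cj_mono g h3⟩

theorem col_iff (g : G) : Col W (cj g x) (cj g u) ↔ Col W x u :=
  ⟨fun h => by simpa only [cj_inv_cj] using col_cj h g⁻¹, fun h => col_cj h g⟩

theorem col_symm (h : Col W x u) : Col W u x := by
  obtain ⟨l, h1, h2, h3⟩ := h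
  exact ⟨l, h1, h3, h2⟩

theorem le_vp (hl : Cj W l) (h : x ≤ l) : l ≤ Vp W x :=
  le_iSup₂_of_le (f := fun l (_ : Cj W l ∧ x ≤ l) => l) l ⟨hl, h⟩ le_rfl

theorem le_vp_of_col (h : Col W x u) : u ≤ Vp W x := by
  obtain ⟨l, h1, h2, h3⟩ := h
  exact h3.trans (le_vp h1 h2)

theorem cj_vp_le (g : G) (x : Subgroup G) : cj g (Vp W x) ≤ Vp W (cj g x) := by
  rw [cj_le_iff]
  refine iSup₂_le fun l hl => ?_
  rw [← cj_le_iff]
  exact le_vp (cj_cj hl.1 g) (cj_mono g hl.2)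

theorem vp_cj (g : G) (x : Subgroup G) : Vp W (cj g x) = cj g (Vp W x) := by
  refine le_antisymm ?_ (cj_vp_le g x)
  have := cj_mono g (cj_vp_le (W := W) g⁻¹ (cj g x))
  rwa [cj_cj_inv, cj_inv_cj] at this

theorem mem_iff (g a : G) (H : Subgroup G) : g * a * g⁻¹ ∈ cj g H ↔ a ∈ H := by
  rw [mem_cj]; simp [mul_assoc]

theorem surj (g a : G) : ∃ b, a = g * b * g⁻¹ := ⟨g⁻¹ * a * g, by group⟩

theorem surj' (g : G) (x : Subgroup G) : ∃ y, x = cj g y := ⟨cj g⁻¹ x, (cj_cj_inv g x).symm⟩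

theorem sq_iff (g a : G) : g * a * g⁻¹ * (g * a * g⁻¹) = 1 ↔ a * a = 1 := by
  rw [conj_mul, mul_inv_eq_one, mul_eq_left]

theorem two_iff (g a : G) : Two (g * a * g⁻¹) ↔ Two a := by
  simp only [Two, conj_pow, mul_inv_eq_one, mul_eq_left]

theorem ne_iff (g a : G) : g * a * g⁻¹ ≠ 1 ↔ a ≠ 1 := by
  rw [Ne, mul_inv_eq_one, mul_eq_left]

theorem cent_cj (g a : G) : centralizer {g * a * g⁻¹} = cj g (centralizer {a}) := by
  ext b
  rw [mem_cj, mem_centralizer_singleton_iff, mem_centralizer_singleton_iff]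
  constructor
  · intro h
    calc _ = g⁻¹ * (b * (g * a * g⁻¹)) * g := by group
      _ = _ := by rw [h]; group
  · intro h
    calc _ = g * (g⁻¹ * b * g * a) * g⁻¹ := by group
      _ = _ := by rw [h]; group

theorem forall_cj (g : G) {P : Subgroup G → Prop} : (∀ x, P x) ↔ ∀ x, P (cj g x) :=
  ⟨fun h x => h _, fun h x => by simpa only [cj_cj_inv] using h (cj g⁻¹ x)⟩

theorem forall_conj (g : G) {P : G → Prop} : (∀ x, P x) ↔ ∀ x, P (g * x * g⁻¹) :=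
  ⟨fun h x => h _, fun h x => by
    obtain ⟨b, rfl⟩ := surj g x
    exact h b⟩

theorem exists_cj (g : G) {P : Subgroup G → Prop} : (∃ x, P x) ↔ ∃ x, P (cj g x) :=
  ⟨fun ⟨x, h⟩ => ⟨cj g⁻¹ x, by rwa [cj_cj_inv]⟩, fun ⟨_, h⟩ => ⟨_, h⟩⟩

theorem card_cj_sub (g : G) (P : Subgroup G → Prop) :
    Nat.card {x // P x} = Nat.card {x // P (cj g x)} :=
  Nat.card_congr ⟨fun x => ⟨cj g⁻¹ x.1, by rw [cj_cj_inv]; exact x.2⟩, fun x => ⟨_, x.2⟩,
    fun x => Subtype.ext (cj_cj_inv g x.1), fun x => Subtype.ext (cj_inv_cj g x.1)⟩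

theorem pg_iff (g : G) (P : Subgroup G) : IsPGroup 2 (cj g P) ↔ IsPGroup 2 P :=
  ⟨fun h => cj_inv_cj g P ▸ isPGroup_cj h g⁻¹, fun h => isPGroup_cj h g⟩

macro "o8t" : tactic => `(tactic| simp only [cj_iff, col_iff, vp_cj, mem_iff, sq_iff, two_iff,
  ne_iff, cent_cj, pg_iff, cj_le_cj_iff, cj_inj, ← cj_normalizer, ← cj_centralizer, ← cj_inf,
  ← cj_sup, cj_eq_bot_iff, Ne, card_cj, mul_inv_eq_one, mul_eq_left])

theorem geo_cj (h : Geo Z W q) (g : G) : Geo (cj g Z) (cj g W) q := by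
  have eZ := cj_eq (cj_cj (cj_refl Z) g)
  have eW := cj_eq (cj_cj (cj_refl W) g)
  have eC := col_eq (cj_cj (cj_refl W) g)
  have eV := vp_eq (cj_cj (cj_refl W) g)
  refine ⟨h.two_le, h.even, cj_mono g h.ZW, fun e => h.Zne (cj_eq_bot_iff.1 e), ?_, ?_, ?_, ?_, ?_,
    ?_, ?_, ?_, ?_, ?_, ?_, ?_, ?_, ?_, ?_, ?_, ?_, ?_, ?_, ?_, ?_⟩ <;>
    try simp only [eZ, eW, eC, eV]
  · rw [forall_conj g]; o8t; exact h.sq
  · rw [forall_cj g]; o8t; exact h.ti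
  · rw [forall_cj g]; o8t
    intro x h1 h2
    obtain ⟨k, hk, e⟩ := h.trans x h1 h2
    exact ⟨g * k * g⁻¹, conj_mem_cj hk, by rw [e, cj_mul, cj_mul, cj_inv_cj]⟩
  · rw [card_cj_sub g]; o8t; exact h.npt
  · rw [card_cj_sub g]; o8t; exact h.nln
  · rw [forall_cj g]; o8t; exact h.span
  · rw [forall_conj g]
    intro w hw
    obtain ⟨x, h1, h2, h3⟩ := h.cover w ((mem_iff g w W).1 hw)
    exact ⟨cj g x, cj_cj h1 g, cj_mono g h2, conj_mem_cj h3⟩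
  · rw [forall_conj g]
    intro a ha
    rw [forall_conj g]
    intro b hb
    rw [vp_cj, mem_iff] at ha hb
    rw [conj_mul, conj_mul, h.Vcomm a ha b hb]
  · rw [forall_conj g]; o8t; exact h.cent
  · rw [forall_cj g]
    intro P h1 h2
    rw [← cj_centralizer, cj_le_cj_iff] at h1
    obtain ⟨l, k1, k2, k3⟩ := h.syl P h1 ((pg_iff g P).1 h2)
    exact ⟨cj g l, cj_cj k1 g, cj_mono g k2, cj_normalizer g l ▸ cj_mono g k3⟩
  · rw [forall_conj g]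
    intro a ha h2 l l'
    obtain ⟨l, rfl⟩ := surj' g l
    obtain ⟨l', rfl⟩ := surj' g l'
    rw [← cj_centralizer, mem_iff] at ha
    intro k1 k2 k3 k4 k5 k6 k7 m
    obtain ⟨m, rfl⟩ := surj' g m
    revert h2 k1 k2 k3 k4 k5 k6 k7
    o8t
    intro h2 k1 k2 k3 k4 k5 k6 k7
    exact h.two a ha h2 l l' k1 k2 k3 k4 k5 k6 k7 m
  · rw [← cj_centralizer]; exact isPGroup_cj h.E2 g
  · rw [← cj_centralizer, card_cj]; exact h.cardE
  · obtain ⟨t, h1, h2⟩ := h.np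
    refine ⟨g * t * g⁻¹, by o8t; exact h1, ?_⟩
    rw [forall_cj g]; o8t; exact h2
  · intro u p l
    obtain ⟨u, rfl⟩ := surj' g u
    obtain ⟨p, rfl⟩ := surj' g p
    obtain ⟨l, rfl⟩ := surj' g l
    intro k1 k2 k3 k4 k5 k6 k7 k8 a
    obtain ⟨a, rfl⟩ := surj g a
    revert k1 k2 k3 k4 k5 k6 k7 k8
    o8t
    intro k1 k2 k3 k4 k5 k6 k7 k8
    exact h.off u p l k1 k2 k3 k4 k5 k6 k7 k8 a
  · rw [forall_conj g]
    intro a
    rw [exists_cj g]; o8t; exact h.invE a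
  · rw [forall_conj g]
    intro a
    rw [exists_cj g]; o8t; exact h.invC a
  · rw [forall_conj g]
    intro a
    rw [forall_cj g, forall_cj (P := fun p => Cj Z p → g * a * g⁻¹ ∉ p) g]; o8t; exact h.invQ a
  · rw [forall_cj g]
    intro p hp
    rw [forall_conj g]
    revert hp
    o8t; exact h.ptE p
  · rw [forall_cj g]
    intro p hp
    rw [forall_conj g]
    revert hp
    o8t; exact h.ptV p
  · intro l l' p p'
    obtain ⟨l, rfl⟩ := surj' g l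
    obtain ⟨l', rfl⟩ := surj' g l'
    obtain ⟨p, rfl⟩ := surj' g p
    obtain ⟨p', rfl⟩ := surj' g p'
    o8t
    exact h.meet l l' p p'

theorem axis_cj (h : Axis Z W) (g : G) : Axis (cj g Z) (cj g W) := by
  have eZ := cj_eq (cj_cj (cj_refl Z) g)
  have eW := cj_eq (cj_cj (cj_refl W) g)
  have eV := vp_eq (cj_cj (cj_refl W) g)
  unfold Axis
  simp only [eZ, eW, eV]
  rw [forall_conj g]
  intro a h1 h2
  rw [vp_cj, mem_iff] at h1
  obtain ⟨l, k1, k2, k3, k4⟩ := h a h1 fun p hp k => h2 _ (cj_cj hp g) (conj_mem_cj k)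
  refine ⟨cj g l, cj_cj k1 g, cj_mono g k2, by o8t; exact k3, ?_⟩
  rw [forall_cj g]; o8t; exact k4

/-- Flag transitivity. -/
theorem flag (h : Geo Z W q) (hx : Cj Z x) (hl : Cj W l) (hxl : x ≤ l) :
    ∃ g, x = cj g Z ∧ l = cj g W := by
  obtain ⟨g, rfl⟩ := hl
  obtain ⟨k, hk, e⟩ := h.trans (cj g⁻¹ x) (cj_cj hx _) (by rwa [cj_le_iff, inv_inv])
  exact ⟨g * k, by rw [cj_mul, ← e, cj_cj_inv], by rw [cj_mul, cj_eq_self hk]⟩

theorem geo_at (h : Geo Z W q) (hx : Cj Z x) (hl : Cj W l) (hxl : x ≤ l) : Geo x l q := by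
  obtain ⟨g, rfl, rfl⟩ := flag h hx hl hxl
  exact geo_cj h g

theorem ex_line (h : Geo Z W q) (hx : Cj Z x) : ∃ l, Cj W l ∧ x ≤ l := by
  obtain ⟨g, rfl⟩ := hx
  exact ⟨cj g W, ⟨g, rfl⟩, cj_mono g h.ZW⟩

theorem ex_pt (h : Geo Z W q) (hl : Cj W l) : ∃ x, Cj Z x ∧ x ≤ l := by
  obtain ⟨g, rfl⟩ := hl
  exact ⟨cj g Z, ⟨g, rfl⟩, cj_mono g h.ZW⟩

theorem col_refl (h : Geo Z W q) (hx : Cj Z x) : Col W x x := by
  obtain ⟨l, h1, h2⟩ := ex_line h hx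
  exact ⟨l, h1, h2, h2⟩

section At

variable (h : Geo Z W q)
include h

theorem ne_bot (hx : Cj Z x) : x ≠ ⊥ := by
  obtain ⟨l, h1, h2⟩ := ex_line h hx
  exact (geo_at h hx h1 h2).Zne

theorem sq_l (hl : Cj W l) : ∀ w ∈ l, w * w = 1 := by
  obtain ⟨x, h1, h2⟩ := ex_pt h hl
  exact (geo_at h h1 hl h2).sq

theorem sq_p (hx : Cj Z x) : ∀ w ∈ x, w * w = 1 := by
  obtain ⟨l, h1, h2⟩ := ex_line h hx
  exact fun w hw => sq_l h h1 w (h2 hw)

theorem ti (hx : Cj Z x) (hy : Cj Z y) (e : x ⊓ y ≠ ⊥) : y = x := by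
  obtain ⟨l, h1, h2⟩ := ex_line h hx
  exact (geo_at h hx h1 h2).ti y (cj_eq hx ▸ hy) e

theorem npt (hl : Cj W l) : Nat.card {x // Cj Z x ∧ x ≤ l} = q + 1 := by
  obtain ⟨x, h1, h2⟩ := ex_pt h hl
  exact cj_eq h1 ▸ (geo_at h h1 hl h2).npt

theorem nln (hx : Cj Z x) : Nat.card {l // Cj W l ∧ x ≤ l} = q ^ 2 + 1 := by
  obtain ⟨l, h1, h2⟩ := ex_line h hx
  exact cj_eq h1 ▸ (geo_at h hx h1 h2).nln

theorem span (hx : Cj Z x) (hy : Cj Z y) (hl : Cj W l) (hxl : x ≤ l) (hyl : y ≤ l) (e : y ≠ x) :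
    x ⊔ y = l := (geo_at h hx hl hxl).span y (cj_eq hx ▸ hy) hyl e

theorem line_eq (hx : Cj Z x) (hy : Cj Z y) (hl : Cj W l) (hm : Cj W m) (e : x ≠ y) (hxl : x ≤ l)
    (hyl : y ≤ l) (hxm : x ≤ m) (hym : y ≤ m) : l = m :=
  (span h hx hy hl hxl hyl e.symm).symm.trans (span h hx hy hm hxm hym e.symm)

theorem trans (hx : Cj Z x) (hy : Cj Z y) (hl : Cj W l) (hxl : x ≤ l) (hyl : y ≤ l) :
    ∃ k ∈ normalizer (l : Set G), y = cj k x := (geo_at h hx hl hxl).trans y (cj_eq hx ▸ hy) hyl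

theorem cover (hl : Cj W l) : ∀ w ∈ l, ∃ x, Cj Z x ∧ x ≤ l ∧ w ∈ x := by
  obtain ⟨x, h1, h2⟩ := ex_pt h hl
  exact cj_eq h1 ▸ (geo_at h h1 hl h2).cover

theorem vcomm (hx : Cj Z x) : ∀ a ∈ Vp W x, ∀ b ∈ Vp W x, a * b = b * a := by
  obtain ⟨l, h1, h2⟩ := ex_line h hx
  exact vp_eq h1 ▸ (geo_at h hx h1 h2).Vcomm

theorem cent (hx : Cj Z x) :
    ∀ g ∈ normalizer (x : Set G), Two g → g ∈ centralizer (x : Set G) := by
  obtain ⟨l, h1, h2⟩ := ex_line h hx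
  exact (geo_at h hx h1 h2).cent

theorem syl (hx : Cj Z x) : ∀ P ≤ centralizer (x : Set G), IsPGroup 2 P →
    ∃ l, Cj W l ∧ x ≤ l ∧ P ≤ normalizer (l : Set G) := by
  obtain ⟨l, h1, h2⟩ := ex_line h hx
  exact cj_eq h1 ▸ (geo_at h hx h1 h2).syl

theorem two (hx : Cj Z x) : ∀ g ∈ centralizer (x : Set G), Two g → ∀ l l', Cj W l → Cj W l' →
    x ≤ l → x ≤ l' → l ≠ l' → g ∈ normalizer (l : Set G) → g ∈ normalizer (l' : Set G) →
    ∀ m, Cj W m → x ≤ m → g ∈ normalizer (m : Set G) := by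
  obtain ⟨l, h1, h2⟩ := ex_line h hx
  exact cj_eq h1 ▸ (geo_at h hx h1 h2).two

theorem e2 (hl : Cj W l) : IsPGroup 2 (centralizer (l : Set G)) := by
  obtain ⟨x, h1, h2⟩ := ex_pt h hl
  exact (geo_at h h1 hl h2).E2

theorem cardE (hl : Cj W l) : Nat.card (centralizer (l : Set G)) = q ^ 11 := by
  obtain ⟨x, h1, h2⟩ := ex_pt h hl
  exact (geo_at h h1 hl h2).cardE

theorem off (hx : Cj Z x) (hl : Cj W l) (hxl : x ≤ l) (hu : Cj Z u) (hul : u ≤ l) (e : u ≠ x)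
    (hp : Cj Z p) (hc : Col W u p) (hn : ¬ p ≤ l) (hm : Cj W m) (hxm : x ≤ m) {a : G} (ha : a ∈ p)
    (h1 : a ≠ 1) (h2 : a ∈ normalizer (m : Set G)) : m = l :=
  (geo_at h hx hl hxl).off u p m (cj_eq hx ▸ hu) hul e (cj_eq hx ▸ hp) (col_eq hl ▸ hc) hn
    (cj_eq hl ▸ hm) hxm a ha h1 h2

theorem invE (hl : Cj W l) : ∀ y ∈ centralizer (l : Set G), y * y = 1 →
    ∃ u, Cj Z u ∧ u ≤ l ∧ y ∈ Vp W u := by
  obtain ⟨x, h1, h2⟩ := ex_pt h hl
  exact cj_eq h1 ▸ vp_eq hl ▸ (geo_at h h1 hl h2).invE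

theorem invC (hx : Cj Z x) : ∀ y ∈ normalizer (x : Set G), y * y = 1 →
    ∃ u, Cj Z u ∧ Col W x u ∧ y ∈ Vp W u := by
  obtain ⟨l, h1, h2⟩ := ex_line h hx
  exact cj_eq hx ▸ vp_eq h1 ▸ col_eq h1 ▸ (geo_at h hx h1 h2).invC

theorem invQ (hx : Cj Z x) : ∀ y ∈ centralizer (x : Set G), y * y = 1 →
    (∀ l, Cj W l → x ≤ l → y ∈ normalizer (l : Set G)) → y ∈ Vp W x ∨ ∀ p, Cj Z p → y ∉ p := by
  obtain ⟨l, h1, h2⟩ := ex_line h hx
  exact cj_eq hx ▸ vp_eq h1 ▸ cj_eq h1 ▸ (geo_at h hx h1 h2).invQ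

theorem ptE (hl : Cj W l) : ∀ p, Cj Z p → ∀ y ∈ p, y ∈ normalizer (l : Set G) →
    y ∈ centralizer (l : Set G) := by
  obtain ⟨x, h1, h2⟩ := ex_pt h hl
  exact cj_eq h1 ▸ (geo_at h h1 hl h2).ptE

theorem ptV (hx : Cj Z x) : ∀ p, Cj Z p → ∀ y ∈ p, y ≠ 1 → y ∈ Vp W x → Col W x p := by
  obtain ⟨l, h1, h2⟩ := ex_line h hx
  exact cj_eq hx ▸ vp_eq h1 ▸ col_eq h1 ▸ (geo_at h hx h1 h2).ptV

theorem meet (hx : Cj Z x) : ∀ l l' p p', Cj W l → Cj W l' → l ≠ l' → x ≤ l → x ≤ l' → Cj Z p →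
    Cj Z p' → p ≤ l → p' ≤ l' → p ≠ x → p' ≠ x → Vp W p ⊓ Vp W p' ≤ x := by
  obtain ⟨l, h1, h2⟩ := ex_line h hx
  exact cj_eq hx ▸ vp_eq h1 ▸ cj_eq h1 ▸ (geo_at h hx h1 h2).meet

omit h in
theorem axis (ha : Axis Z W) (hx : Cj Z x) : ∀ y ∈ Vp W x, (∀ p, Cj Z p → y ∉ p) →
    ∃ l, Cj W l ∧ x ≤ l ∧ centralizer {y} ≤ normalizer (l : Set G) ∧
      ∀ u, Cj Z u → y ∈ Vp W u → u ≤ l := by
  obtain ⟨g, rfl⟩ := hx
  have := axis_cj ha g
  unfold Axis at this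
  rwa [cj_eq (cj_cj (cj_refl Z) g), cj_eq (cj_cj (cj_refl W) g), vp_eq (cj_cj (cj_refl W) g)] at this

theorem sq_v (hx : Cj Z x) : ∀ w ∈ Vp W x, w * w = 1 := by
  intro w hw
  refine iSup_induction' _ (C := fun w _ => w * w = 1) (fun l w hw => ?_) (one_mul 1)
    (fun a b ha hb h1 h2 => ?_) hw
  · by_cases hl : Cj W l ∧ x ≤ l
    · rw [iSup_pos hl] at hw
      exact sq_l h hl.1 w hw
    · rw [iSup_neg hl, mem_bot] at hw
      rw [hw, one_mul]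
  · calc a * b * (a * b) = a * (b * a) * b := by group
      _ = a * a * (b * b) := by rw [← vcomm h hx a ha b hb]; group
      _ = 1 := by rw [h1, h2, one_mul]

/-- Points in a common `V_u` commute. -/
theorem comm_of_col (hu : Cj Z u) (h1 : Col W u x) (h2 : Col W u y) :
    x ≤ centralizer (y : Set G) :=
  fun a ha b hb => vcomm h hu b (le_vp_of_col h2 hb) a (le_vp_of_col h1 ha)

theorem norm_of_comm (hx : Cj Z x) {a g : G} (ha : a ∈ x) (h1 : a ≠ 1) (e : g * a = a * g) :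
    g ∈ normalizer (x : Set G) := by
  refine cj_eq_self_iff.1 (ti h hx (cj_cj hx g) fun k => h1 ?_)
  have : a ∈ x ⊓ cj g x := ⟨ha, by
    have := conj_mem_cj (g := g) ha
    rwa [e, mul_inv_cancel_right] at this⟩
  rwa [k, mem_bot] at this

/-- A `2`-element which normalizes a line normalizes one of its points. -/
theorem fix_pt [Finite G] (hl : Cj W l) {t : G} (ht : Two t) (hn : t ∈ normalizer (l : Set G)) :
    ∃ b, Cj Z b ∧ b ≤ l ∧ t ∈ normalizer (b : Set G) := by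
  classical
  obtain ⟨k, hk⟩ := ht
  let f : normalizer (l : Set G) →* Equiv.Perm {x // Cj Z x ∧ x ≤ l} :=
    { toFun := fun g =>
        ⟨fun x => ⟨cj g x.1, cj_cj x.2.1 _, cj_le_of_norm x.2.2 g.2⟩,
          fun x => ⟨cj (g : G)⁻¹ x.1, cj_cj x.2.1 _, cj_le_of_norm x.2.2 (inv_mem g.2)⟩,
          fun x => Subtype.ext (cj_inv_cj _ _), fun x => Subtype.ext (cj_cj_inv _ _)⟩
      map_one' := Equiv.ext fun x => Subtype.ext (cj_one _)
      map_mul' := fun a b => Equiv.ext fun x => Subtype.ext (cj_mul _ _ _) }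
  have := Fintype.ofFinite {x // Cj Z x ∧ x ≤ l}
  obtain ⟨b, hb⟩ := Equiv.Perm.exists_fixed_point_of_prime (p := 2) (n := k)
    (σ := f ⟨t, hn⟩) (by
      rw [← Nat.card_eq_fintype_card, npt h hl]
      have := h.even
      rw [Nat.even_iff] at this
      omega)
    (by rw [← map_pow, show (⟨t, hn⟩ : normalizer (l : Set G)) ^ 2 ^ k = 1 from Subtype.ext hk,
      map_one])
  exact ⟨b.1, b.2.1, b.2.2, cj_eq_self_iff.1 (congrArg Subtype.val hb)⟩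

end At

theorem two_of_sq {t : G} (h : t * t = 1) : Two t := ⟨1, by rw [pow_one, pow_two, h]⟩

theorem exists_inv {g : G} (h : Two g) (h1 : g ≠ 1) : ∃ n : ℕ, g ^ n ≠ 1 ∧ g ^ n * g ^ n = 1 := by
  obtain ⟨k, hk⟩ := h
  induction k with
  | zero => exact absurd (by simpa using hk) h1
  | succ k ih =>
    by_cases e : g ^ 2 ^ k = 1
    · exact ih e
    · exact ⟨2 ^ k, e, by rw [← pow_add, ← two_mul, ← pow_succ', hk]⟩

end Cfsg.Agent.H18O8
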