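import Cfsg.Agent.H15.O8H
import Cfsg.Agent.H18.O8Kit

/-! The local facts of the point-line geometry from the hypothesis on the centraliser. -/

set_option autoImplicit false
set_option linter.unusedSimpArgs false
set_option linter.unnecessarySeqFocus false
set_option linter.unusedSectionVars false

namespace Cfsg.Agent.H18O8

open Cfsg.Agent.H39 Cfsg.Agent.H83 Cfsg.Agent.H15.O8 Subgroup

variable {K : Type*} [Field K] [Finite K] {T : Tits K} {G : Type*} [Group G] [Finite G]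
  {F : CF T G} {τ m : G}

theorem eq_x6 {z : U T} (h : z ∈ Z6 T) : z = x6 T z.a6 := by
  obtain ⟨h1, h2, h3, h4, h5, h6, h7, h8, h9, h10, h11⟩ := h
  ext <;> first | assumption | rfl

theorem x4_mem (t : K) : x4 T t ∈ Z T := by o8s

theorem x6_mem (t : K) : x6 T t ∈ Z6 T := by o8s

theorem Z6_le_W : Z6 T ≤ W T := fun _ ⟨h1, h2, h3, h4, h5, _, h7, h8, h9, h10, h11⟩ =>
  ⟨h1, h2, h3, h4, h5, h7, h8, h9, h10, h11⟩

theorem mem_L {w : U T} {t : K} : w ∈ cj (x1 T t) (Z6 T) ↔ w ∈ W T ∧ w.a4 = t * w.a6 := by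
  constructor
  · rintro ⟨z, hz, rfl⟩
    rw [eq_x6 hz]
    change x1 T t * x6 T z.a6 * (x1 T t)⁻¹ ∈ W T ∧
      (x1 T t * x6 T z.a6 * (x1 T t)⁻¹).a4 = t * (x1 T t * x6 T z.a6 * (x1 T t)⁻¹).a6
    o8s
    o8ring T
  · rintro ⟨⟨h1, h2, h3, h4, h5, h6, h7, h8, h9, h10⟩, h⟩
    rw [mem_cj]
    o8s
    simp only [h1, h2, h3, h4, h5, h6, h7, h8, h9, h10, h]
    o8s
    o8ring T

theorem cj_s (u : U T) (H : Subgroup (U T)) : cj (F.φ u) (F.s H) = F.s (cj u H) := by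
  ext g
  constructor
  · rintro ⟨_, ⟨v, hv, rfl⟩, rfl⟩
    exact ⟨u * v * u⁻¹, conj_mem_cj hv, by simp⟩
  · rintro ⟨_, ⟨v, hv, rfl⟩, rfl⟩
    exact ⟨_, ⟨v, hv, rfl⟩, by simp⟩

theorem exists_aut {H : Subgroup (U T)} {g : G} (hg : g ∈ normalizer (F.s H : Set G)) :
    ∃ α : H ≃* H, ∀ v : H, F.φ (α v) = g * F.φ v * g⁻¹ := by
  let e := H.equivMapOfInjective F.φ F.inj
  refine ⟨e.trans (((F.s H).normalizerMonoidHom ⟨g, hg⟩).trans e.symm), fun v => ?_⟩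
  have : ∀ x : F.s H, F.φ (e.symm x) = x := fun x =>
    congrArg Subtype.val (e.apply_symm_apply x)
  exact this _

theorem comm_of_sq {H : Subgroup G} (h : ∀ a ∈ H, a * a = 1) {a b : G} (ha : a ∈ H) (hb : b ∈ H) :
    a * b = b * a := by
  rw [← inv_eq_of_mul_eq_one_right (h _ (mul_mem ha hb)), mul_inv_rev,
    inv_eq_of_mul_eq_one_right (h a ha), inv_eq_of_mul_eq_one_right (h b hb)]

macro "o8a" loc:(Lean.Parser.Tactic.location)? : tactic => `(tactic| simp only [cj_iff, col_iff,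
  vp_cj, mem_iff, sq_iff, two_iff, cj_le_cj_iff, cj_inj, ← cj_normalizer, ← cj_centralizer, Ne,
  mul_inv_eq_one, mul_eq_left] $(loc)?)

theorem sq_s {H : Subgroup (U T)} (h : H ≤ V T) : ∀ a ∈ F.s H, a * a = 1 := by
  rintro _ ⟨v, hv, rfl⟩
  rw [← map_mul, sqV v (h hv), map_one]

/-- The data of the linear case. -/
structure Ctx (F : CF T G) (τ m : G) : Prop where
  h : Hyp F τ
  hm : m ∈ normalizer (F.s (E T) : Set G)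
  m4 : ∀ t, m * F.φ (x4 T t) * m⁻¹ = F.φ (x6 T t)
  m6 : ∀ t, m * F.φ (x6 T t) * m⁻¹ = F.φ (x4 T t)

theorem C_Z {c : G} (hc : c ∈ F.C) : cj c (F.s (Z T)) = F.s (Z T) :=
  cj_eq_self (centralizer_le_normalizer _ (F.cZ hc))

theorem ZW : F.s (Z T) ≤ F.s (W T) := map_mono Z_le_W

theorem Zne : F.s (Z T) ≠ ⊥ := fun e => by
  have := F.φ_mem_s.2 (x4_mem (T := T) 1)
  rw [e, mem_bot, map_eq_one_iff _ F.inj] at this
  exact one_ne_zero (congrArg U.a4 this)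

theorem line_C {c : G} (hc : c ∈ F.C) :
    Cj (F.s (W T)) (cj c (F.s (W T))) ∧ F.s (Z T) ≤ cj c (F.s (W T)) :=
  ⟨⟨c, rfl⟩, C_Z hc ▸ cj_mono c ZW⟩

theorem n_ne (u : U T) : cj (F.φ u * F.n) (F.s (W T)) ≠ F.s (W T) := fun e => F.n_not <| by
  have := (F.nW _ (mul_mem (F.φ_mem u) F.n_mem)).1 (cj_eq_self_iff.1 e)
  exact (mul_mem_cancel_left (F.φ_mem_B u)).1 this

namespace Ctx

variable (c : Ctx F τ m)
include c

theorem mZ : cj m (F.s (Z T)) = F.s (Z6 T) := by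
  refine le_antisymm ?_ ?_
  · rintro _ ⟨_, ⟨z, hz, rfl⟩, rfl⟩
    change m * F.φ z * m⁻¹ ∈ _
    rw [eq_x4 hz, c.m4]
    exact F.φ_mem_s.2 (x6_mem _)
  · rintro _ ⟨z, hz, rfl⟩
    rw [eq_x6 hz, ← c.m4]
    exact conj_mem_cj (F.φ_mem_s.2 (x4_mem _))

theorem mW : m ∈ normalizer (F.s (W T) : Set G) := by
  refine mem_normalizer_fintype ?_
  rintro _ ⟨w, hw, rfl⟩
  rw [eq_x4_x6 hw, map_mul, ← conj_mul, c.m4, c.m6]
  exact mul_mem (F.φ_mem_s.2 (Z6_le_W (x6_mem _))) (F.φ_mem_s.2 (Z_le_W (x4_mem _)))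

theorem xmW (u : U T) : F.φ u * m ∈ normalizer (F.s (W T) : Set G) := mul_mem (F.φ_norm_W u) c.mW

theorem L_eq (u : U T) : cj (F.φ u * m) (F.s (Z T)) = F.s (cj u (Z6 T)) := by
  rw [cj_mul, c.mZ, cj_s]

theorem zt {z : G} (hz : z ∈ F.s (Z T)) (h1 : z ≠ 1) : ∃ k, k * τ * k⁻¹ = z := by
  obtain ⟨z, hz, rfl⟩ := hz
  obtain ⟨y, hy, e⟩ := c.h.mem
  have key : ∀ z ∈ Z T, F.φ z ≠ 1 → z.a4 ≠ 0 := fun z hz h e =>
    h (by rw [eq_x4 hz, e]; exact map_one _)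
  have hz0 := key z hz h1
  have hy0 := key y hy (e ▸ c.h.ne)
  obtain ⟨t, ht⟩ := nrm_surj (T := T) (z.a4 / y.a4)
  have ht0 : t ≠ 0 := by
    rintro rfl
    exact div_ne_zero hz0 hy0 (by rw [← ht, zero_mul])
  refine ⟨m * F.d (Units.mk0 t ht0) * m⁻¹, ?_⟩
  have e1 : tor T (1, Units.mk0 t ht0) (x6 T y.a4) = x6 T z.a4 := by
    rw [tor_apply]
    ext <;> o8s
    simp only [Units.val_mk0, ht]
    field_simp
  rw [← e, eq_x4 hy, eq_x4 hz, ← c.m6, ← c.m6, ← e1, ← F.dφ]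
  group

theorem ti0 {x : Subgroup G} (hx : Cj (F.s (Z T)) x) {a : G} (ha : a ∈ F.s (Z T)) (hax : a ∈ x)
    (h1 : a ≠ 1) : x = F.s (Z T) := by
  obtain ⟨g, rfl⟩ := hx
  obtain ⟨k, rfl⟩ := c.zt ha h1
  have h2 := c.h.nZ.ge (c.h.nτ k ha)
  have h3 := c.h.nZ.ge (c.h.nτ (g⁻¹ * k) (by rw [mem_cj] at hax; convert hax using 1; group))
  exact cj_eq_self (by simpa using mul_mem h2 (inv_mem h3))

theorem ti {x y : Subgroup G} (hx : Cj (F.s (Z T)) x) (hy : Cj (F.s (Z T)) y) {a : G} (ha : a ∈ x)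
    (hb : a ∈ y) (h1 : a ≠ 1) : y = x := by
  obtain ⟨g, rfl⟩ := hx
  obtain ⟨y, rfl⟩ := surj' g y
  obtain ⟨a, rfl⟩ := surj g a
  o8a at hy ha hb h1 ⊢
  exact c.ti0 hy ha hb h1

theorem cover0 {w : U T} (hw : w ∈ W T) (hz : w ∉ Z T) :
    ∃ t, F.φ w ∈ cj (F.φ (x1 T t) * m) (F.s (Z T)) := by
  have h0 : w.a6 ≠ 0 := fun h => by
    obtain ⟨h1, h2, h3, h4, h5, h6, h7, h8, h9, h10⟩ := hw
    exact hz ⟨h1, h2, h3, h4, h5, h6, h7, h, h8, h9, h10⟩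
  exact ⟨w.a4 / w.a6, c.L_eq _ ▸ F.φ_mem_s.2 (mem_L.2 ⟨hw, by field_simp⟩)⟩

theorem pt_iff {x : Subgroup G} : Cj (F.s (Z T)) x ∧ x ≤ F.s (W T) ↔
    x = F.s (Z T) ∨ ∃ t, x = cj (F.φ (x1 T t) * m) (F.s (Z T)) := by
  constructor
  · rintro ⟨hx, hW⟩
    have : x ≠ ⊥ := by
      obtain ⟨g, rfl⟩ := hx
      exact fun e => Zne (cj_eq_bot_iff.1 e)
    obtain ⟨⟨a, ha⟩, h1⟩ := ne_bot_iff_exists_ne_one.1 this
    replace h1 : a ≠ 1 := fun e => h1 (Subtype.ext e)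
    obtain ⟨w, hw, rfl⟩ := hW ha
    by_cases hz : w ∈ Z T
    · exact Or.inl (c.ti0 hx (F.φ_mem_s.2 hz) ha h1)
    · obtain ⟨t, ht⟩ := c.cover0 hw hz
      exact Or.inr ⟨t, c.ti ⟨_, rfl⟩ hx ht ha h1⟩
  · rintro (rfl | ⟨t, rfl⟩)
    · exact ⟨cj_refl _, ZW⟩
    · exact ⟨⟨_, rfl⟩, cj_le_of_norm ZW (c.xmW _)⟩

theorem trans {x : Subgroup G} (hx : Cj (F.s (Z T)) x) (hW : x ≤ F.s (W T)) :
    ∃ k ∈ normalizer (F.s (W T) : Set G), x = cj k (F.s (Z T)) := by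
  rcases c.pt_iff.1 ⟨hx, hW⟩ with rfl | ⟨t, rfl⟩
  exacts [⟨1, one_mem _, (cj_one _).symm⟩, ⟨_, c.xmW _, rfl⟩]

theorem npt : Nat.card {x // Cj (F.s (Z T)) x ∧ x ≤ F.s (W T)} = Nat.card K + 1 := by
  have key : ∀ t, F.φ (x4 T t * x6 T 1) ∈ cj (F.φ (x1 T t) * m) (F.s (Z T)) := fun t =>
    c.L_eq _ ▸ F.φ_mem_s.2 (mem_L.2 ⟨by o8s, by o8s⟩)
  have ne : ∀ t, F.s (Z T) ≠ cj (F.φ (x1 T t) * m) (F.s (Z T)) := fun t e => by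
    have := F.φ_mem_s.1 (e.ge (key t))
    o8s at this
    exact one_ne_zero this
  let f : Option K → {x // Cj (F.s (Z T)) x ∧ x ≤ F.s (W T)} := fun o =>
    o.casesOn ⟨_, c.pt_iff.2 (Or.inl rfl)⟩ fun t => ⟨_, c.pt_iff.2 (Or.inr ⟨t, rfl⟩)⟩
  rw [← Finite.card_option]
  refine (Nat.card_eq_of_bijective f ⟨?_, ?_⟩).symm
  · rintro (_ | t) (_ | t') e
    · rfl
    · exact absurd (congrArg Subtype.val e) (ne _)
    · exact absurd (congrArg Subtype.val e).symm (ne _)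
    · have e' : cj (F.φ (x1 T t) * m) (F.s (Z T)) = cj (F.φ (x1 T t') * m) (F.s (Z T)) :=
        congrArg Subtype.val e
      have := key t
      rw [e', c.L_eq, F.φ_mem_s, mem_L] at this
      have := this.2
      o8s at this
      rw [this]
  · rintro ⟨x, hx⟩
    rcases c.pt_iff.1 hx with rfl | ⟨t, rfl⟩
    exacts [⟨none, rfl⟩, ⟨some t, rfl⟩]

theorem line_iff {l : Subgroup G} : Cj (F.s (W T)) l ∧ F.s (Z T) ≤ l ↔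
    ∃ k ∈ F.C, l = cj k (F.s (W T)) := by
  refine ⟨?_, fun ⟨k, hk, e⟩ => e ▸ line_C hk⟩
  rintro ⟨⟨g, rfl⟩, h⟩
  obtain ⟨k, hk, e⟩ := c.trans (x := cj g⁻¹ (F.s (Z T))) ⟨_, rfl⟩ (by rwa [cj_le_iff, inv_inv])
  obtain ⟨k', hk', e'⟩ := F.cj_W (g := g * k)
    (c.h.nZ.le (cj_eq_self_iff.1 (by rw [cj_mul, ← e, cj_cj_inv])))
  exact ⟨k', hk', by rw [← e', cj_mul, cj_eq_self hk]⟩

theorem line_iff' {l : Subgroup G} : Cj (F.s (W T)) l ∧ F.s (Z T) ≤ l ↔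
    l = F.s (W T) ∨ ∃ u ∈ U8 T, l = cj (F.φ u * F.n) (F.s (W T)) := by
  rw [c.line_iff]
  constructor
  · rintro ⟨k, hk, rfl⟩
    by_cases h : k ∈ F.B
    exacts [Or.inl (cj_eq_self ((F.nW k hk).2 h)), Or.inr (F.lines k hk h)]
  · rintro (rfl | ⟨u, -, rfl⟩)
    exacts [⟨1, one_mem _, (cj_one _).symm⟩, ⟨_, mul_mem (F.φ_mem u) F.n_mem, rfl⟩]

theorem nln : Nat.card {l // Cj (F.s (W T)) l ∧ F.s (Z T) ≤ l} = Nat.card K ^ 2 + 1 := by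
  let f : Option (U8 T) → {l // Cj (F.s (W T)) l ∧ F.s (Z T) ≤ l} := fun o =>
    o.casesOn ⟨_, c.line_iff'.2 (Or.inl rfl)⟩ fun u => ⟨_, c.line_iff'.2 (Or.inr ⟨u.1, u.2, rfl⟩)⟩
  rw [← card_U8 (T := T), ← Finite.card_option]
  refine (Nat.card_eq_of_bijective f ⟨?_, ?_⟩).symm
  · rintro (_ | u) (_ | v) e
    · rfl
    · exact absurd (congrArg Subtype.val e).symm (n_ne _)
    · exact absurd (congrArg Subtype.val e) (n_ne _)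
    · have e' : cj (F.φ u * F.n) (F.s (W T)) = cj (F.φ v * F.n) (F.s (W T)) :=
        congrArg Subtype.val e
      have : v.1⁻¹ * u.1 ∈ Q T := (F.Qn _).1 (cj_eq_self_iff.1 (by
        rw [map_mul, map_inv, cj_mul, ← cj_mul (F.φ u), e', cj_mul, cj_inv_cj]))
      have := eq_one_of_U8_Q (mul_mem (inv_mem v.2) u.2) this
      rw [Subtype.ext (inv_mul_eq_one.1 this)]
  · rintro ⟨x, hx⟩
    rcases c.line_iff'.1 hx with rfl | ⟨u, hu, rfl⟩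
    exacts [⟨none, rfl⟩, ⟨some ⟨u, hu⟩, rfl⟩]

theorem span {x : Subgroup G} (hx : Cj (F.s (Z T)) x) (hW : x ≤ F.s (W T)) (e : x ≠ F.s (Z T)) :
    F.s (Z T) ⊔ x = F.s (W T) := by
  refine le_antisymm (sup_le ZW hW) ?_
  obtain ⟨t, rfl⟩ := (c.pt_iff.1 ⟨hx, hW⟩).resolve_left e
  rintro _ ⟨w, hw, rfl⟩
  have : w = x4 T (w.a4 + t * w.a6) * (x4 T (t * w.a6) * x6 T w.a6) := by
    conv_lhs => rw [eq_x4_x6 hw]
    ext <;> o8s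
    o8ring T
  rw [this, map_mul]
  exact mul_mem (mem_sup_left (F.φ_mem_s.2 (x4_mem _)))
    (mem_sup_right (c.L_eq _ ▸ F.φ_mem_s.2 (mem_L.2 ⟨by o8s, by o8s⟩)))

theorem cover {w : G} (hw : w ∈ F.s (W T)) : ∃ x, Cj (F.s (Z T)) x ∧ x ≤ F.s (W T) ∧ w ∈ x := by
  obtain ⟨w, hw, rfl⟩ := hw
  by_cases hz : w ∈ Z T
  · exact ⟨_, cj_refl _, ZW, F.φ_mem_s.2 hz⟩
  · obtain ⟨t, ht⟩ := c.cover0 hw hz
    exact ⟨_, ⟨_, rfl⟩, cj_le_of_norm ZW (c.xmW _), ht⟩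

theorem Vp_eq : Vp (F.s (W T)) (F.s (Z T)) = F.s (V T) := by
  refine le_antisymm (iSup₂_le fun l hl => ?_) (F.Vgen _ fun g hg => le_vp (line_C hg).1 (line_C hg).2)
  obtain ⟨k, hk, rfl⟩ := c.line_iff.1 hl
  exact cj_le_of_norm (map_mono (W_le_R.trans R_le_V)) (F.nV hk)

theorem inC {g : G} (hg : g ∈ normalizer (F.s (Z T) : Set G)) (h2 : Two g) : g ∈ F.C :=
  c.h.two g (c.h.nZ.le hg) h2

theorem syl (P : Subgroup G) (h : P ≤ centralizer (F.s (Z T) : Set G)) (hP : IsPGroup 2 P) :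
    ∃ l, Cj (F.s (W T)) l ∧ F.s (Z T) ≤ l ∧ P ≤ normalizer (l : Set G) := by
  obtain ⟨k, hk, e⟩ := F.syl P (fun g hg => c.inC (centralizer_le_normalizer _ (h hg)) (by
    obtain ⟨n, e⟩ := hP ⟨g, hg⟩
    exact ⟨n, congrArg Subtype.val e⟩)) hP
  refine ⟨_, (line_C (inv_mem hk)).1, (line_C (inv_mem hk)).2, ?_⟩
  rw [← cj_normalizer, ← cj_le_iff]
  refine e.trans ?_
  rintro _ ⟨u, rfl⟩
  exact F.φ_norm_W u

theorem inQ {g : G} (hg : g ∈ F.C) (h2 : Two g) {l l' : Subgroup G} (hl : Cj (F.s (W T)) l)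
    (hl' : Cj (F.s (W T)) l') (hz : F.s (Z T) ≤ l) (hz' : F.s (Z T) ≤ l') (e : l ≠ l')
    (hn : g ∈ normalizer (l : Set G)) (hn' : g ∈ normalizer (l' : Set G)) : g ∈ F.s (Q T) := by
  obtain ⟨k, hk, rfl⟩ := c.line_iff.1 ⟨hl, hz⟩
  obtain ⟨l', rfl⟩ := surj' k l'
  obtain ⟨g, rfl⟩ := surj k g
  rw [← C_Z hk] at hz'
  rw [← cj_eq_self (le_normalizer hk)] at hg
  rw [← cj_eq_self (F.nQ hk)]
  o8a at hg h2 hl' hz' e hn hn' ⊢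
  obtain ⟨u, rfl⟩ := F.twoB g ((F.nW g hg).1 hn) h2
  obtain ⟨v, -, rfl⟩ := (c.line_iff'.1 ⟨hl', hz'⟩).resolve_left (Ne.symm e)
  rw [cj_mul, ← cj_normalizer, mem_cj, ← map_inv, ← map_mul, ← map_mul, F.Qn] at hn'
  exact F.φ_mem_s.2 (by simpa [mul_assoc] using nQ.conj_mem _ hn' v)

theorem Q_norm {g : G} (hg : g ∈ F.s (Q T)) {l : Subgroup G} (hl : Cj (F.s (W T)) l)
    (hz : F.s (Z T) ≤ l) : g ∈ normalizer (l : Set G) := by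
  obtain ⟨k, hk, rfl⟩ := c.line_iff.1 ⟨hl, hz⟩
  rw [← cj_normalizer, mem_cj]
  obtain ⟨u, -, e⟩ := conj_mem' F.nQ hk hg
  exact e ▸ F.φ_norm_W u

theorem pt_le {l p : Subgroup G} (hl : Cj (F.s (W T)) l) (hp : Cj (F.s (Z T)) p) {y : G}
    (hy : y ∈ p) (h1 : y ≠ 1) (hyl : y ∈ l) : p ≤ l := by
  obtain ⟨g, rfl⟩ := hl
  obtain ⟨p, rfl⟩ := surj' g p
  obtain ⟨y, rfl⟩ := surj g y
  o8a at hp hy h1 hyl ⊢
  obtain ⟨x, hx, hW, h⟩ := c.cover hyl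
  rwa [c.ti hx hp h hy h1]

theorem mV (h2 : UF2 T) : cj m (F.s (V T)) = F.s (A T) := by
  obtain ⟨α, hα⟩ := exists_aut c.hm
  have := h2.va α fun z hz => F.φ_mem_s.1 (hα z ▸ c.mZ ▸ conj_mem_cj (F.φ_mem_s.2 hz))
  refine le_antisymm ?_ ?_
  · rintro _ ⟨_, ⟨v, hv, rfl⟩, rfl⟩
    exact ⟨_, (this ⟨v, V_le_E hv⟩).1 hv, hα _⟩
  · rintro _ ⟨a, ha, rfl⟩
    obtain ⟨v, e⟩ := α.surjective ⟨a, A_le_E ha⟩
    have h := hα v
    rw [e] at h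
    exact h ▸ conj_mem_cj (F.φ_mem_s.2 ((this v).2 (e ▸ ha)))

theorem mY (h2 : UF2 T) {y : U T} (hy : y ∈ Y T) : m⁻¹ * F.φ y * m ∈ F.s (Y T) := by
  obtain ⟨α, hα⟩ := exists_aut (inv_mem c.hm)
  exact ⟨_, h2.cY α ⟨y, Y_le_E hy⟩ hy, by simpa using hα _⟩

theorem Vp_L (h2 : UF2 T) (g : G) :
    Vp (F.s (W T)) (cj (g * m) (F.s (Z T))) = cj g (F.s (A T)) := by
  rw [vp_cj, c.Vp_eq, cj_mul, c.mV h2]

end Ctx

/-- The elements which lie in a point. -/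
def Pt (Z : Subgroup G) (a : G) : Prop := ∃ p, Cj Z p ∧ a ∈ p

theorem pt_conj {Z : Subgroup G} {a : G} (g : G) : Pt Z (g * a * g⁻¹) ↔ Pt Z a := by
  rw [Pt, exists_cj g]
  o8a
  rfl

theorem pt_φ (k u : U T) {Z : Subgroup G} : Pt Z (F.φ (k * u * k⁻¹)) ↔ Pt Z (F.φ u) := by
  rw [map_mul, map_mul, map_inv, pt_conj]

theorem Pt.sq {a : G} (h : Pt (F.s (Z T)) a) : a * a = 1 := by
  obtain ⟨_, ⟨g, rfl⟩, h⟩ := h
  obtain ⟨a, rfl⟩ := surj g a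
  o8a at h ⊢
  exact F.sq_Z h

theorem a2_line {u w : U T} (hu : u ∈ U8 T) (hw : w ∈ W T) : (u * w8 w * u⁻¹).a2 = w.a6 := by
  obtain ⟨h1, h2, h3, h4, h5, h6, h7, h8, h9, h10⟩ := hw
  obtain ⟨k1, k2, k3, k4, k5, k6, k7, k8, k9, k10⟩ := hu
  o8s
  simp only [h1, h2, h3, h4, h5, h6, h7, h8, h9, h10, k1, k2, k3, k4, k5, k6, k7, k8, k9, k10]
  o8ring T

theorem mem_Y_of {a : U T} (ha : a ∈ A T) (h : a ∈ Q T) : a ∈ Y T :=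
  let ⟨h1, h2, h3, _, h5, h6, h7⟩ := ha
  ⟨h1, h2, h3, h5, h6, h7, h.2⟩

theorem mem_R_of {a : U T} (ha : a ∈ A T) (h : a ∈ V T) : a ∈ R T :=
  let ⟨h1, h2, h3, h4, h5, h6, h7⟩ := ha
  ⟨h1, h2, h3, h4, h5, h6, h.2.2.2.2.1, h7, h.2.2.2.2.2.2⟩

theorem of_conj {N : Subgroup G} (hN : N.Normal) {k a : G} (h : k * a * k⁻¹ ∈ N) : a ∈ N := by
  simpa using hN.mem_comm h

theorem meet0 {g : G} (hg : g ∈ F.C) (hB : g ∉ F.B) {a b k k' : U T} (ha : a ∈ A T) (hb : b ∈ A T)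
    (e : g * F.φ (k * a * k⁻¹) * g⁻¹ = F.φ (k' * b * k'⁻¹)) : k * a * k⁻¹ ∈ Z T := by
  have e' : g⁻¹ * F.φ (k' * b * k'⁻¹) * g⁻¹⁻¹ = F.φ (k * a * k⁻¹) := by rw [← e]; group
  have h := mt (F.cen g hg _ _ e) hB
  have h' := mt (F.cen _ (inv_mem hg) _ _ e') (mt inv_mem_iff.1 hB)
  simp only [not_or, not_and, not_not] at h h'
  have a1 := nY.conj_mem _ (mem_Y_of ha (of_conj nQ h.2.2)) k
  have b1 := nY.conj_mem _ (mem_Y_of hb (of_conj nQ h'.2.2)) k'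
  have a2 := nR.conj_mem _ (mem_R_of ha (of_conj nV (by_contra fun e => h.2.1 a1 e (Y_le_E b1)))) k
  have b2 := nR.conj_mem _ (mem_R_of hb (of_conj nV (by_contra fun e => h'.2.1 b1 e (Y_le_E a1)))) k'
  exact by_contra fun e => h.1 a2 e b2

/-- The central involution is not conjugate to the elements of the middle root subgroup. -/
def NC (F : CF T G) (τ : G) : Prop := ∀ g a, a ≠ 0 → g * τ * g⁻¹ ≠ F.φ (x5 T a)

namespace Ctx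

variable (c : Ctx F τ m)
include c

theorem pt_τ {a : G} (h : Pt (F.s (Z T)) a) (h1 : a ≠ 1) : ∃ g, g * τ * g⁻¹ = a := by
  obtain ⟨_, ⟨g, rfl⟩, h⟩ := h
  obtain ⟨a, rfl⟩ := surj g a
  o8a at h h1
  obtain ⟨k, rfl⟩ := c.zt h h1
  exact ⟨g * k, by group⟩

theorem no5 (hn : NC F τ) {a : K} (ha : a ≠ 0) : ¬ Pt (F.s (Z T)) (F.φ (x5 T a)) := fun h => by
  obtain ⟨g, e⟩ := c.pt_τ h fun e => ha (congrArg U.a5 ((map_eq_one_iff _ F.inj).1 e))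
  exact hn g a ha e

theorem noR (hn : NC F τ) {r : U T} (hr : r ∈ R T) (h : Pt (F.s (Z T)) (F.φ r)) : r ∈ W T := by
  by_contra hW
  obtain ⟨k, e⟩ := rep5 r hr hW
  obtain ⟨h1, h2, h3, h4, h5, h6, h7, h8, h9⟩ := hr
  exact c.no5 hn (fun h => hW ⟨h1, h2, h3, h4, h5, h, h6, h7, h8, h9⟩) (e ▸ (pt_φ k r).2 h)

theorem onl (hn : NC F τ) {y : G} (hy : y ∈ F.s (V T)) (h : Pt (F.s (Z T)) y) :
    ∃ k ∈ F.C, y ∈ cj k (F.s (W T)) := by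
  obtain ⟨v, hv, rfl⟩ := hy
  rcases repV v hv with hr | ⟨u, -, hr⟩
  · exact ⟨1, one_mem _, (cj_one _).ge (F.φ_mem_s.2 (c.noR hn hr h))⟩
  · have e := F.n_conj (V_le_Q (nV.conj_mem v hv u))
    have := F.φ_mem_s.2 (c.noR hn hr (e ▸ (pt_conj _).2 ((pt_φ u v).2 h)))
    refine ⟨(F.n * F.φ u)⁻¹, inv_mem (mul_mem F.n_mem (F.φ_mem u)), mem_cj.2 ?_⟩
    rw [← e, map_mul, map_mul, map_inv] at this
    convert this using 1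
    group

theorem VY (hn : NC F τ) {v : U T} (hv : v ∈ V T) (h0 : v.a2 = 0) (h : Pt (F.s (Z T)) (F.φ v)) :
    v ∈ W T := by
  obtain ⟨k, hk, hl⟩ := c.onl hn (F.φ_mem_s.2 hv) h
  rcases c.line_iff'.1 (line_C hk) with e | ⟨u, hu, e⟩ <;> rw [e] at hl
  · exact F.φ_mem_s.1 hl
  obtain ⟨_, ⟨w, hw, rfl⟩, e'⟩ := hl
  have : v = u * w8 w * u⁻¹ := F.inj (by
    rw [map_mul, map_mul, map_inv, ← F.n_conj (W_le_Q hw), ← e']
    change F.φ u * F.n * F.φ w * (F.φ u * F.n)⁻¹ = _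
    group)
  have h6 : w.a6 = 0 := by rw [← a2_line hu hw, ← this, h0]
  obtain ⟨h1, h2, h3, h4, h5, h7, h8, h9, h10, h11⟩ := hw
  have hz : w ∈ Z T := ⟨h1, h2, h3, h4, h5, h7, h8, h6, h9, h10, h11⟩
  rw [this, w8_Z_eq hz]
  exact nW.conj_mem _ (Z_le_W hz) u

theorem noY (h2 : UF2 T) (hn : NC F τ) {y : U T} (hy : y ∈ Y T) (h : Pt (F.s (Z T)) (F.φ y)) :
    y ∈ W T := by
  by_cases hV : y ∈ V T
  · exact c.VY hn hV hy.2.2.1 h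
  obtain ⟨k, e⟩ := rep7 y hy hV
  have h0 : y.a7 ≠ 0 := fun e =>
    let ⟨h1, h2, _, h4, h5, h6, h7⟩ := hy
    hV ⟨h1, h2, h4, h5, e, h6, h7⟩
  rw [← pt_φ k, e] at h
  obtain ⟨v, hv, e1⟩ := c.mY h2 (y := x7 T y.a7) (by o8s)
  have hV' : F.φ v ∈ F.s (V T) := by
    rw [e1, ← mem_cj, c.mV h2, F.φ_mem_s]; o8s
  have := F.φ_mem_s.2 (c.VY hn (F.φ_mem_s.1 hV') hv.2.2.1
    (by rw [e1, ← pt_conj m]; simpa [mul_assoc] using h))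
  rw [e1, ← mem_cj, cj_eq_self c.mW, F.φ_mem_s] at this
  exact absurd this.2.2.2.2.2.2.2.1 h0

theorem noS (h2 : UF2 T) (hn : NC F τ) {y : U T} (h : Pt (F.s (Z T)) (F.φ y)) : y ∈ E T := by
  by_contra hE
  obtain ⟨u, -, h1, h3, h4⟩ := invS y (F.inj (by rw [map_mul, h.sq, map_one])) hE
  exact h4 (R_le_V (W_le_R (c.noY h2 hn h3 (F.n_conj h1 ▸ (pt_conj _).2 ((pt_φ u y).2 h)))))

theorem off (h2 : UF2 T) (hn : NC F τ) {u p l : Subgroup G} (hu : Cj (F.s (Z T)) u)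
    (huW : u ≤ F.s (W T)) (e : u ≠ F.s (Z T)) (hp : Cj (F.s (Z T)) p) (hc : Col (F.s (W T)) u p)
    (hpW : ¬ p ≤ F.s (W T)) (hl : Cj (F.s (W T)) l) (hz : F.s (Z T) ≤ l) {a : G} (ha : a ∈ p)
    (h1 : a ≠ 1) (hal : a ∈ normalizer (l : Set G)) : l = F.s (W T) := by
  by_contra hne
  obtain ⟨t, rfl⟩ := (c.pt_iff.1 ⟨hu, huW⟩).resolve_left e
  have := le_vp_of_col hc ha
  rw [c.Vp_L h2, cj_s] at this
  obtain ⟨_, ⟨b, hb, rfl⟩, rfl⟩ := this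
  have hQ := F.φ_mem_s.1 (c.inQ (F.φ_mem _) (F.two_φ _) hl (cj_refl _) hz ZW hne hal (F.φ_norm_W _))
  have := c.noY h2 hn (nY.conj_mem _ (mem_Y_of hb (of_conj nQ hQ)) (x1 T t)) ⟨p, hp, ha⟩
  exact hpW (c.pt_le (cj_refl _) hp ha h1 (F.φ_mem_s.2 this))

theorem invE (h2 : UF2 T) (h3 : UF3 T) {y : G} (hy : y ∈ centralizer (F.s (W T) : Set G))
    (h : y * y = 1) : ∃ u, Cj (F.s (Z T)) u ∧ u ≤ F.s (W T) ∧ y ∈ Vp (F.s (W T)) u := by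
  rw [c.h.cW h3] at hy
  obtain ⟨y, hy, rfl⟩ := hy
  rcases H15.O8.invE y hy (F.inj (by rw [map_mul, h, map_one])) with h1 | ⟨t, h1⟩
  · exact ⟨_, cj_refl _, ZW, c.Vp_eq ▸ F.φ_mem_s.2 h1⟩
  · refine ⟨_, ⟨F.φ (x1 T t)⁻¹ * m, rfl⟩, cj_le_of_norm ZW (c.xmW _), ?_⟩
    rwa [c.Vp_L h2, cj_s, F.φ_mem_s, mem_cj, inv_inv]

theorem invC (h2 : UF2 T) {y : G} (hy : y ∈ normalizer (F.s (Z T) : Set G)) (h : y * y = 1) :
    ∃ u, Cj (F.s (Z T)) u ∧ Col (F.s (W T)) (F.s (Z T)) u ∧ y ∈ Vp (F.s (W T)) u := by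
  have k0 : Col (F.s (W T)) (F.s (Z T)) (F.s (Z T)) := ⟨_, cj_refl _, ZW, ZW⟩
  rcases F.cls y (c.inC hy (H15.O8.two_of_sq h)) h with h1 | ⟨k, hk, r, hr, e⟩
  · exact ⟨_, cj_refl _, k0, le_vp (cj_refl _) ZW (ZW h1)⟩
  have : r ∈ V T ∨ r ∈ A T := by
    obtain ⟨a, b, -, rfl | rfl | rfl | rfl⟩ := hr <;> o8s <;> simp
  rcases this with h1 | h1
  · refine ⟨_, cj_refl _, k0, ?_⟩
    rw [c.Vp_eq, mem_normalizer_iff.1 (F.nV hk), e]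
    exact F.φ_mem_s.2 h1
  · refine ⟨_, ⟨k⁻¹ * m, rfl⟩, ⟨_, (line_C (inv_mem hk)).1, (line_C (inv_mem hk)).2, ?_⟩, ?_⟩
    · rw [cj_mul]
      exact cj_mono _ (cj_le_of_norm ZW c.mW)
    · rw [c.Vp_L h2, mem_cj, inv_inv, e]
      exact F.φ_mem_s.2 h1

theorem invQ (h2 : UF2 T) (hn : NC F τ) {y : G} (hy : y ∈ centralizer (F.s (Z T) : Set G))
    (h : y * y = 1)
    (hl : ∀ l, Cj (F.s (W T)) l → F.s (Z T) ≤ l → y ∈ normalizer (l : Set G)) :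
    y ∈ Vp (F.s (W T)) (F.s (Z T)) ∨ ∀ p, Cj (F.s (Z T)) p → y ∉ p := by
  have h0 := line_C (mul_mem (F.φ_mem 1) F.n_mem)
  have t := H15.O8.two_of_sq h
  obtain ⟨y, hQ, rfl⟩ := c.inQ (c.inC (centralizer_le_normalizer _ hy) t) t h0.1 (cj_refl _) h0.2 ZW
    (n_ne 1) (hl _ h0.1 h0.2) (hl _ (cj_refl _) ZW)
  rw [c.Vp_eq, F.φ_mem_s, or_iff_not_imp_right]
  intro hp
  simp only [not_forall, not_not] at hp
  obtain ⟨p, hp, hyp⟩ := hp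
  exact (H15.O8.invQ y (c.noS h2 hn ⟨p, hp, hyp⟩) hQ (F.inj (by rw [map_mul, h, map_one]))).elim id
    fun hY => R_le_V (W_le_R (c.noY h2 hn hY ⟨p, hp, hyp⟩))

theorem ptE (h2 : UF2 T) (h3 : UF3 T) (hn : NC F τ) {y : G} (h : Pt (F.s (Z T)) y)
    (hy : y ∈ normalizer (F.s (W T) : Set G)) : y ∈ centralizer (F.s (W T) : Set G) := by
  have hs := sq_s (F := F) (W_le_R.trans R_le_V)
  obtain ⟨w, hw, h1, e⟩ : ∃ w ∈ F.s (W T), w ≠ 1 ∧ y * w * y⁻¹ = w := by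
    obtain ⟨⟨w, hw⟩, h1⟩ := ne_bot_iff_exists_ne_one.1 (Zne (F := F))
    replace h1 : w ≠ 1 := fun e => h1 (Subtype.ext e)
    by_cases e : y * w * y⁻¹ = w
    · exact ⟨w, ZW hw, h1, e⟩
    have hw' := (mem_normalizer_iff.1 hy w).1 (ZW hw)
    refine ⟨_, mul_mem (ZW hw) hw', fun e' => e ?_, ?_⟩
    · rw [← inv_eq_of_mul_eq_one_right e', inv_eq_of_mul_eq_one_right (hs w (ZW hw))]
    · rw [← conj_mul, comm_of_sq hs (ZW hw) hw']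
      congr 1
      calc _ = y * y * w * (y * y)⁻¹ := by group
        _ = w := by rw [h.sq]; group
  obtain ⟨x, hx, hW, hwx⟩ := c.cover hw
  have := c.ti hx (cj_cj hx y) hwx (e ▸ conj_mem_cj hwx) h1
  obtain ⟨k, hk, rfl⟩ := c.trans hx hW
  obtain ⟨y, rfl⟩ := surj k y
  rw [cj_eq_self_iff] at this
  rw [← cj_eq_self hk] at hy ⊢
  rw [pt_conj] at h
  o8a at this hy ⊢
  have t := H15.O8.two_of_sq h.sq
  obtain ⟨u, rfl⟩ := F.twoB y ((F.nW y (c.inC this t)).1 hy) t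
  rw [c.h.cW h3]
  exact F.φ_mem_s.2 (c.noS h2 hn h)

theorem meet (h2 : UF2 T) {l l' p p' : Subgroup G} (hl : Cj (F.s (W T)) l) (hl' : Cj (F.s (W T)) l')
    (e : l ≠ l') (hz : F.s (Z T) ≤ l) (hz' : F.s (Z T) ≤ l') (hp : Cj (F.s (Z T)) p)
    (hp' : Cj (F.s (Z T)) p') (h : p ≤ l) (h' : p' ≤ l') (n : p ≠ F.s (Z T)) (n' : p' ≠ F.s (Z T)) :
    Vp (F.s (W T)) p ⊓ Vp (F.s (W T)) p' ≤ F.s (Z T) := by
  have key : ∀ {k : G} {p : Subgroup G}, k ∈ F.C → Cj (F.s (Z T)) p → p ≤ cj k (F.s (W T)) →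
      p ≠ F.s (Z T) → ∀ a ∈ Vp (F.s (W T)) p, ∃ u, ∃ b ∈ A T, a = k * F.φ (u * b * u⁻¹) * k⁻¹ := by
    intro k p hk hp h n a ha
    obtain ⟨p, rfl⟩ := surj' k p
    rw [← C_Z hk] at n
    o8a at hp h n ha
    obtain ⟨t, rfl⟩ := (c.pt_iff.1 ⟨hp, h⟩).resolve_left n
    rw [c.Vp_L h2, cj_s] at ha
    obtain ⟨_, ⟨_, ⟨b, hb, rfl⟩, rfl⟩, rfl⟩ := ha
    exact ⟨_, b, hb, rfl⟩
  obtain ⟨k, hk, rfl⟩ := c.line_iff.1 ⟨hl, hz⟩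
  obtain ⟨k', hk', rfl⟩ := c.line_iff.1 ⟨hl', hz'⟩
  rintro a ⟨ha, ha'⟩
  obtain ⟨u, b, hb, rfl⟩ := key hk hp h n a ha
  obtain ⟨u', b', hb', e'⟩ := key hk' hp' h' n' _ ha'
  have hg := mul_mem (inv_mem hk') hk
  have := meet0 hg (fun hB => e (by
    rw [← cj_inj (g := k'⁻¹), ← cj_mul, cj_eq_self ((F.nW _ hg).2 hB), cj_inv_cj])) hb hb'
    (k := u) (k' := u') (by
      rw [mul_inv_rev, mul_assoc k'⁻¹, mul_assoc k'⁻¹, ← mul_assoc _ k⁻¹, e']; group)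
  exact C_Z hk ▸ conj_mem_cj (F.φ_mem_s.2 this)

theorem geo (h2 : UF2 T) (h3 : UF3 T) (hn : NC F τ) :
    Geo (F.s (Z T)) (F.s (W T)) (Nat.card K) where
  two_le := Finite.one_lt_card
  even := CF.even_card (T := T)
  ZW := ZW
  Zne := Zne
  sq := sq_s (W_le_R.trans R_le_V)
  ti x hx e := by
    obtain ⟨⟨a, ha⟩, h1⟩ := ne_bot_iff_exists_ne_one.1 e
    exact c.ti0 hx ha.1 ha.2 fun e => h1 (Subtype.ext e)
  trans _ := c.trans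
  npt := c.npt
  nln := c.nln
  span _ := c.span
  cover _ := c.cover
  Vcomm a ha b hb := comm_of_sq (sq_s le_rfl) (c.Vp_eq.le ha) (c.Vp_eq.le hb)
  cent g hg h := F.cZ (c.inC hg h)
  syl := c.syl
  two g hg h l l' hl hl' hz hz' e hn hn' _ := c.Q_norm
    (c.inQ (c.inC (centralizer_le_normalizer _ hg) h) h hl hl' hz hz' e hn hn')
  E2 := c.h.cW h3 ▸ F.isPGroup_s _
  cardE := by rw [c.h.cW h3, F.card_s, card_E]
  np := ⟨F.φ (x5 T 1), c.Vp_eq.ge (F.φ_mem_s.2 (by o8s)),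
    fun p hp h => c.no5 hn one_ne_zero ⟨p, hp, h⟩⟩
  off u p l hu huW e hp hc hpW hl hz a := c.off h2 hn hu huW e hp hc hpW hl hz
  invE y := c.invE h2 h3
  invC y := c.invC h2
  invQ y := c.invQ h2 hn
  ptE p hp y hy := c.ptE h2 h3 hn ⟨p, hp, hy⟩
  ptV p hp y hy h1 hV := by
    obtain ⟨k, hk, h⟩ := c.onl hn (c.Vp_eq.le hV) ⟨p, hp, hy⟩
    exact ⟨_, (line_C hk).1, (line_C hk).2, c.pt_le (line_C hk).1 hp hy h1 h⟩
  meet l l' p p' := c.meet h2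

end Ctx

theorem ctx (h : Hyp F τ) (hl : Lin F) : ∃ m, Ctx F τ m :=
  let ⟨m, hm, e⟩ := hl
  ⟨m, h, hm, fun t => (e t).1, fun t => (e t).2⟩

theorem geo (h2 : UF2 T) (h3 : UF3 T) (h : Hyp F τ) (hl : Lin F)
    (hn : ∀ g a, a ≠ 0 → g * τ * g⁻¹ ≠ F.φ (x5 T a)) :
    Geo (F.s (Z T)) (F.s (W T)) (Nat.card K) :=
  let ⟨_, c⟩ := ctx h hl
  c.geo h2 h3 hn

theorem Vp_eq (h : Hyp F τ) (hl : Lin F) : Vp (F.s (W T)) (F.s (Z T)) = F.s (V T) :=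
  let ⟨_, c⟩ := ctx h hl
  c.Vp_eq

theorem line_iff (h : Hyp F τ) (hl : Lin F) {l : Subgroup G} :
    Cj (F.s (W T)) l ∧ F.s (Z T) ≤ l ↔ ∃ k ∈ F.C, l = cj k (F.s (W T)) :=
  let ⟨_, c⟩ := ctx h hl
  c.line_iff

end Cfsg.Agent.H18O8
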