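import Cfsg.Agent.H18.O8Kit

/-! The global facts on the point-line geometry. -/

set_option autoImplicit false

namespace Cfsg.Agent.H18O8

open Cfsg.Agent.H83 Cfsg.Agent.H15.O8 Subgroup
open scoped Pointwise

variable {G : Type*} [Group G] [Finite G] {Z W : Subgroup G} {q : ℕ}

theorem dihedral {u v : G} (hu : u * u = 1) (hv : v * v = 1) (h : ¬ IsConj u v) :
    ∃ w : G, w ≠ 1 ∧ w * w = 1 ∧ w * u = u * w ∧ w * v = v * w := by
  generalize hx : u * v = x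
  have h1 : ∀ j : ℕ, x ^ j * u * x ^ j = u := fun j => by
    induction j with
    | zero => simp
    | succ j ih =>
      calc _ = x ^ j * x * u * (x * x ^ j) := by rw [← pow_succ, ← pow_succ']
        _ = x ^ j * (u * (v * (u * u) * v)) * x ^ j := by simp only [← hx, mul_assoc]
        _ = u := by rw [hu, mul_one, hv, mul_one, ih]
  have h2 : v = u * x := by rw [← hx, ← mul_assoc, hu, one_mul]
  have h3 := pow_orderOf_eq_one x
  rcases Nat.even_or_odd' (orderOf x) with ⟨k, hk | hk⟩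
  · have h4 : x ^ k * x ^ k = 1 := by rw [← pow_add, ← two_mul, ← hk, h3]
    have h5 : x ^ k * u = u * x ^ k := by
      rw [← mul_one (x ^ k * u), ← h4, ← mul_assoc, h1]
    have := orderOf_pos x
    refine ⟨x ^ k, pow_ne_one_of_lt_orderOf (by omega) (by omega), h4, h5, ?_⟩
    rw [h2, ← mul_assoc, h5, mul_assoc, mul_assoc, ← pow_succ, ← pow_succ']
  · refine (h (isConj_iff.2 ⟨x ^ k, ?_⟩)).elim
    rw [hk, two_mul, pow_succ, pow_add] at h3
    rw [h2, ← mul_one (x ^ k * u), ← h3]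
    calc _ = x ^ k * u * x ^ k * (x ^ k * x * (x ^ k)⁻¹) := by group
      _ = u * x := by rw [h1, ← pow_succ, pow_succ', mul_inv_cancel_right]

/-- Every point is within three steps of a fixed line. -/
theorem three_steps (h : Geo Z W q) (ha : Axis Z W) : ∃ l, Cj W l ∧ ∀ x, Cj Z x →
    ∃ u0 u1 u2, Cj Z u0 ∧ Cj Z u1 ∧ Cj Z u2 ∧ u0 ≤ l ∧ Col W u0 u1 ∧ Col W u1 u2 ∧ Col W u2 x := by
  obtain ⟨t, ht, hn⟩ := h.np
  obtain ⟨l, hl, -, -, k⟩ := ha t ht hn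
  have t2 := sq_v h (cj_refl Z) t ht
  refine ⟨l, hl, fun x hx => ?_⟩
  obtain ⟨a, ha1, a1⟩ := (bot_or_exists_ne_one x).resolve_left (ne_bot h hx)
  obtain ⟨y, y1, y2, e1, e2⟩ := dihedral (sq_p h hx a ha1) t2 fun e => by
    obtain ⟨c, hc⟩ := isConj_iff.1 e
    exact hn _ (cj_cj hx c) (hc ▸ conj_mem_cj ha1)
  obtain ⟨u, hu, c1, m1⟩ := invC h hx y (norm_of_comm h hx ha1 a1 e1) y2
  by_cases hp : ∃ p, Cj Z p ∧ y ∈ p
  · obtain ⟨p, hp, hy⟩ := hp
    obtain ⟨u0, hu0, c2, m2⟩ := invC h hp t (norm_of_comm h hp hy y1 e2.symm) t2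
    exact ⟨u0, p, u, hu0, hp, hu, k u0 hu0 m2, col_symm c2, col_symm (ptV h hu p hp y hy y1 m1),
      col_symm c1⟩
  · obtain ⟨l', hl', k1, k2, -⟩ := axis ha hu y m1 fun p h1 h2 => hp ⟨p, h1, h2⟩
    obtain ⟨b, hb, b1, b2⟩ := fix_pt h hl' (two_of_sq t2)
      (k2 (mem_centralizer_singleton_iff.2 e2.symm))
    obtain ⟨u0, hu0, c2, m2⟩ := invC h hb t b2 t2
    exact ⟨u0, b, u, hu0, hb, hu, k u0 hu0 m2, col_symm c2, ⟨l', hl', b1, k1⟩, col_symm c1⟩

section Count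

open Classical in
/-- The flags reached from the line `l` in `k` steps without backtracking. -/
noncomputable def RR (Z W l : Subgroup G) : ℕ → Finset (Subgroup G × Subgroup G)
  | 0 => ((Set.toFinite {x | Cj Z x ∧ x ≤ l}).toFinset).image fun x => (x, l)
  | k + 1 => (RR Z W l k).biUnion fun f =>
      (((Set.toFinite {m | Cj W m ∧ f.1 ≤ m}).toFinset).erase f.2).biUnion fun m =>
        (((Set.toFinite {x | Cj Z x ∧ x ≤ m}).toFinset).erase f.1).image fun x => (x, m)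

theorem mem_zero {l : Subgroup G} {f : Subgroup G × Subgroup G} :
    f ∈ RR Z W l 0 ↔ Cj Z f.1 ∧ f.1 ≤ l ∧ f.2 = l := by
  classical
  simp only [RR, Finset.mem_image, Set.Finite.mem_toFinset, Set.mem_ofPred_eq]
  exact ⟨fun ⟨x, h, e⟩ => e ▸ ⟨h.1, h.2, rfl⟩, fun h => ⟨f.1, ⟨h.1, h.2.1⟩, by rw [← h.2.2]⟩⟩

theorem mem_succ {l : Subgroup G} {k : ℕ} {f : Subgroup G × Subgroup G} :
    f ∈ RR Z W l (k + 1) ↔ ∃ e ∈ RR Z W l k, f.2 ≠ e.2 ∧ Cj W f.2 ∧ e.1 ≤ f.2 ∧ f.1 ≠ e.1 ∧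
      Cj Z f.1 ∧ f.1 ≤ f.2 := by
  classical
  simp only [RR, Finset.mem_image, Set.Finite.mem_toFinset, Set.mem_ofPred_eq, Finset.mem_biUnion,
    Finset.mem_erase]
  exact exists_congr fun e => and_congr_right fun _ =>
    ⟨fun ⟨m, h1, x, h2, h3⟩ => h3 ▸ ⟨h1.1, h1.2.1, h1.2.2, h2.1, h2.2.1, h2.2.2⟩,
      fun h => ⟨f.2, ⟨h.1, h.2.1, h.2.2.1⟩, f.1, ⟨h.2.2.2.1, h.2.2.2.2.1, h.2.2.2.2.2⟩, rfl⟩⟩

theorem rr_flag {l : Subgroup G} (hl : Cj W l) {k : ℕ} {f : Subgroup G × Subgroup G}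
    (hf : f ∈ RR Z W l k) : Cj Z f.1 ∧ Cj W f.2 ∧ f.1 ≤ f.2 := by
  rcases k with _ | k
  · obtain ⟨h1, h2, h3⟩ := mem_zero.1 hf
    exact ⟨h1, h3 ▸ hl, h3 ▸ h2⟩
  · obtain ⟨e, -, -, h1, -, -, h2, h3⟩ := mem_succ.1 hf
    exact ⟨h2, h1, h3⟩

omit [Finite G] in
theorem card_toF (P : Subgroup G → Prop) (hP : {x | P x}.Finite) :
    hP.toFinset.card = Nat.card {x // P x} := by
  rw [← Set.ncard_eq_toFinset_card _ hP]; rfl

theorem card_rr (h : Geo Z W q) {l : Subgroup G} (hl : Cj W l) (k : ℕ) :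
    (RR Z W l k).card ≤ (q + 1) * q ^ (3 * k) := by
  classical
  induction k with
  | zero =>
    refine Finset.card_image_le.trans ?_
    rw [card_toF, npt h hl]; simp
  | succ k ih =>
    refine (Finset.card_biUnion_le_card_mul _ _ (q ^ 2 * q) fun f hf => ?_).trans ?_
    · obtain ⟨h1, h2, h3⟩ := rr_flag hl hf
      refine (Finset.card_biUnion_le_card_mul _ _ q fun m hm => ?_).trans ?_
      · rw [Finset.mem_erase, Set.Finite.mem_toFinset] at hm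
        refine Finset.card_image_le.trans ?_
        rw [Finset.card_erase_of_mem ((Set.Finite.mem_toFinset _).2 (by exact ⟨h1, hm.2.2⟩)), card_toF,
          npt h hm.2.1]
        simp
      · rw [Finset.card_erase_of_mem ((Set.Finite.mem_toFinset _).2 (by exact ⟨h2, h3⟩)), card_toF,
          nln h h1]
        simp
    · calc _ ≤ (q + 1) * q ^ (3 * k) * (q ^ 2 * q) := Nat.mul_le_mul_right _ ih
        _ = _ := by ring

theorem rr_step {l : Subgroup G} {k : ℕ} {x y : Subgroup G}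
    (hx : ∃ j ≤ k, ∃ m, (x, m) ∈ RR Z W l j) (hy : Cj Z y) (c : Col W x y) :
    ∃ j ≤ k + 1, ∃ m, (y, m) ∈ RR Z W l j := by
  obtain ⟨j, hj, m, hm⟩ := hx
  obtain ⟨m', c1, c2, c3⟩ := c
  by_cases e : y = x
  · exact ⟨j, by omega, m, e ▸ hm⟩
  by_cases e' : m' = m
  · subst e'
    rcases j with _ | j
    · obtain ⟨-, -, h3⟩ := mem_zero.1 hm
      exact ⟨0, by omega, m', mem_zero.2 ⟨hy, h3 ▸ c3, h3⟩⟩
    · obtain ⟨f, f1, f2, f3, f4, -⟩ := mem_succ.1 hm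
      by_cases e2 : y = f.1
      · exact ⟨j, by omega, f.2, e2 ▸ f1⟩
      · exact ⟨j + 1, by omega, m', mem_succ.2 ⟨f, f1, f2, f3, f4, e2, hy, c3⟩⟩
  · exact ⟨j + 1, by omega, m', mem_succ.2 ⟨_, hm, e', c1, c2, e, hy, c3⟩⟩

theorem count (h : Geo Z W q) (ha : Axis Z W) :
    Nat.card {x // Cj Z x} ≤ (q + 1) * (q ^ 3 + 1) * (q ^ 6 + 1) := by
  classical
  obtain ⟨l, hl, k⟩ := three_steps h ha
  rw [← card_toF _ (Set.toFinite _)]
  have : (Set.toFinite {x | Cj Z x}).toFinset ⊆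
      (RR Z W l 0 ∪ RR Z W l 1 ∪ RR Z W l 2 ∪ RR Z W l 3).image Prod.fst := by
    intro x hx
    rw [Set.Finite.mem_toFinset] at hx
    obtain ⟨u0, u1, u2, h0, h1, h2, k0, k1, k2, k3⟩ := k x hx
    obtain ⟨j, hj, m, hm⟩ := rr_step (rr_step (rr_step
      ⟨0, le_rfl, l, mem_zero.2 ⟨h0, k0, rfl⟩⟩ h1 k1) h2 k2) hx k3
    refine Finset.mem_image.2 ⟨(x, m), ?_, rfl⟩
    simp only [Finset.mem_union]
    interval_cases j <;> tauto
  refine (Finset.card_le_card this).trans (Finset.card_image_le.trans ?_)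
  refine (Finset.card_union_le _ _).trans ((Nat.add_le_add ((Finset.card_union_le _ _).trans
    (Nat.add_le_add ((Finset.card_union_le _ _).trans
      (Nat.add_le_add (card_rr h hl 0) (card_rr h hl 1))) (card_rr h hl 2))) (card_rr h hl 3)).trans
    (le_of_eq (by ring)))

theorem count_lines (h : Geo Z W q) (ha : Axis Z W) : Nat.card {l // Cj W l} < 2 * q ^ 11 := by
  classical
  have h1 := Finset.card_mul_eq_card_mul (s := (Set.toFinite {l | Cj W l}).toFinset)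
    (t := (Set.toFinite {x | Cj Z x}).toFinset) (fun l x => x ≤ l) (m := q + 1) (n := q ^ 2 + 1)
    (fun l hl => by
      rw [Set.Finite.mem_toFinset] at hl
      rw [← npt h hl, ← card_toF _ (Set.toFinite _)]
      congr 1
      ext x
      simp)
    (fun x hx => by
      rw [Set.Finite.mem_toFinset] at hx
      rw [← nln h hx, ← card_toF _ (Set.toFinite _)]
      congr 1
      ext x
      simp)
  rw [card_toF, card_toF] at h1
  have h2 := Nat.mul_le_mul_right (q ^ 2 + 1) (count h ha)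
  rw [← h1] at h2
  have h3 : Nat.card {l // Cj W l} ≤ (q ^ 2 + 1) * (q ^ 3 + 1) * (q ^ 6 + 1) :=
    Nat.le_of_mul_le_mul_right (h2.trans (le_of_eq (by ring))) (Nat.succ_pos q)
  have k2 : 2 ^ 2 ≤ q ^ 2 := Nat.pow_le_pow_left h.two_le 2
  have k3 : 2 ^ 3 ≤ q ^ 3 := Nat.pow_le_pow_left h.two_le 3
  have k6 : 2 ^ 6 ≤ q ^ 6 := Nat.pow_le_pow_left h.two_le 6
  have h4 : 4 * (q ^ 2 + 1) * (8 * (q ^ 3 + 1)) * (64 * (q ^ 6 + 1)) ≤
      5 * q ^ 2 * (9 * q ^ 3) * (65 * q ^ 6) :=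
    Nat.mul_le_mul (Nat.mul_le_mul (by omega) (by omega)) (by omega)
  have h5 : 2048 * ((q ^ 2 + 1) * (q ^ 3 + 1) * (q ^ 6 + 1)) ≤ 2925 * q ^ 11 :=
    (le_of_eq (by ring)).trans (h4.trans (le_of_eq (by ring)))
  have : 0 < q ^ 11 := pow_pos (by have := h.two_le; omega) _
  omega

end Count

section Paths

variable (h : Geo Z W q) {a b c d e m1 m2 m3 m4 u : Subgroup G}
include h

omit [Finite G] in
theorem not_le (ha : Cj Z a) (hb : Cj Z b) (h1 : Cj W m1) (h2 : Cj W m2) (ab : a ≠ b)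
    (a1 : a ≤ m1) (b1 : b ≤ m1) (b2 : b ≤ m2) (n : m1 ≠ m2) : ¬ a ≤ m2 :=
  fun k => n (line_eq h ha hb h1 h2 ab a1 b1 k b2)

omit [Finite G] in
theorem p6 (ha : Cj Z a) (hb : Cj Z b) (hc : Cj Z c) (hd : Cj Z d) (h1 : Cj W m1) (h2 : Cj W m2)
    (h3 : Cj W m3) (ab : a ≠ b) (bc : b ≠ c) (cd : c ≠ d) (a1 : a ≤ m1) (b1 : b ≤ m1)
    (b2 : b ≤ m2) (c2 : c ≤ m2) (c3 : c ≤ m3) (d3 : d ≤ m3) (n1 : m1 ≠ m2) (n2 : m2 ≠ m3) :
    ¬ d ≤ centralizer (a : Set G) := by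
  intro k
  obtain ⟨y, hy, y1⟩ := (bot_or_exists_ne_one d).resolve_left (ne_bot h hd)
  refine n1 (off h hb h2 b2 hc c2 bc.symm hd ⟨m3, h3, c3, d3⟩
    (not_le h hd hc h3 h2 cd.symm d3 c3 c2 n2.symm) h1 b1 hy y1 ?_)
  rw [← span h ha hb h1 a1 b1 ab.symm]
  refine centralizer_le_normalizer _ ?_
  rw [centralizer_sup]
  exact ⟨k hy, comm_of_col h hc ⟨m3, h3, c3, d3⟩ ⟨m2, h2, c2, b2⟩ hy⟩

omit [Finite G] in
theorem p8 (ha : Cj Z a) (hb : Cj Z b) (hc : Cj Z c) (hd : Cj Z d) (he : Cj Z e) (h1 : Cj W m1)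
    (h2 : Cj W m2) (h3 : Cj W m3) (h4 : Cj W m4) (ab : a ≠ b) (bc : b ≠ c) (cd : c ≠ d)
    (de : d ≠ e) (a1 : a ≤ m1) (b1 : b ≤ m1) (b2 : b ≤ m2) (c2 : c ≤ m2) (c3 : c ≤ m3)
    (d3 : d ≤ m3) (d4 : d ≤ m4) (e4 : e ≤ m4) (n1 : m1 ≠ m2) (n2 : m2 ≠ m3) (n3 : m3 ≠ m4)
    (hu : Cj Z u) (ue : Col W u e) : ¬ a ≤ normalizer (u : Set G) := by
  intro k
  have p1 : IsPGroup 2 a := isPGroup_iff.2 fun x hx => two_of_sq (sq_p h ha x hx)
  have p2 : IsPGroup 2 (Vp W u) := isPGroup_iff.2 fun x hx => two_of_sq (sq_v h hu x hx)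
  have p3 : IsPGroup 2 ↥(a ⊔ e) := (isPGroup_sup p1 p2 fun g hg =>
    cj_eq_self_iff.1 (by rw [← vp_cj, cj_eq_self (k hg)])).to_le
      (sup_le_sup_left (le_vp_of_col ue) a)
  obtain ⟨l, hl, cl, k1⟩ := syl h hc (a ⊔ e) (sup_le
    (comm_of_col h hb ⟨m1, h1, b1, a1⟩ ⟨m2, h2, b2, c2⟩)
    (comm_of_col h hd ⟨m4, h4, d4, e4⟩ ⟨m3, h3, d3, c3⟩)) p3
  obtain ⟨x, hx, x1⟩ := (bot_or_exists_ne_one a).resolve_left (ne_bot h ha)
  obtain ⟨y, hy, y1⟩ := (bot_or_exists_ne_one e).resolve_left (ne_bot h he)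
  exact n2 ((off h hc h2 c2 hb b2 bc ha ⟨m1, h1, b1, a1⟩ (not_le h ha hb h1 h2 ab a1 b1 b2 n1)
    hl cl hx x1 (k1 (mem_sup_left hx))).symm.trans
    (off h hc h3 c3 hd d3 cd.symm he ⟨m4, h4, d4, e4⟩
      (not_le h he hd h4 h3 de.symm e4 d4 d3 n3.symm) hl cl hy y1 (k1 (mem_sup_right hy))))

end Paths

section Opp

variable (h : Geo Z W q) {l0 p1 l1 p2 l2 p3 l3 p4 l4 p5 : Subgroup G}
  (s1 : Step Z W l0 p1 l1 p2) (s2 : Step Z W l1 p2 l2 p3) (s3 : Step Z W l2 p3 l3 p4)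
  (s4 : Step Z W l3 p4 l4 p5)
include h s1 s2 s3 s4

omit [Finite G] in
theorem not_comm {a b : Subgroup G} (ha : Cj Z a) (hb : Cj Z b) (a0 : a ≤ l0) (b4 : b ≤ l4) :
    ¬ a ≤ centralizer (b : Set G) := by
  obtain ⟨L0, P1, L1, P2, i10, i11, i21, n01, m12⟩ := s1
  obtain ⟨-, -, L2, P3, -, i22, i32, n12, m23⟩ := s2
  obtain ⟨-, -, L3, P4, -, i33, i43, n23, m34⟩ := s3
  obtain ⟨-, -, L4, -, -, i44, -, n34, -⟩ := s4
  intro k
  by_cases e1 : a = p1
  · subst e1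
    by_cases e2 : b = p4
    · subst e2
      exact p6 h ha P2 P3 hb L1 L2 L3 m12 m23 m34 i11 i21 i22 i32 i33 i43 n12 n23
        (le_centralizer_iff.1 k)
    · exact p8 h hb P4 P3 P2 ha L4 L3 L2 L1 e2 m34.symm m23.symm m12.symm b4 i44 i43 i33 i32 i22
        i21 i11 n34.symm n23.symm n12.symm ha (col_refl h ha)
        ((le_centralizer_iff.1 k).trans (centralizer_le_normalizer _))
  · exact p8 h ha P1 P2 P3 P4 L0 L1 L2 L3 e1 m12 m23 m34 a0 i10 i11 i21 i22 i32 i33 i43 n01 n12 n23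
      hb ⟨l4, L4, b4, i44⟩ (k.trans (centralizer_le_normalizer _))

theorem oppL1 (ha : Axis Z W) : centralizer (l0 : Set G) ⊓ normalizer (l4 : Set G) = ⊥ := by
  have L0 := s1.1
  have L4 := s4.2.2.1
  rw [eq_bot_iff]
  intro g hg
  by_contra g1
  obtain ⟨n, y1, y2⟩ := exists_inv (isPGroup_iff.1 (e2 h L0) g hg.1) g1
  have hy := pow_mem hg n
  generalize g ^ n = y at y1 y2 hy
  obtain ⟨a, ha1, a0, m1⟩ := invE h L0 y hy.1 y2
  by_cases hp : ∃ p, Cj Z p ∧ y ∈ p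
  · obtain ⟨p, hp, yp⟩ := hp
    obtain ⟨b, hb, b4, m2⟩ := invE h L4 y (ptE h L4 p hp y yp hy.2) y2
    exact not_comm h s1 s2 s3 s4 ha1 hb a0 b4 (comm_of_col h hp
      (col_symm (ptV h ha1 p hp y yp y1 m1)) (col_symm (ptV h hb p hp y yp y1 m2)))
  · obtain ⟨b, hb, b4, b2⟩ := fix_pt h L4 (two_of_sq y2) hy.2
    obtain ⟨u, hu, c, m2⟩ := invC h hb y b2 y2
    obtain ⟨l', hl', k1, -, k3⟩ := axis ha ha1 y m1 fun p h1 h2 => hp ⟨p, h1, h2⟩
    exact not_comm h s1 s2 s3 s4 ha1 hb a0 b4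
      (comm_of_col h hu ⟨l', hl', k3 u hu m2, k1⟩ (col_symm c))

theorem oppL2 (ha : Axis Z W) : ∀ g ∈ normalizer (l0 : Set G),
    ∃ e ∈ centralizer (l0 : Set G), g * e ∈ normalizer (l4 : Set G) := by
  have L0 := s1.1
  have L4 := s4.2.2.1
  have h1 := oppL1 h s1 s2 s3 s4 ha
  have h2 := count_lines h ha
  generalize hN : normalizer (l0 : Set G) = N
  have hCN : centralizer (l0 : Set G) ≤ N := hN ▸ centralizer_le_normalizer _
  have hNC : N ≤ normalizer ((centralizer (l0 : Set G) : Subgroup G) : Set G) :=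
    hN ▸ normalizer_le_normalizer_centralizer _
  have h3 : (normalizer (l4 : Set G)).relIndex N ≤ Nat.card {l // Cj W l} := by
    refine Nat.card_le_card_of_injective (fun x => Quotient.liftOn' x
      (fun g : N => (⟨cj g l4, cj_cj L4 _⟩ : {l // Cj W l})) fun a b e => Subtype.ext ?_) ?_
    · have : (a : G)⁻¹ * b ∈ normalizer (l4 : Set G) :=
        mem_subgroupOf.1 (QuotientGroup.leftRel_apply.1 e)
      change cj (a : G) l4 = cj (b : G) l4
      rw [← mul_inv_cancel_left (a : G) b, cj_mul, cj_eq_self this]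
    · intro x y
      induction x using QuotientGroup.induction_on with | _ a =>
      induction y using QuotientGroup.induction_on with | _ b =>
      intro e
      have e1 : cj (a : G) l4 = cj (b : G) l4 := congrArg Subtype.val e
      refine QuotientGroup.eq.2 (mem_subgroupOf.2 (cj_eq_self_iff.1 ?_))
      change cj ((a : G)⁻¹ * b) l4 = l4
      rw [cj_mul, ← e1, cj_inv_cj]
  have hK : centralizer (l0 : Set G) ⊔ N ⊓ normalizer (l4 : Set G) ≤ N := sup_le hCN inf_le_left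
  have hn : (centralizer (l0 : Set G)).relIndex (N ⊓ normalizer (l4 : Set G)) =
      Nat.card ↥(N ⊓ normalizer (l4 : Set G)) := by
    rw [← inf_relIndex_right, ← inf_assoc, inf_eq_left.2 hCN, h1, relIndex_bot_left]
  have h4 : Nat.card ↥(centralizer (l0 : Set G) ⊔ N ⊓ normalizer (l4 : Set G)) =
      q ^ 11 * Nat.card ↥(N ⊓ normalizer (l4 : Set G)) := by
    have : ((centralizer (l0 : Set G)).subgroupOf
        (centralizer (l0 : Set G) ⊔ N ⊓ normalizer (l4 : Set G))).Normal :=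
      (normal_subgroupOf_iff_le_normalizer le_sup_left).2 (hK.trans hNC)
    have k1 := Subgroup.relIndex_sup_left ((N ⊓ normalizer (l4 : Set G)).subgroupOf
      (centralizer (l0 : Set G) ⊔ N ⊓ normalizer (l4 : Set G))) ((centralizer (l0 : Set G)).subgroupOf
        (centralizer (l0 : Set G) ⊔ N ⊓ normalizer (l4 : Set G)))
    rw [← subgroupOf_sup le_sup_left le_sup_right, relIndex_subgroupOf le_rfl,
      relIndex_subgroupOf le_sup_right, hn] at k1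
    rw [← cardE h L0, ← k1, ← relIndex_bot_left, ← relIndex_bot_left]
    exact (relIndex_mul_relIndex ⊥ _ _ bot_le le_sup_left).symm
  have h5 : Nat.card ↥(N ⊓ normalizer (l4 : Set G)) * (normalizer (l4 : Set G)).relIndex N =
      Nat.card N := by
    rw [← inf_relIndex_left, ← relIndex_bot_left, ← relIndex_bot_left]
    exact relIndex_mul_relIndex ⊥ _ _ bot_le inf_le_left
  have h6 : Nat.card ↥(centralizer (l0 : Set G) ⊔ N ⊓ normalizer (l4 : Set G)) *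
      (centralizer (l0 : Set G) ⊔ N ⊓ normalizer (l4 : Set G)).relIndex N = Nat.card N := by
    rw [← relIndex_bot_left, ← relIndex_bot_left]
    exact relIndex_mul_relIndex ⊥ _ _ bot_le hK
  have h7 : (centralizer (l0 : Set G) ⊔ N ⊓ normalizer (l4 : Set G)).relIndex N = 1 := by
    have k0 : 0 < Nat.card ↥(N ⊓ normalizer (l4 : Set G)) := Nat.card_pos
    have k1 : 0 < Nat.card N := Nat.card_pos
    rw [h4] at h6
    generalize (centralizer (l0 : Set G) ⊔ N ⊓ normalizer (l4 : Set G)).relIndex N = i at h6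
    have k2 : q ^ 11 * i = (normalizer (l4 : Set G)).relIndex N :=
      Nat.eq_of_mul_eq_mul_left k0 (by rw [h5, ← h6]; ring)
    rcases i with _ | _ | i
    · omega
    · rfl
    · nlinarith
  intro g hg
  obtain ⟨n, hn1, c, hc, rfl⟩ := (mem_sup_left_norm' (inf_le_left.trans hNC)).1
    (relIndex_eq_one.1 h7 hg)
  exact ⟨c⁻¹, inv_mem hc, by rw [mul_inv_cancel_right]; exact hn1.2⟩

omit [Finite G] in
theorem oppP (ha : Axis Z W) : ∀ g ∈ centralizer (p1 : Set G), Two g →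
    (∀ l, Cj W l → p1 ≤ l → g ∈ normalizer (l : Set G)) → g ∈ normalizer (p5 : Set G) → g = 1 := by
  obtain ⟨-, P1, L1, P2, -, i11, i21, -, m12⟩ := s1
  obtain ⟨-, -, L2, P3, -, i22, i32, n12, m23⟩ := s2
  obtain ⟨-, -, L3, P4, -, i33, i43, n23, m34⟩ := s3
  obtain ⟨-, -, L4, P5, -, i44, i54, n34, m45⟩ := s4
  intro g hg t hl h5
  by_contra g1
  obtain ⟨n, y1, y2⟩ := exists_inv t g1
  have k1 := pow_mem hg n
  have k2 := fun l a b => pow_mem (hl l a b) n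
  have k3 := pow_mem h5 n
  generalize g ^ n = y at y1 y2 k1 k2 k3
  obtain ⟨u, hu, c, m⟩ := invC h P5 y k3 y2
  refine p8 h P1 P2 P3 P4 P5 L1 L2 L3 L4 m12 m23 m34 m45 i11 i21 i22 i32 i33 i43 i44 i54 n12 n23
    n34 hu (col_symm c) (le_trans ?_ (centralizer_le_normalizer _))
  by_cases hp : ∃ p, Cj Z p ∧ y ∈ p
  · obtain ⟨p, hp, yp⟩ := hp
    have m1 := (invQ h P1 y k1 y2 k2).resolve_right fun k => k p hp yp
    exact comm_of_col h hp (col_symm (ptV h P1 p hp y yp y1 m1))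
      (col_symm (ptV h hu p hp y yp y1 m))
  · obtain ⟨u', hu', c', m'⟩ := invC h P1 y (centralizer_le_normalizer _ k1) y2
    obtain ⟨l', hl', j1, -, j3⟩ := axis ha hu y m fun p h1 h2 => hp ⟨p, h1, h2⟩
    exact comm_of_col h hu' (col_symm c') ⟨l', hl', j3 u' hu' m', j1⟩

end Opp

theorem geoG (h : Geo Z W q) (ha : Axis Z W) : GeoG Z W q where
  count := count h ha
  oppL _ _ _ _ _ _ _ _ _ _ s1 s2 s3 s4 := ⟨oppL1 h s1 s2 s3 s4 ha, oppL2 h s1 s2 s3 s4 ha⟩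
  oppP _ _ _ _ _ _ _ _ _ _ s1 s2 s3 s4 := oppP h s1 s2 s3 s4 ha

end Cfsg.Agent.H18O8
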