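import Cfsg.Agent.H10.PcNf
import Cfsg.Agent.H12.PcE1
import Cfsg.Agent.H18.PcOrb
import Cfsg.Agent.H19.PcA0
import Cfsg.Agent.H20.PcU
import Cfsg.Agent.H21.PcE2
import Cfsg.Agent.H23.PcCv2
import Cfsg.Agent.H29.PcMain
import Cfsg.Agent.H33.PcFix
import Cfsg.Agent.H35.PcWrap
import Cfsg.Agent.H37.PcQ2
import Cfsg.Agent.H38.PcLoc
import Cfsg.Agent.H41.PcKey
import Cfsg.Agent.H44.PcFin
import Cfsg.Agent.H48.PcBb
import Cfsg.Agent.H49.PcOrd
import Cfsg.Agent.H51.PcA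
import Cfsg.Agent.H52.PcFin0
import Cfsg.Agent.H54.PcB
import Cfsg.Agent.H6.PcPick
import Cfsg.Agent.H60.PcCv1
import Cfsg.Agent.H66.PcN1
import Cfsg.Agent.H68.PcC2
import Cfsg.Agent.H7.PcCent
import Cfsg.Agent.H76.PcSyl
import Cfsg.Agent.H80.PcUni
import Cfsg.Agent.H88.PcGl
import Cfsg.Agent.H89.PcTr
import Cfsg.Agent.H9.PcNc
import Cfsg.Agent.H39.PcTrans
import Cfsg.Agent.H65.PcCnt

/-! Assembly of the pieces, conditional on the two last ones. -/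

set_option autoImplicit false

namespace Cfsg.Agent.H18.PcAsm

open Cfsg.Agent.H42.Pc

universe u

theorem main (qo : QoStmt.{0}) (ww : WStmt.{0}) : MainStmt.{0} :=
  have ab := H68.PcC2.ab.{0}
  have trans := H39.PcTrans.trans ab
  have a := H51.PcA.a H19.PcA0.a0.{0}
  have c2 := H68.PcC2.c2 a H54.PcB.b (H66.PcN1.n1 a H48.PcBb.bb) H20.PcU.uu
  have cent := H7.PcCent.cent ab H6.PcPick.pick (H33.PcFix.fix ab) (H60.PcCv1.cv1 ab trans)
    (H23.PcCv2.cv2 ab trans)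
  have endd := H21.PcE2.endd cent (H12.PcE1.e1 ab)
  have fin := H44.PcFin.fin ab c2 H6.PcPick.pick ww H37.PcQ2.q2 endd
  have nf := H10.PcNf.nf H65.PcCnt.cnt H80.PcUni.odd H80.PcUni.uni H18.PcOrb.orb H76.PcSyl.syl
  have loc := H38.PcLoc.loc (H49.PcOrd.ord H41.PcKey.key) (H9.PcNc.nc H76.PcSyl.syl nf) H89.PcTr.tr
  H29.PcMain.main H88.PcGl.gl loc (H52.PcFin0.fin0 qo fin)

theorem top (qo : QoStmt.{0}) (ww : WStmt.{0}) : TopStmt.{u} := H35.PcWrap.top (main qo ww)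

end Cfsg.Agent.H18.PcAsm
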