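import Cfsg.Agent.H18.FixAvg
import Cfsg.Agent.H18.Mobius
import Cfsg.Agent.H4.PLength
import Cfsg.Agent.H21.Basic
import Cfsg.Agent.S3766

/-!
# Degrees of primitive characters of solvable groups and class sizes
-/

set_option autoImplicit false
set_option linter.unusedSectionVars false

namespace Cfsg.Agent.H18

open Cfsg Module

variable {G : Type*} [Group G] [Fintype G] {p : ℕ} [Fact p.Prime]

theorem relIndex_mul_card_map {K L : Subgroup G} [L.Normal] (h : L ≤ K) (C : Subgroup G) :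
    C.relIndex K * Nat.card ((C ⊓ K).map (QuotientGroup.mk' L)) = L.relIndex K * C.relIndex L := by
  refine Nat.eq_of_mul_eq_mul_right (Nat.card_pos (α := (C ⊓ L : Subgroup G))) ?_
  have h1 := relIndex_mul_card L (C ⊓ K)
  rw [← inf_assoc, inf_comm L, inf_eq_left.2 (inf_le_right.trans h)] at h1
  have h2 := relIndex_mul_card L K
  rw [inf_eq_left.2 h] at h2
  rw [← Subgroup.relIndex_ker, QuotientGroup.ker_mk', mul_assoc, h1, relIndex_mul_card, mul_assoc,
    relIndex_mul_card, h2]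

theorem factorization_relIndex_add {K L : Subgroup G} [L.Normal] (h : L ≤ K) (C : Subgroup G) :
    (C.relIndex K).factorization p +
      (Nat.card ((C ⊓ K).map (QuotientGroup.mk' L))).factorization p =
      (L.relIndex K).factorization p + (C.relIndex L).factorization p := by
  have h0 : ∀ A B : Subgroup G, A.relIndex B ≠ 0 := fun _ _ => Subgroup.index_ne_zero_of_finite
  rw [← Finsupp.add_apply, ← Finsupp.add_apply, ← Nat.factorization_mul (h0 _ _) Nat.card_pos.ne',
    ← Nat.factorization_mul (h0 _ _) (h0 _ _), relIndex_mul_card_map h]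

theorem exists_fun_chief [Group.IsSolvable G] {K L R : Subgroup G} [hK : K.Normal] [hL : L.Normal]
    [R.Normal] (hR : ∀ r ∈ R, ∃ n, r ^ p ^ n ∈ fittingSubgroup G) (hLK : L < K)
    (hch : ∀ M : Subgroup G, M.Normal → L ≤ M → M ≤ K → M = L ∨ M = K) {e : ℕ}
    (he : e ^ 2 = L.relIndex K) :
    ∃ f : G → ℕ, (∀ g, ∀ r ∈ R, f (g * r) = f g) ∧
      (∀ g : G, f g + (Nat.card ((Subgroup.centralizer {g} ⊓ K).map
        (QuotientGroup.mk' L))).factorization p ≤ (L.relIndex K).factorization p) ∧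
      Nat.card G * e.factorization p ≤ ∑ g, f g := by
  have hcard : Nat.card (K.map (QuotientGroup.mk' L)) = L.relIndex K := by
    rw [← Subgroup.relIndex_ker, QuotientGroup.ker_mk']
  by_cases h0 : e.factorization p = 0
  · refine ⟨0, fun _ _ _ => rfl, fun g => ?_, by simp [h0]⟩
    rw [← hcard, Pi.zero_apply, zero_add]
    exact (Nat.factorization_le_iff_dvd Nat.card_pos.ne' Nat.card_pos.ne').2
      (Subgroup.card_dvd_of_le (Subgroup.map_mono inf_le_right)) p
  obtain ⟨h1, r, hr, h2, k, hk⟩ := H14.chief_elementary_of_solvable L K L inferInstance le_rfl hLK hch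
  obtain rfl : p = r := (Nat.prime_dvd_prime_iff_eq Fact.out hr).1
    ((Fact.out : p.Prime).dvd_of_dvd_pow (hk ▸ he ▸ dvd_pow (Nat.dvd_of_factorization_pos h0)
      two_ne_zero))
  have hk' : (L.relIndex K).factorization p = k := by
    rw [hk, Nat.Prime.factorization_pow hr, Finsupp.single_eq_same]
  have hke : k = 2 * e.factorization p := by
    rw [← hk', ← he, Nat.factorization_pow, Finsupp.smul_apply, smul_eq_mul]
  have hn : (K.map (QuotientGroup.mk' L)).Normal := hK.map _ (QuotientGroup.mk'_surjective _)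
  have hE : IsElementaryAbelian p (K.map (QuotientGroup.mk' L)) := by
    refine ⟨⟨⟨?_⟩⟩, ?_⟩
    · rintro ⟨_, a, ha, rfl⟩ ⟨_, b, hb, rfl⟩
      refine Subtype.ext (commutatorElement_eq_one_iff_mul_comm.1 ?_)
      exact (QuotientGroup.eq_one_iff _).2 (h1 (Subgroup.commutator_mem_commutator ha hb))
    · rintro _ ⟨a, ha, rfl⟩
      exact (QuotientGroup.eq_one_iff _).2 (h2 a ha)
  let ρ : Representation (ZMod p) G (H4.EA hE) := (H4.EA.conjRep hE).comp (QuotientGroup.mk' L)
  have : Module.Finite (ZMod p) (H4.EA hE) := Module.Finite.of_finite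
  have hrk : finrank (ZMod p) (H4.EA hE) = k := by
    have h3 := Module.natCard_eq_pow_finrank (K := ZMod p) (V := H4.EA hE)
    rw [H4.EA.card_eq, hcard, hk, Nat.card_zmod] at h3
    exact (Nat.pow_right_injective hr.two_le h3).symm
  have hirr : ∀ U : Submodule (ZMod p) (H4.EA hE), (∀ g, ∀ v ∈ U, ρ g v ∈ U) → U = ⊥ ∨ U = ⊤ := by
    intro U hU
    let M : Subgroup G :=
      { carrier := {g | ∃ v ∈ U, v.val = g}
        mul_mem' := fun ⟨v, hv, h⟩ ⟨w, hw, h'⟩ => ⟨v + w, U.add_mem hv hw, by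
          rw [H4.EA.val_add, h, h']; rfl⟩
        one_mem' := ⟨0, U.zero_mem, rfl⟩
        inv_mem' := fun ⟨v, hv, h⟩ => ⟨-v, U.neg_mem hv, by rw [H4.EA.val_neg, h]; rfl⟩ }
    refine (hch M ⟨fun x ⟨v, hv, h⟩ g => ⟨ρ g v, hU g v hv, ?_⟩⟩
      (fun x hx => ⟨0, U.zero_mem, ((QuotientGroup.eq_one_iff x).2 hx).symm⟩)
      fun x ⟨v, hv, h⟩ => ?_).imp (fun h => eq_bot_iff.2 fun v hv => ?_)
      fun h => eq_top_iff.2 fun v _ => ?_
    · exact (H4.EA.val_conjRep hE _ v).trans (by rw [h]; rfl)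
    · obtain ⟨y, hy, h3⟩ := v.val_mem
      have := K.mul_mem hy (hLK.le (QuotientGroup.eq.1 (h3.trans h)))
      rwa [mul_inv_cancel_left] at this
    · obtain ⟨y, -, h3⟩ := v.val_mem
      exact H4.EA.val_eq_one.1 (h3.symm.trans ((QuotientGroup.eq_one_iff y).2
        (h.le ⟨v, hv, h3.symm⟩)))
    · obtain ⟨y, hy, h3⟩ := v.val_mem
      obtain ⟨w, hw, h4⟩ := h.ge hy
      exact H4.EA.val_injective (h4.trans h3) ▸ hw
  have hker : R ≤ ρ.ker := le_ker_of_pow_mem ρ p hirr fun x hx => by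
    obtain ⟨n, hn⟩ := hR x hx
    refine ⟨n, (H4.EA.conjRep_eq_one_iff hE).2 ?_⟩
    rintro _ ⟨y, hy, rfl⟩
    have := (QuotientGroup.eq_one_iff _).2 (S3766.centralizes ⟨hK, hL, hLK, hch⟩ hn y hy)
    exact commutatorElement_eq_one_iff_mul_comm.1 this
  have hne : ρ.ker ≠ ⊤ := fun h => by
    have : Nontrivial (H4.EA hE) := Module.nontrivial_of_finrank_pos (R := ZMod p) (by omega)
    obtain ⟨v, hv⟩ := exists_ne (0 : H4.EA hE)
    have h3 := (hirr (Submodule.span _ {v}) fun g w hw => by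
      rwa [show ρ g = 1 from h.ge (Subgroup.mem_top g)]).resolve_left
      (by rwa [Submodule.span_singleton_eq_bot])
    have h4 := finrank_span_singleton (K := ZMod p) hv
    rw [h3, finrank_top] at h4
    omega
  have h3 := sum_finrank_fx_of_irreducible ρ p hirr hne
  have h4 : ∀ g, finrank (ZMod p) (fx ρ g) ≤ k := fun g => hrk ▸ Submodule.finrank_le _
  refine ⟨fun g => k - finrank (ZMod p) (fx ρ g), fun g r hr => ?_, fun g => ?_, ?_⟩
  · have : ρ (g * r) = ρ g := by rw [map_mul, show ρ r = 1 from hker hr, mul_one]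
    exact congrArg (fun φ : Module.End (ZMod p) (H4.EA hE) =>
      k - finrank (ZMod p) (LinearMap.ker (φ - 1))) this
  · have h5 : Nat.card ((Subgroup.centralizer {g} ⊓ K).map (QuotientGroup.mk' L)) ≤
        Nat.card (fx ρ g) := by
      refine Nat.card_le_card_of_injective (fun y => ⟨H4.EA.mk hE y
        (Subgroup.map_mono inf_le_right y.2), (mem_fx ρ).2 (H4.EA.val_injective ?_)⟩)
        fun y z h => Subtype.ext (congrArg (fun v : fx ρ g => v.1.val) h)
      obtain ⟨_, y, hy, rfl⟩ := y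
      refine (H4.EA.val_conjRep hE _ _).trans (mul_inv_eq_iff_eq_mul.2 ?_)
      exact congrArg (QuotientGroup.mk' L) (hy.1 g rfl)
    rw [Module.natCard_eq_pow_finrank (K := ZMod p) (V := fx ρ g), Nat.card_zmod] at h5
    have h6 := (Nat.pow_le_pow_iff_right hr.one_lt).1
      ((Nat.le_of_dvd Nat.card_pos (Nat.ordProj_dvd _ p)).trans h5)
    have := h4 g
    beta_reduce
    omega
  · have h5 : ∑ g, (k - finrank (ZMod p) (fx ρ g)) + ∑ g, finrank (ZMod p) (fx ρ g) =
        Nat.card G * k := by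
      rw [← Finset.sum_add_distrib, Finset.sum_congr rfl fun g _ => Nat.sub_add_cancel (h4 g),
        Finset.sum_const, Finset.card_univ, smul_eq_mul, Nat.card_eq_fintype_card]
    rw [← Finset.mul_sum, hrk] at h3
    have h6 : Nat.card G * k = 2 * (Nat.card G * e.factorization p) := by rw [hke, mul_left_comm]
    beta_reduce
    omega

theorem exists_fun_of_homog [Group.IsSolvable G] {R : Subgroup G} [R.Normal]
    (hR : ∀ r ∈ R, ∃ n, r ^ p ^ n ∈ fittingSubgroup G) {χ : G → ℂ} (hχ : IsIrrCharacter G χ)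
    (hhom : ∀ L : Subgroup G, L.Normal → H14.Homog L χ) (K : Subgroup G) (hK : K.Normal)
    (θ : IrrCharacter K) {c : ℂ} (hθ : (fun n : K => χ n) = c • θ.1) :
    ∃ f : G → ℕ, (∀ g, ∀ r ∈ R, f (g * r) = f g) ∧
      (∀ g : G, f g ≤ ((Subgroup.centralizer {g}).relIndex K).factorization p) ∧
      Nat.card G * (charDegree θ.1).factorization p ≤ ∑ g, f g := by
  induction K using WellFoundedLT.induction generalizing c with | ind K ih => ?_
  rcases (bot_le : ⊥ ≤ K).eq_or_lt with rfl | hlt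
  · refine ⟨0, fun _ _ _ => rfl, fun _ => Nat.zero_le _, ?_⟩
    rw [H21.charDegree_eq (n := 1) (by
      rw [H11.irr_apply_one_of_comm (fun _ _ => Subsingleton.elim _ _) θ.2, Nat.cast_one])]
    simp
  obtain ⟨L, hL, -, hLK, hch⟩ := H14.exists_chief_below hlt
  have := Fintype.ofFinite L
  obtain ⟨φ, e, hφ, he⟩ := hhom L hL
  obtain ⟨f, hf1, hf2, hf3⟩ := ih L hLK hL ⟨φ, hφ⟩ he
  have h1 : classInner (fun x : L => θ.1 ⟨x, hLK.le x.2⟩) φ ≠ 0 := fun h => by
    refine H14.Homog.inner_ne_zero hχ hφ he ?_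
    rw [show (fun n : L => χ n) = c • fun x : L => θ.1 ⟨x, hLK.le x.2⟩ from
      funext fun x => congrFun hθ ⟨x, hLK.le x.2⟩, H11.classInner_smul_left, h, mul_zero]
  obtain ⟨d, hd, f', hf1', hf2', hf3'⟩ : ∃ d : ℕ, (fun x : L => θ.1 ⟨x, hLK.le x.2⟩) = (d : ℂ) • φ ∧
      ∃ f : G → ℕ, (∀ g, ∀ r ∈ R, f (g * r) = f g) ∧
      (∀ g : G, f g + (Nat.card ((Subgroup.centralizer {g} ⊓ K).map
        (QuotientGroup.mk' L))).factorization p ≤ (L.relIndex K).factorization p) ∧
      Nat.card G * d.factorization p ≤ ∑ g, f g := by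
    rcases H14.going_down K L hLK.le hch (H14.chief_elementary_of_solvable L K L inferInstance
      le_rfl hLK hch).1 θ.2 (H14.invariant_of_res_eq_smul K hχ hθ) hφ h1 with
      h | ⟨d, h, hd⟩ | ⟨h, -⟩
    · refine ⟨1, by rw [h, Nat.cast_one, one_smul], 0, fun _ _ _ => rfl, fun g => ?_, by simp⟩
      rw [show L.relIndex K = Nat.card (K.map (QuotientGroup.mk' L)) by
        rw [← Subgroup.relIndex_ker, QuotientGroup.ker_mk'], Pi.zero_apply, zero_add]
      exact (Nat.factorization_le_iff_dvd Nat.card_pos.ne' Nat.card_pos.ne').2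
        (Subgroup.card_dvd_of_le (Subgroup.map_mono inf_le_right)) p
    · exact ⟨d, h, exists_fun_chief hR hLK hch hd⟩
    · rw [(H14.inertia_eq_top_iff L).mpr (H14.invariant_of_res_eq_smul L hχ he), top_inf_eq] at h
      exact absurd h.symm hLK.ne
  have h2 : charDegree θ.1 = d * charDegree φ := H21.charDegree_eq (by
    rw [Nat.cast_mul, H21.cast_deg ⟨φ, hφ⟩]; exact congrFun hd 1)
  have h3 := H21.deg_ne_zero θ
  rw [h2, mul_ne_zero_iff] at h3
  refine ⟨f + f', fun g r hr => by rw [Pi.add_apply, Pi.add_apply, hf1 g r hr, hf1' g r hr],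
    fun g => ?_, ?_⟩
  · have := factorization_relIndex_add (p := p) hLK.le (Subgroup.centralizer {g})
    have := hf2 g
    have := hf2' g
    rw [Pi.add_apply]
    omega
  · simp only [h2, Nat.factorization_mul h3.1 h3.2, Finsupp.add_apply, mul_add, Pi.add_apply,
      Finset.sum_add_distrib]
    exact (Nat.add_le_add hf3' hf3).trans_eq (add_comm _ _)

/-- The `p`-part of the degree of a primitive character divides the size of the class of every
element of some coset of `R`. -/
theorem exists_factorization_deg_le [Group.IsSolvable G] (R : Subgroup G) [R.Normal]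
    (hR : ∀ r ∈ R, ∃ n, r ^ p ^ n ∈ fittingSubgroup G) (χ : IrrCharacter G)
    (hprim : ¬ ∃ H : Subgroup G, H ≠ ⊤ ∧ ∃ θ : H → ℂ, IsCharacter H θ ∧ indFun H θ = χ.1) :
    ∃ g : G, ∀ r ∈ R, (charDegree χ.1).factorization p ≤
      (Subgroup.centralizer {g * r}).index.factorization p := by
  have hp : H14.PrimOver ⊥ χ.1 := fun U η _ hη h => by_contra fun hU =>
    hprim ⟨U, hU, η, H11.isCharacter_of_irr hη, h⟩
  obtain ⟨f, h1, h2, h3⟩ := exists_fun_of_homog hR χ.2 (fun L _ => hp.homog χ.2 L bot_le) ⊤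
    inferInstance ⟨_, H11.isIrrCharacter_comp_mulEquiv χ.2 Subgroup.topEquiv⟩ (c := 1)
    (one_smul _ _).symm
  obtain ⟨g, -, hg⟩ := Finset.exists_le_of_sum_le (s := Finset.univ)
    (f := fun _ => (charDegree χ.1).factorization p) (g := f) ⟨1, Finset.mem_univ _⟩ (by
      rw [Finset.sum_const, Finset.card_univ, smul_eq_mul, ← Nat.card_eq_fintype_card]; exact h3)
  exact ⟨g, fun r hr => by
    rw [← Subgroup.relIndex_top_right]; exact hg.trans ((h1 g r hr).ge.trans (h2 _))⟩

end Cfsg.Agent.H18
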