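import Cfsg.Agent.H56.SpDefs

set_option autoImplicit false

namespace Cfsg.Agent.H18.SpQd

open Subgroup MulAction Cfsg.Agent.H11.Cy Cfsg.Agent.H56.Sp

theorem qd : QdStmt := by
  intro G _ _ Ω _ _ p A h hy
  haveI := h.nt
  obtain ⟨x, y, hxy⟩ := exists_pair_ne Ω
  have l := hy.lf x y hxy
  obtain ⟨z, hz⟩ := l.ex
  have z4 : ∀ a : G, a * a = z → a ^ 4 = 1 := fun a e => by
    rw [show a ^ 4 = a * a * (a * a) by simp [pow_succ, mul_assoc], e, hz.2.2]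
  refine ⟨?_, ?_⟩
  · obtain ⟨a, -, b, -, h1, h2, h3⟩ := l.q8 z hz
    exact ⟨a, b, h1.trans h2.symm, h1 ▸ hz.2.1, z4 a h1, h3⟩
  · have : ∃ b : Ω, z • b ≠ b := by
      by_contra hn
      push Not at hn
      exact hz.2.1 (h.faith z hn)
    obtain ⟨b, hb⟩ := this
    obtain ⟨u, hu⟩ := (hy.lf b (z • b) hb.symm).ex
    obtain ⟨uz, cm⟩ := hy.cz.sw x y hxy z hz b hb u hu
    obtain ⟨hi, fp⟩ := hy.cz.hi x y hxy z hz u ⟨b, z • b, hb.symm, hu⟩ uz cm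
    obtain ⟨f, -, h1, h2, -⟩ := (hy.pg x y hxy).inv u hi fp z hz
    refine ⟨f, u, hu.2.2, h1 ▸ hz.2.1, z4 f h1, ?_⟩
    have ui : u⁻¹ = u := inv_eq_of_mul_eq_one_right hu.2.2
    have e : f * u = u * z * f := by rw [← h2]; group
    rw [ui, mul_assoc, e, ← mul_assoc, ← mul_assoc, hu.2.2, one_mul, eq_inv_iff_mul_eq_one,
      mul_assoc, h1, hz.2.2]

end Cfsg.Agent.H18.SpQd
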