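import Cfsg.Agent.H42.VpDefs

/-! Project VP, piece I2. -/

set_option autoImplicit false

namespace Cfsg.Agent.H18.VpI2

open Subgroup Cfsg.Agent.H42.Vp

universe u

theorem jordan {H : Type u} [Group H] [Finite H] (C : Subgroup H)
    (h : ∀ k : H, ∃ g : H, g⁻¹ * k * g ∈ C) : C = ⊤ := by
  by_contra hne
  have : Nontrivial (H ⧸ C) := by
    obtain ⟨a, ha⟩ : ∃ a, a ∉ C := by
      by_contra h0
      push Not at h0
      exact hne ((eq_top_iff' C).2 h0)
    exact ⟨⟨((1 : H) : H ⧸ C), (a : H ⧸ C), fun e => ha (by simpa using QuotientGroup.eq.1 e)⟩⟩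
  classical
  have := Fintype.ofFinite H
  have := Fintype.ofFinite (H ⧸ C)
  have := Fintype.ofFinite (MulAction.orbitRel.Quotient H (H ⧸ C))
  have b := MulAction.sum_card_fixedBy_eq_card_orbits_mul_card_group H (H ⧸ C)
  have o : Fintype.card (Quotient (MulAction.orbitRel H (H ⧸ C))) = 1 := by
    rw [Fintype.card_eq_one_iff]
    refine ⟨Quotient.mk _ ((1 : H) : H ⧸ C), fun y => Quotient.inductionOn y fun a => ?_⟩
    exact Quotient.sound (MulAction.exists_smul_eq H _ a)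
  have l : ∑ _a : H, 1 < ∑ a : H, Fintype.card (MulAction.fixedBy (H ⧸ C) a) := by
    refine Finset.sum_lt_sum (fun k _ => ?_) ⟨1, Finset.mem_univ _, ?_⟩
    · obtain ⟨g, hg⟩ := h k
      refine Fintype.card_pos_iff.2 ⟨⟨(g : H ⧸ C), ?_⟩⟩
      show ((k * g : H) : H ⧸ C) = g
      rw [eq_comm, QuotientGroup.eq, ← mul_assoc]
      exact hg
    · obtain ⟨x, y, hxy⟩ := exists_pair_ne (H ⧸ C)
      exact Fintype.one_lt_card_iff.2 ⟨⟨x, one_smul _ _⟩, ⟨y, one_smul _ _⟩,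
        fun e => hxy (congrArg Subtype.val e)⟩
  rw [b] at l
  simp only [Finset.sum_const, Finset.card_univ, smul_eq_mul, mul_one] at l
  have o' : ∀ i : Fintype (Quotient (MulAction.orbitRel H (H ⧸ C))), @Fintype.card _ i = 1 :=
    fun i => by convert o
  rw [o', one_mul] at l
  exact lt_irrefl _ l

theorem i2 : I2Stmt.{u} := by
  intro G _ _ p hp K nK x cop ⟨m, hm⟩ h
  have := Fact.mk hp
  have pX : IsPGroup p (zpowers x) := fun ⟨g, n, hn⟩ => ⟨m, Subtype.ext (by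
    show g ^ p ^ m = 1
    rw [← hn, ← zpow_natCast, ← zpow_mul, mul_comm, zpow_mul, zpow_natCast, hm, one_zpow])⟩
  have key : ∀ k : K, ∃ g : K, g⁻¹ * k * g ∈ (centralizer {x}).subgroupOf K := fun k => by
    let Ω := {y : G // ∃ g ∈ K, y = g * k * g⁻¹}
    have st : ∀ y : G, (∃ g ∈ K, y = g * k * g⁻¹) → ∃ g ∈ K, x * y * x⁻¹ = g * k * g⁻¹ := by
      rintro _ ⟨g, hg, rfl⟩
      obtain ⟨c, hc, e⟩ := h k k.2
      refine ⟨x * g * x⁻¹ * c, K.mul_mem (nK.conj_mem g hg x) hc, ?_⟩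
      calc x * (g * k * g⁻¹) * x⁻¹ = x * g * x⁻¹ * (x * k * x⁻¹) * (x * g * x⁻¹)⁻¹ := by group
        _ = _ := by rw [e]; group
    have st2 : ∀ a ∈ zpowers x, ∀ y : G, (∃ g ∈ K, y = g * k * g⁻¹) →
        ∃ g ∈ K, a * y * a⁻¹ = g * k * g⁻¹ := fun a ha => by
      obtain ⟨n, rfl⟩ := (mem_powers_iff_mem_zpowers.2 ha)
      induction n with
      | zero => intro y hy; simpa using hy
      | succ n ih =>
        intro y hy
        have := st _ (ih (pow_mem (mem_zpowers x) n) y hy)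
        simpa [pow_succ', mul_assoc] using this
    let act : MulAction (zpowers x) Ω :=
      { smul := fun a y => ⟨a * y * (a : G)⁻¹, st2 a a.2 y y.2⟩
        one_smul := fun y => Subtype.ext (show ((1 : G) * y * (1 : G)⁻¹ = y) by simp)
        mul_smul := fun a b y => Subtype.ext (show ((a : G) * b * y * ((a : G) * b)⁻¹ =
          a * (b * y * (b : G)⁻¹) * (a : G)⁻¹) by group) }
    have cd : Nat.card Ω ∣ Nat.card K := by
      let a2 : MulAction K G := MulAction.compHom G ((MulAut.conj).comp K.subtype)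
      have e : Nat.card Ω = (MulAction.stabilizer K (k : G)).index := by
        rw [MulAction.index_stabilizer, ← Nat.card_coe_set_eq]
        exact Nat.card_congr (Equiv.subtypeEquivRight fun y =>
          ⟨fun ⟨g, hg, e⟩ => ⟨⟨g, hg⟩, e.symm⟩, fun ⟨g, e⟩ => ⟨g, g.2, e.symm⟩⟩)
      rw [e]
      exact index_dvd_card _
    obtain ⟨⟨y, g, hg, e⟩, hy⟩ := pX.nonempty_fixed_point_of_prime_not_dvd_card Ω fun hd =>
      (hp.coprime_iff_not_dvd.1 cop.symm) (hd.trans cd)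
    have h2 : x * y * x⁻¹ = y := congrArg Subtype.val (hy ⟨x, mem_zpowers x⟩)
    refine ⟨⟨g⁻¹, K.inv_mem hg⟩, mem_centralizer_singleton_iff.2 ?_⟩
    show g⁻¹⁻¹ * k * g⁻¹ * x = x * (g⁻¹⁻¹ * k * g⁻¹)
    rw [inv_inv, ← e]
    exact (mul_inv_eq_iff_eq_mul.1 h2).symm
  have := jordan _ key
  intro k hk
  have h3 : (⟨k, hk⟩ : K) ∈ (centralizer {x}).subgroupOf K := this ▸ mem_top _
  exact mem_centralizer_singleton_iff.1 h3

end Cfsg.Agent.H18.VpI2
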